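import Cfsg.Agent.H81.SUSix.Setup

/-!
# Presenting the group of the window data
-/

set_option autoImplicit false
set_option linter.unusedSectionVars false
set_option maxHeartbeats 1000000

namespace Cfsg.Agent.H81.SUSix

open Matrix Equiv Cfsg Cfsg.Agent.H78.Phan

universe w

variable {F : Type*} [Field F] [Fintype F] {q N : ℕ}

theorem closure_c4_p4 : Subgroup.closure ({Six.c4, Six.p4} : Set (alternatingGroup (Fin 4))) = ⊤ := by
  refine (Subgroup.eq_top_iff' _).2 fun π => ?_
  have hc : Six.c4 ∈ Subgroup.closure ({Six.c4, Six.p4} : Set (alternatingGroup (Fin 4))) :=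
    Subgroup.subset_closure (Set.mem_insert _ _)
  have hp : Six.p4 ∈ Subgroup.closure ({Six.c4, Six.p4} : Set (alternatingGroup (Fin 4))) :=
    Subgroup.subset_closure (Set.mem_insert_of_mem _ rfl)
  have h1 : (π : Perm (Fin 4)) ∈ (Subgroup.closure ({Six.c4, Six.p4} : Set (alternatingGroup (Fin 4)))).map
      (alternatingGroup (Fin 4)).subtype := by
    refine alt_adjacent (d := 2) _ (fun a => ?_) (Perm.mem_alternatingGroup.1 π.2)
    fin_cases a
    · exact ⟨Six.c4, hc, rfl⟩
    · exact ⟨Six.p4 * Six.c4 ^ 2 * Six.p4, mul_mem (mul_mem hp (pow_mem hc 2)) hp, by decide⟩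
  obtain ⟨π', h', e⟩ := h1
  rwa [show π' = π from Subtype.ext e] at h'

/-- The values of the letters in the unitary group. -/
noncomputable def tgtVal (hN : 5 ≤ N) : alternatingGroup (Fin N) ⊕ ↥(SU 4 F q) → ↥(SU N F q) :=
  Sum.elim pA (emb (e4 0 (by omega)))

/-- The values of the letters in a group with window data. -/
def Six.val {X : Type w} [Group X] (D : Six X F q N) : alternatingGroup (Fin N) ⊕ ↥(SU 4 F q) → X :=
  Sum.elim D.σA D.φ

/-- A presentation from the alternating group, a window and further relations. -/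
theorem six_pres (hF : Fintype.card F = q ^ 2) (hN : 5 ≤ N) {κA κ4 : Type} [Fintype κA] [Fintype κ4]
    (rA : Finset (FreeGroup κA)) (eA : PresentedGroup (↑rA : Set (FreeGroup κA)) ≃* alternatingGroup (Fin N))
    (R4 : Finset (FreeGroup κ4)) (eF : PresentedGroup (↑R4 : Set (FreeGroup κ4)) ≃* ↥(SU 4 F q))
    (E : List (FreeGroup (alternatingGroup (Fin N) ⊕ ↥(SU 4 F q))))
    (hE : ∀ r ∈ E, FreeGroup.lift (tgtVal hN) r = 1)
    (hgood : ∀ (X : Type) [Group X] (D : Six X F q N), (∀ r ∈ E, FreeGroup.lift D.val r = 1) →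
      Function.Bijective D.f) :
    ∃ (R : Finset (FreeGroup (κA ⊕ κ4)))
      (e : PresentedGroup (↑R : Set (FreeGroup (κA ⊕ κ4))) ≃* ↥(SU N F q)),
      R.card ≤ rA.card + R4.card + 2 + E.length ∧
      (∀ i, e (PresentedGroup.of (Sum.inl i)) = pA (eA (PresentedGroup.of i))) ∧
      ∀ j, e (PresentedGroup.of (Sum.inr j)) = emb (e4 0 (by omega)) (eF (PresentedGroup.of j)) := by
  classical
  let w4 : Fin 4 ↪ Fin N := e4 0 (by omega)
  let W := FreeGroup (κA ⊕ κ4)
  have hπA : Function.Surjective fun w : FreeGroup κA => eA (PresentedGroup.mk _ w) :=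
    eA.surjective.comp (PresentedGroup.mk_surjective _)
  have hπ4 : Function.Surjective fun w : FreeGroup κ4 => eF (PresentedGroup.mk _ w) :=
    eF.surjective.comp (PresentedGroup.mk_surjective _)
  let wd : alternatingGroup (Fin N) ⊕ ↥(SU 4 F q) → W :=
    Sum.elim (fun g => FreeGroup.map Sum.inl (Function.surjInv hπA g))
      (fun z => FreeGroup.map Sum.inr (Function.surjInv hπ4 z))
  let lk : alternatingGroup (Fin 4) → W := fun π =>
    wd (.inr (pA π)) * (wd (.inl (extA w4 π)))⁻¹
  let R : Finset W := (rA.image (FreeGroup.map Sum.inl) ∪ R4.image (FreeGroup.map Sum.inr)) ∪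
    ({lk Six.c4, lk Six.p4} ∪ (E.map (FreeGroup.lift wd)).toFinset)
  have hcard : R.card ≤ rA.card + R4.card + 2 + E.length := by
    have h1 : (rA.image (FreeGroup.map Sum.inl) ∪ R4.image (FreeGroup.map Sum.inr) : Finset W).card ≤
        rA.card + R4.card :=
      (Finset.card_union_le _ _).trans (Nat.add_le_add Finset.card_image_le Finset.card_image_le)
    have h2 : ({lk Six.c4, lk Six.p4} ∪ (E.map (FreeGroup.lift wd)).toFinset : Finset W).card ≤ 2 + E.length :=
      (Finset.card_union_le _ _).trans (Nat.add_le_add Finset.card_le_two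
        ((List.toFinset_card_le _).trans (by simp)))
    have h3 : R.card ≤ _ := Finset.card_union_le _ _
    omega
  let fg : κA ⊕ κ4 → ↥(SU N F q) :=
    Sum.elim (fun i => pA (eA (PresentedGroup.of i))) (fun j => emb w4 (eF (PresentedGroup.of j)))
  have hfl : ∀ w : FreeGroup κA, FreeGroup.lift fg (FreeGroup.map Sum.inl w) = pA (eA (PresentedGroup.mk _ w)) :=
    fun w => DFunLike.congr_fun (FreeGroup.ext_hom ((FreeGroup.lift fg).comp (FreeGroup.map Sum.inl))
      ((pA.comp eA.toMonoidHom).comp (PresentedGroup.mk _)) fun i => by simp [fg]; rfl) w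
  have hfr : ∀ w : FreeGroup κ4, FreeGroup.lift fg (FreeGroup.map Sum.inr w) =
      emb w4 (eF (PresentedGroup.mk _ w)) :=
    fun w => DFunLike.congr_fun (FreeGroup.ext_hom ((FreeGroup.lift fg).comp (FreeGroup.map Sum.inr))
      (((emb w4).comp eF.toMonoidHom).comp (PresentedGroup.mk _)) fun i => by simp [fg]; rfl) w
  have tA : ∀ g, FreeGroup.lift fg (wd (.inl g)) = pA g := fun g => by
    simp only [wd, Sum.elim_inl, hfl]; exact congrArg pA (Function.surjInv_eq hπA g)
  have t4 : ∀ z, FreeGroup.lift fg (wd (.inr z)) = emb w4 z := fun z => by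
    simp only [wd, Sum.elim_inr, hfr]; exact congrArg (emb w4) (Function.surjInv_eq hπ4 z)
  have tE : ∀ r, FreeGroup.lift fg (FreeGroup.lift wd r) = FreeGroup.lift (tgtVal hN) r := fun r =>
    DFunLike.congr_fun (FreeGroup.ext_hom ((FreeGroup.lift fg).comp (FreeGroup.lift wd))
      (FreeGroup.lift (tgtVal hN)) fun i => by
        rcases i with g | z
        · simpa [tgtVal] using tA g
        · simpa [tgtVal] using t4 z) r
  have hA : ∀ r ∈ (↑R : Set W), FreeGroup.lift fg r = 1 := by
    intro r hr
    simp only [R, Finset.coe_union, Finset.coe_image, Finset.coe_insert, Finset.coe_singleton, List.coe_toFinset,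
      Set.mem_union, Set.mem_image, Finset.mem_coe, Set.mem_insert_iff, Set.mem_singleton_iff, Set.mem_setOf_eq,
      List.mem_map] at hr
    rcases hr with (⟨x, hx, rfl⟩ | ⟨x, hx, rfl⟩) | (rfl | rfl) | ⟨x, hx, rfl⟩
    · rw [hfl, PresentedGroup.one_of_mem (Finset.mem_coe.2 hx), map_one, map_one]
    · rw [hfr, PresentedGroup.one_of_mem (Finset.mem_coe.2 hx), map_one, map_one]
    · simp only [lk, map_mul, map_inv, tA, t4, mul_inv_eq_one]; exact emb_pA _ _
    · simp only [lk, map_mul, map_inv, tA, t4, mul_inv_eq_one]; exact emb_pA _ _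
    · rw [tE, hE x hx]
  let f : PresentedGroup (↑R : Set W) →* ↥(SU N F q) := PresentedGroup.toGroup hA
  let mk := PresentedGroup.mk (↑R : Set W)
  have hrel : ∀ r ∈ R, mk r = 1 := fun r hr => PresentedGroup.one_of_mem (Finset.mem_coe.2 hr)
  have hBA : ∀ r ∈ (↑rA : Set (FreeGroup κA)), FreeGroup.lift (fun i => mk (FreeGroup.of (Sum.inl i))) r = 1 := by
    intro r hr
    rw [show FreeGroup.lift (fun i => mk (FreeGroup.of (Sum.inl i))) r = mk (FreeGroup.map Sum.inl r) from
      DFunLike.congr_fun (FreeGroup.ext_hom (FreeGroup.lift fun i => mk (FreeGroup.of (Sum.inl i)))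
        (mk.comp (FreeGroup.map Sum.inl)) fun i => by simp) r]
    exact hrel _ (Finset.mem_union_left _ (Finset.mem_union_left _
      (Finset.mem_image_of_mem _ (Finset.mem_coe.1 hr))))
  have hB4 : ∀ r ∈ (↑R4 : Set (FreeGroup κ4)), FreeGroup.lift (fun i => mk (FreeGroup.of (Sum.inr i))) r = 1 := by
    intro r hr
    rw [show FreeGroup.lift (fun i => mk (FreeGroup.of (Sum.inr i))) r = mk (FreeGroup.map Sum.inr r) from
      DFunLike.congr_fun (FreeGroup.ext_hom (FreeGroup.lift fun i => mk (FreeGroup.of (Sum.inr i)))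
        (mk.comp (FreeGroup.map Sum.inr)) fun i => by simp) r]
    exact hrel _ (Finset.mem_union_left _ (Finset.mem_union_right _
      (Finset.mem_image_of_mem _ (Finset.mem_coe.1 hr))))
  let σB : alternatingGroup (Fin N) →* PresentedGroup (↑R : Set W) :=
    (PresentedGroup.toGroup hBA).comp eA.symm.toMonoidHom
  let φB : ↥(SU 4 F q) →* PresentedGroup (↑R : Set W) := (PresentedGroup.toGroup hB4).comp eF.symm.toMonoidHom
  have gA : ∀ w, σB (eA (PresentedGroup.mk _ w)) = mk (FreeGroup.map Sum.inl w) := fun w => by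
    show PresentedGroup.toGroup hBA (eA.symm (eA _)) = _
    rw [MulEquiv.symm_apply_apply]
    exact DFunLike.congr_fun (FreeGroup.ext_hom (FreeGroup.lift fun i => mk (FreeGroup.of (Sum.inl i)))
        (mk.comp (FreeGroup.map Sum.inl)) fun i => by simp) w
  have g4 : ∀ w, φB (eF (PresentedGroup.mk _ w)) = mk (FreeGroup.map Sum.inr w) := fun w => by
    show PresentedGroup.toGroup hB4 (eF.symm (eF _)) = _
    rw [MulEquiv.symm_apply_apply]
    exact DFunLike.congr_fun (FreeGroup.ext_hom (FreeGroup.lift fun i => mk (FreeGroup.of (Sum.inr i)))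
        (mk.comp (FreeGroup.map Sum.inr)) fun i => by simp) w
  have mA : ∀ g, mk (wd (.inl g)) = σB g := fun g => by
    conv_rhs => rw [← Function.surjInv_eq hπA g]
    exact (gA _).symm
  have m4 : ∀ z, mk (wd (.inr z)) = φB z := fun z => by
    conv_rhs => rw [← Function.surjInv_eq hπ4 z]
    exact (g4 _).symm
  have hlink : ∀ π : alternatingGroup (Fin 4), φB (pA π) = σB (extA w4 π) := by
    have h0 : ∀ π, π = Six.c4 ∨ π = Six.p4 → φB (pA π) = σB (extA w4 π) := fun π hπ => by
      have hm : lk π ∈ R := by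
        refine Finset.mem_union_right _ (Finset.mem_union_left _ ?_)
        rcases hπ with rfl | rfl <;> simp
      have := hrel _ hm
      simp only [lk, map_mul, map_inv, mul_inv_eq_one, mA, m4] at this
      exact this
    have := MonoidHom.eq_of_eqOn_top (f := φB.comp pA) (g := σB.comp (extA w4)) (by
      rw [← closure_c4_p4]
      exact MonoidHom.eqOn_closure fun π hπ => h0 π hπ)
    exact fun π => DFunLike.congr_fun this π
  let D : Six (PresentedGroup (↑R : Set W)) F q N :=
    { hF := hF, hN := hN, σA := σB, φ := φB, f := f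
      fσ := fun g => by rw [← mA]; exact tA g
      fφ := fun z => by rw [← m4]; exact t4 z
      link := hlink
      gen := by
        rw [eq_top_iff, ← PresentedGroup.closure_range_of, Subgroup.closure_le]
        rintro _ ⟨i | j, rfl⟩
        · exact Subgroup.subset_closure (Or.inl ⟨_, (gA (FreeGroup.of i)).trans (by simp [mk]; rfl)⟩)
        · exact Subgroup.subset_closure (Or.inr ⟨_, (g4 (FreeGroup.of j)).trans (by simp [mk]; rfl)⟩) }
  have hb : Function.Bijective f := hgood _ D fun r hr => by
    have h1 : mk (FreeGroup.lift wd r) = 1 := hrel _ (Finset.mem_union_right _ (Finset.mem_union_right _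
      (List.mem_toFinset.2 (List.mem_map_of_mem hr))))
    rw [← h1]
    refine DFunLike.congr_fun (FreeGroup.ext_hom (FreeGroup.lift D.val) (mk.comp (FreeGroup.lift wd)) fun i => ?_) r
    rcases i with g | z
    · simp [Six.val, D, mA]
    · simp [Six.val, D, m4]
  refine ⟨R, MulEquiv.ofBijective f hb, hcard, fun i => ?_, fun j => ?_⟩
  · show FreeGroup.lift fg (FreeGroup.of (Sum.inl i)) = _
    rw [FreeGroup.lift_apply_of]; rfl
  · show FreeGroup.lift fg (FreeGroup.of (Sum.inr j)) = _
    rw [FreeGroup.lift_apply_of]; rfl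

namespace Six

variable {X : Type w} [Group X] (D : Six X F q N)

/-- Invariance from the generators of the stabiliser. -/
theorem inv_of_theta {k : ℕ} {R : Subgroup X} (S : Set X) (hS : R = Subgroup.closure S) (hk : k ≤ N)
    (hk2 : k + 2 ≤ N) {a b : Fin N} (ha : (a : ℕ) < k) (hb : (b : ℕ) < k) (hab : a ≠ b)
    (hgen : ∀ i, ∀ x ∈ S, D.cv (theta hk ha hb hab (tailGen hk2 i)) x ∈ R)
    (π : Perm (Fin (N - k))) : ∀ x ∈ R, D.cv (theta hk ha hb hab π) x ∈ R := by
  classical
  have hπ : π ∈ Subgroup.closure (Set.range (tailGen hk2)) := by rw [closure_tailGen hk2]; trivial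
  induction hπ using Subgroup.closure_induction with
  | mem y hy =>
    obtain ⟨i, rfl⟩ := hy
    intro x hx
    have hle : Subgroup.closure S ≤ R.comap (D.cv (theta hk ha hb hab (tailGen hk2 i))) :=
      (Subgroup.closure_le _).2 fun x hx => hgen i x hx
    exact hle (hS ▸ hx)
  | one => intro x hx; rw [map_one, cv_one]; exact hx
  | mul y z _ _ ihy ihz => intro x hx; rw [map_mul, ← cv_cv]; exact ihy _ (ihz _ hx)
  | inv y _ ih =>
    intro x hx
    have hpow : ∀ n : ℕ, ∀ x ∈ R, D.cv (theta hk ha hb hab (y ^ n)) x ∈ R := by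
      intro n
      induction n with
      | zero => intro x hx; rw [pow_zero, map_one, cv_one]; exact hx
      | succ n ihn => intro x hx; rw [pow_succ, map_mul, ← cv_cv]; exact ihn _ (ih _ hx)
    have e : y⁻¹ = y ^ (orderOf y - 1) := by
      refine inv_eq_of_mul_eq_one_right ?_
      rw [← pow_succ', Nat.sub_add_cancel (orderOf_pos y), pow_orderOf_eq_one]
    rw [e]
    exact hpow _ x hx

end Six

end Cfsg.Agent.H81.SUSix
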