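import Cfsg.Agent.H81.SUSix.Build
import Cfsg.Agent.H81.SUPres.Main
import Cfsg.Agent.S0281
import Cfsg.Agent.H78.Phan.Frame

/-!
# Relations for the stabiliser of the first pair
-/

set_option autoImplicit false
set_option linter.unusedSectionVars false
set_option maxHeartbeats 1000000

namespace Cfsg.Agent.H81.SUSix

open Matrix Equiv Cfsg Cfsg.Agent.H78.Phan

universe w

variable {F : Type*} [Field F] [Fintype F] {q N : ℕ}

/-- Two generators of the group on two coordinates. -/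
theorem exists_su2_two (hF : Fintype.card F = q ^ 2) :
    ∃ y : Fin 2 → ↥(SU 2 F q), Subgroup.closure (Set.range y) = ⊤ := by
  classical
  haveI : Fact (Fintype.card F = q ^ 2) := ⟨hF⟩
  haveI : Fintype (SU3Pres.Fix F q) := Fintype.ofFinite _
  obtain ⟨j⟩ := Cfsg.Agent.S0281.result (F := F) (K := SU3Pres.Fix F q) hF
    (by rw [← Nat.card_eq_fintype_card, SU3Pres.card_fix])
  obtain ⟨s1, s2, hS⟩ := SLnPres.exists_two_gen (F := SU3Pres.Fix F q) 0
  refine ⟨fun i => j.symm (![s1, s2] i), ?_⟩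
  rw [show Set.range (fun i => j.symm (![s1, s2] i)) = j.symm.toMonoidHom '' {s1, s2} by
    rw [← Matrix.range_cons_cons_empty s1 s2 ![], ← Set.range_comp]; rfl, ← MonoidHom.map_closure, hS]
  exact Subgroup.map_top_of_surjective _ j.symm.surjective

/-- Blocks on adjacent pairs generate three coordinates for more than four elements. -/
theorem lo_sup_hi (hF : Fintype.card F = q ^ 2) (hq : 3 ≤ q) :
    (lo (F := F) (q := q)).range ⊔ hi.range = ⊤ := by
  refine eq_top_iff.2 fun g _ => ?_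
  rw [range_emb _ hF, range_emb _ hF, range_e2, range_e2]
  rcases eq_or_lt_of_le hq with h | h
  · subst h
    refine gen_three_odd hF (fun h2 => ?_) (a := 0) le_rfl (fun k hk => absurd ⟨Nat.zero_le _, k.2⟩ hk)
    have h9 : ((Fintype.card F : ℕ) : F) = 0 := Nat.cast_card_eq_zero F
    rw [hF] at h9
    push_cast at h9
    exact one_ne_zero (α := F) (by linear_combination h9 - 4 * h2)
  · exact gen_three hF h (a := 0) le_rfl (fun k hk => absurd ⟨Nat.zero_le _, k.2⟩ hk)

/-- Conjugation stays in an embedded block. -/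
theorem exists_conj {k : ℕ} (hF : Fintype.card F = q ^ 2) (f : Fin k ↪ Fin N) (g : alternatingGroup (Fin N))
    (hg : ∀ i, (g : Perm (Fin N)) (f i) ∈ Set.range f) (x : ↥(SU k F q)) :
    ∃ x', pA g * emb f x * (pA g)⁻¹ = emb f x' := by
  have h : pA g * emb f x * (pA g)⁻¹ ∈ GI (Set.range f) := by
    rw [pA_emb]
    exact GI_mono (by rintro _ ⟨i, rfl⟩; rw [pEmb_apply]; exact hg i) (emb_mem _ _)
  obtain ⟨x', e⟩ := exists_emb _ hF h
  exact ⟨x', e.symm⟩

theorem emb_w4_pair (hN : 5 ≤ N) (x : ↥(SU 2 F q)) :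
    emb (e4 (N := N) 0 (by omega)) (pair4 0 (by omega) x) = emb (e2 0 (by omega)) x := by
  rw [emb_trans]
  congr 2
  exact Function.Embedding.ext fun i => Fin.ext (by show 0 + (0 + (i : ℕ)) = 0 + i; omega)

theorem emb_w4_lo3 (hN : 5 ≤ N) (x : ↥(SU 3 F q)) :
    emb (e4 (N := N) 0 (by omega)) (lo3 x) = emb (e3 0 (by omega)) x := by
  rw [emb_trans]
  congr 2
  exact Function.Embedding.ext fun i => Fin.ext (by show 0 + (0 + (i : ℕ)) = 0 + i; omega)

/-- A relation of conjugation. -/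
def cw (g : alternatingGroup (Fin N)) (z z' : ↥(SU 4 F q)) :
    FreeGroup (alternatingGroup (Fin N) ⊕ ↥(SU 4 F q)) :=
  FreeGroup.of (.inl g) * FreeGroup.of (.inr z) * (FreeGroup.of (.inl g))⁻¹ * (FreeGroup.of (.inr z'))⁻¹

/-- A relation of commutation. -/
def mw (g : alternatingGroup (Fin N)) (z z' : ↥(SU 4 F q)) :
    FreeGroup (alternatingGroup (Fin N) ⊕ ↥(SU 4 F q)) :=
  FreeGroup.of (.inl g) * FreeGroup.of (.inr z) * (FreeGroup.of (.inl g))⁻¹ * FreeGroup.of (.inr z') *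
    (FreeGroup.of (.inr z') * (FreeGroup.of (.inl g) * FreeGroup.of (.inr z) * (FreeGroup.of (.inl g))⁻¹))⁻¹

theorem cw_tgt (hN : 5 ≤ N) {g : alternatingGroup (Fin N)} {z z' : ↥(SU 4 F q)}
    (h : pA g * emb (e4 0 (by omega)) z * (pA g)⁻¹ = emb (e4 0 (by omega)) z') :
    FreeGroup.lift (tgtVal hN) (cw g z z') = 1 := by
  simp only [cw, map_mul, map_inv, FreeGroup.lift_apply_of, tgtVal, Sum.elim_inl, Sum.elim_inr]
  rw [mul_inv_eq_one]; exact h

theorem mw_tgt (hN : 5 ≤ N) {g : alternatingGroup (Fin N)} {z z' : ↥(SU 4 F q)}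
    (h : Commute (pA g * emb (e4 0 (by omega)) z * (pA g)⁻¹) (emb (e4 0 (by omega)) z')) :
    FreeGroup.lift (tgtVal hN) (mw g z z') = 1 := by
  simp only [mw, map_mul, map_inv, FreeGroup.lift_apply_of, tgtVal, Sum.elim_inl, Sum.elim_inr]
  rw [mul_inv_eq_one]; exact h.eq

/-- Permutations of the last coordinates, corrected by exchanging the first two. -/
noncomputable def th (k : ℕ) (hk : 2 ≤ k) (hkN : k ≤ N) : Perm (Fin (N - k)) →* alternatingGroup (Fin N) :=
  theta (a := ⟨0, by omega⟩) (b := ⟨1, by omega⟩) hkN (show 0 < k by omega) (show 1 < k by omega)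
    (by simp [Fin.ext_iff])

theorem th_lt {k : ℕ} (hk : 2 ≤ k) (hkN : k ≤ N) (π : Perm (Fin (N - k))) {p : Fin N} (hp : (p : ℕ) < k) :
    ((th k hk hkN π : Perm (Fin N)) p : ℕ) < k := by
  rw [th, theta_lt _ _ _ _ _ hp]
  exact sgnSwap_lt (by show 0 < k; omega) (by show 1 < k; omega) hp _

theorem th_stab {k : ℕ} (hk : 2 ≤ k) (hkN : k ≤ N) (π : Perm (Fin (N - k))) : Stab k (th k hk hkN π) := by
  intro p
  refine ⟨fun h => ?_, th_lt hk hkN π⟩
  have h2 := th_lt hk hkN π⁻¹ h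
  rwa [map_inv, InvMemClass.coe_inv, Perm.inv_def, Equiv.symm_apply_apply] at h2

/-- Two transpositions, as an even permutation of four points. -/
def s4 : alternatingGroup (Fin 4) := ⟨swap 0 1 * swap 2 3, Perm.mem_alternatingGroup.2 (by decide)⟩

namespace Six

variable {X : Type w} [Group X] (D : Six X F q N)

theorem val_cw {g : alternatingGroup (Fin N)} {z z' : ↥(SU 4 F q)} (h : FreeGroup.lift D.val (cw g z z') = 1) :
    D.cv g (D.φ z) = D.φ z' := by
  simp only [cw, map_mul, map_inv, FreeGroup.lift_apply_of, Six.val, Sum.elim_inl, Sum.elim_inr] at h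
  rw [mul_inv_eq_one] at h
  rw [cv_apply]; exact h

theorem val_mw {g : alternatingGroup (Fin N)} {z z' : ↥(SU 4 F q)} (h : FreeGroup.lift D.val (mw g z z') = 1) :
    Commute (D.cv g (D.φ z)) (D.φ z') := by
  simp only [mw, map_mul, map_inv, FreeGroup.lift_apply_of, Six.val, Sum.elim_inl, Sum.elim_inr] at h
  rw [mul_inv_eq_one] at h
  rw [cv_apply]; exact h

theorem th_swap : th (N := N) 2 le_rfl (by have := D.hN; omega) (tailGen (k := 2) (by have := D.hN; omega) 1) =
    extA D.w4 s4 := by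
  have hN := D.hN
  obtain ⟨M, rfl⟩ : ∃ M, N = M + 5 := ⟨N - 5, by omega⟩
  refine Subtype.ext (Equiv.ext fun p => ?_)
  set π := tailGen (N := M + 5) (k := 2) (by omega) 1 with hπ
  have hπ' : π = swap ⟨0, by omega⟩ ⟨1, by omega⟩ := by
    rw [hπ]
    show swap _ (finRotate _ _) = _
    congr 1
  have hs : Perm.sign π = -1 := by rw [hπ']; exact Perm.sign_swap (by simp [Fin.ext_iff])
  by_cases hp : (p : ℕ) < 4
  · obtain ⟨i, rfl⟩ := D.exists_w4 hp
    rw [extA_apply]
    have hv := D.w4_val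
    by_cases hi : (i : ℕ) < 2
    · rw [th, theta_lt _ _ _ _ _ (by rw [hv]; exact hi), hs]
      show (if (-1 : ℤˣ) = 1 then 1 else swap _ _ : Perm (Fin (M + 5))) _ = _
      rw [if_neg (by decide)]
      obtain rfl | rfl : i = 0 ∨ i = 1 := by omega
      · rw [show D.w4 0 = (⟨0, by omega⟩ : Fin (M + 5)) from Fin.ext (hv 0), swap_apply_left]
        exact Fin.ext (by rw [hv]; rfl)
      · rw [show D.w4 1 = (⟨1, by omega⟩ : Fin (M + 5)) from Fin.ext (hv 1), swap_apply_right]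
        exact Fin.ext (by rw [hv]; rfl)
    · obtain rfl | rfl : i = 2 ∨ i = 3 := by omega
      all_goals
        show ((Perm.viaEmbeddingHom (tailEmb _) π * sgnSwap _ _ (Perm.sign π) : Perm (Fin (M + 5)))) _ = _
        rw [Perm.mul_apply, sgnSwap_fix (by simp [Fin.ext_iff, hv]) (by simp [Fin.ext_iff, hv])]
      · rw [show D.w4 2 = tailEmb (k := 2) (by omega) ⟨0, by omega⟩ from Fin.ext (hv 2), hπ']
        refine (Perm.viaEmbedding_apply _ _ _).trans (Fin.ext ?_)
        rw [swap_apply_left, hv]; rfl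
      · rw [show D.w4 3 = tailEmb (k := 2) (by omega) ⟨1, by omega⟩ from Fin.ext (hv 3), hπ']
        refine (Perm.viaEmbedding_apply _ _ _).trans (Fin.ext ?_)
        rw [swap_apply_right, hv]; rfl
  · rw [extA_apply_not _ _ fun ⟨i, hi⟩ => hp (by rw [← hi, D.w4_val]; exact i.2)]
    obtain ⟨i, hi'⟩ := (range_tailEmb (k := 2) (show 2 ≤ M + 5 by omega) p).2 (by omega)
    have hi : 2 ≤ (i : ℕ) := by
      have : (i : ℕ) + 2 = p := congrArg Fin.val hi'
      omega
    rw [← hi']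
    show ((Perm.viaEmbeddingHom (tailEmb _) π * sgnSwap _ _ (Perm.sign π) : Perm (Fin (M + 5)))) _ = _
    rw [Perm.mul_apply, sgnSwap_fix (fun e => absurd (congrArg Fin.val e) (show (i : ℕ) + 2 ≠ 0 by omega))
      (fun e => absurd (congrArg Fin.val e) (show (i : ℕ) + 2 ≠ 1 by omega))]
    refine (Perm.viaEmbedding_apply _ _ _).trans ?_
    rw [hπ', swap_apply_of_ne_of_ne] <;> simp [Fin.ext_iff] <;> omega

/-- Invariance of the first pair under its stabiliser. -/
theorem inv_two {y : Fin 2 → ↥(SU 2 F q)} (hy : Subgroup.closure (Set.range y) = ⊤)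
    (h : ∀ j, D.cv (th 2 le_rfl (by have := D.hN; omega) (tailGen (k := 2) (by have := D.hN; omega) 0))
      (D.ψ (y j)) ∈ D.P2) : D.Inv' 2 D.P2 := by
  have hN := D.hN
  intro g hg x hx
  obtain ⟨π, rfl⟩ := exists_theta (a := (⟨0, by omega⟩ : Fin N)) (b := ⟨1, by omega⟩) (show 2 ≤ N by omega)
    (show 0 < 2 by omega) (show 1 < 2 by omega) (by simp [Fin.ext_iff]) hg
    (fun p hp h0 h1 => absurd (Nat.lt_succ_iff.1 hp) (by simp [Fin.ext_iff] at h0 h1; omega))
  refine D.inv_of_theta (D.ψ '' Set.range y) ?_ _ (show 2 + 2 ≤ N by omega) _ _ _ (fun i z hz => ?_) π x hx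
  · rw [P2, ← MonoidHom.map_closure, hy, MonoidHom.range_eq_map]
  · obtain ⟨_, ⟨j, rfl⟩, rfl⟩ := hz
    obtain rfl | rfl : i = 0 ∨ i = 1 := by omega
    · exact h j
    · show D.cv (th 2 le_rfl _ _) _ ∈ _
      rw [D.th_swap, ψ, MonoidHom.comp_apply, cv_ext]
      obtain ⟨x', e⟩ := exists_conj D.hF (e2 (N := 4) 0 (by omega)) s4
        (fun i => by
          rw [range_e2]
          have key : ∀ i : Fin 4, (i : ℕ) < 2 → (((s4 : Perm (Fin 4)) i : Fin 4) : ℕ) < 2 := by decide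
          exact ⟨Nat.zero_le _, key _ (by show 0 + (i : ℕ) < 2; omega)⟩) (y j)
      exact ⟨x', by rw [ψ, MonoidHom.comp_apply]; exact congrArg D.φ e.symm⟩

end Six

/-- The relations for the first pair. -/
theorem pair_rels (hF : Fintype.card F = q ^ 2) (hN : 5 ≤ N) :
    ∃ E : List (FreeGroup (alternatingGroup (Fin N) ⊕ ↥(SU 4 F q))), E.length ≤ 2 ∧
      (∀ r ∈ E, FreeGroup.lift (tgtVal hN) r = 1) ∧
      ∀ (X : Type) [Group X] (D : Six X F q N), (∀ r ∈ E, FreeGroup.lift D.val r = 1) → D.Inv' 2 D.P2 := by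
  obtain ⟨y, hy⟩ := exists_su2_two hF
  let g := th (N := N) 2 le_rfl (by omega) (tailGen (k := 2) (by omega) 0)
  have hx : ∀ j, ∃ x', pA g * emb (e2 (N := N) 0 (by omega)) (y j) * (pA g)⁻¹ = emb (e2 0 (by omega)) x' :=
    fun j => exists_conj hF _ g (fun i => by
      rw [range_e2]
      exact ⟨Nat.zero_le _, th_lt le_rfl _ _ (by show 0 + (i : ℕ) < 2; omega)⟩) (y j)
  choose y' hy' using hx
  refine ⟨List.ofFn fun j => cw g (pair4 0 (by omega) (y j)) (pair4 0 (by omega) (y' j)), by simp,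
    fun r hr => ?_, fun X _ D hD => D.inv_two hy fun j => ⟨y' j, ?_⟩⟩
  · obtain ⟨j, rfl⟩ := List.mem_ofFn.1 hr
    refine cw_tgt hN ?_
    rw [emb_w4_pair hN, emb_w4_pair hN, hy']
  · exact (D.val_cw (hD _ (List.mem_ofFn.2 ⟨j, rfl⟩))).symm

/-- The further relations over more than four elements. -/
theorem extra_large (hF : Fintype.card F = q ^ 2) (hN : 5 ≤ N) (hq : 3 ≤ q) :
    ∃ E : List (FreeGroup (alternatingGroup (Fin N) ⊕ ↥(SU 4 F q))), E.length ≤ 2 ∧
      (∀ r ∈ E, FreeGroup.lift (tgtVal hN) r = 1) ∧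
      ∀ (X : Type) [Group X] (D : Six X F q N), (∀ r ∈ E, FreeGroup.lift D.val r = 1) →
        Function.Bijective D.f := by
  obtain ⟨E, h1, h2, h3⟩ := pair_rels hF hN
  refine ⟨E, h1, h2, fun X _ D hD => ?_⟩
  obtain ⟨e3', av, vv⟩ := D.good_of_gen (h3 X D hD) (lo_sup_hi hF hq)
  exact D.bijective (h3 X D hD) e3' av vv

end Cfsg.Agent.H81.SUSix
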