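import Cfsg.Agent.H81.SUPres.Bridge
import Cfsg.Agent.H81.SUPres.Levi
import Cfsg.Agent.H78.Phan.Glue

/-!
# Coordinates for the unitary group in dimension four
-/

set_option autoImplicit false
set_option linter.unusedSectionVars false
set_option maxHeartbeats 1000000

namespace Cfsg.Agent.H81.SUSix

open Matrix Cfsg Cfsg.Agent.H58.PSUFusion

variable {F : Type*} [Field F] [Fintype F] {q : ℕ} {r e : ℕ} (hF : Fintype.card F = q ^ 2)

include hF in
theorem suh_equiv_of {n : ℕ} (eqv : Ix r e ≃ Fin n) (C : Matrix (Ix r e) (Ix r e) F)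
    (hC : dag (invOfCard hF) C * C = Φ) :
    ∃ ρ : ↥(SUh (invOfCard hF) r e) ≃* ↥(Cfsg.SU n F q), ∀ g,
      ((ρ g).1 : Matrix.SpecialLinearGroup (Fin n) F).1 =
        Matrix.reindexAlgEquiv F F eqv (C * H58.PSUFusion.mat g * (Φ * dag (invOfCard hF) C)) := by
  set I := invOfCard hF
  set Ci := Φ * dag I C with hCi
  have h1 : Ci * C = 1 := by rw [hCi, Matrix.mul_assoc, hC, Φ_mul_Φ]
  have h2 : C * Ci = 1 := mul_eq_one_comm.1 h1
  have hcd : C.det * Ci.det = 1 := by rw [← Matrix.det_mul, h2, Matrix.det_one]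
  have hconj : ∀ M : Matrix (Ix r e) (Ix r e) F, dag I M * Φ * M = Φ →
      dag I (C * M * Ci) * (C * M * Ci) = 1 := by
    intro M hM
    rw [hCi, dag_mul, dag_mul, dag_mul, dag_dag, dag_Φ]
    calc C * Φ * (dag I M * dag I C) * (C * M * (Φ * dag I C))
        = C * Φ * (dag I M * (dag I C * C) * M) * Φ * dag I C := by simp only [Matrix.mul_assoc]
      _ = C * Φ * Φ * Φ * dag I C := by rw [hC, hM]
      _ = C * (Φ * dag I C) := by rw [Matrix.mul_assoc C Φ Φ, Φ_mul_Φ, Matrix.mul_one, Matrix.mul_assoc]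
      _ = 1 := h2
  let f : ↥(SUh I r e) →* Cfsg.SU n F q :=
    { toFun := fun g => ⟨⟨Matrix.reindexAlgEquiv F F eqv (C * mat g * Ci), by
          rw [Matrix.det_reindexAlgEquiv, Matrix.det_mul, Matrix.det_mul, mul_comm C.det, mul_assoc, hcd,
            mul_one]
          exact g.1.2⟩, (mem_SU_iff hF).2 (by
            show dag I (Matrix.reindexAlgEquiv F F eqv (C * mat g * Ci)) * Matrix.reindexAlgEquiv F F eqv (C * mat g * Ci) = 1
            rw [Cfsg.Agent.H58.PSUFusion.dag_reindex, ← map_mul, hconj _ g.2, map_one])⟩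
      map_one' := Subtype.ext (Subtype.ext (by
        show Matrix.reindexAlgEquiv F F eqv (C * mat (1 : ↥(SUh I r e)) * Ci) = 1
        rw [mat_one, Matrix.mul_one, h2, map_one]))
      map_mul' := fun g g' => Subtype.ext (Subtype.ext (by
        show Matrix.reindexAlgEquiv F F eqv (C * mat (g * g') * Ci) =
          Matrix.reindexAlgEquiv F F eqv (C * mat g * Ci) * Matrix.reindexAlgEquiv F F eqv (C * mat g' * Ci)
        rw [← map_mul, mat_mul]
        congr 1
        calc C * (mat g * mat g') * Ci = C * mat g * 1 * mat g' * Ci := by simp only [Matrix.mul_assoc, Matrix.one_mul]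
          _ = C * mat g * (Ci * C) * mat g' * Ci := by rw [h1]
          _ = _ := by simp only [Matrix.mul_assoc])) }
  have hbij : Function.Bijective f := by
    constructor
    · intro g g' h
      have h' : C * mat g * Ci = C * mat g' * Ci :=
        (Matrix.reindexAlgEquiv F F eqv).injective (congrArg (fun x : Cfsg.SU n F q => x.1.1) h)
      refine ext_mat ?_
      have := congrArg (fun M => Ci * M * C) h'
      simpa only [← Matrix.mul_assoc, h1, Matrix.one_mul, Matrix.mul_assoc _ Ci C, Matrix.mul_one] using this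
    · intro x
      set N := (Matrix.reindexAlgEquiv F F eqv).symm x.1.1 with hN
      have hx := (mem_SU_iff hF).1 x.2
      have hxN : Matrix.reindexAlgEquiv F F eqv N = x.1.1 := AlgEquiv.apply_symm_apply _ _
      rw [← hxN, Cfsg.Agent.H58.PSUFusion.dag_reindex, ← map_mul, ← map_one (Matrix.reindexAlgEquiv F F eqv)] at hx
      have hN1 : dag I N * N = 1 := (Matrix.reindexAlgEquiv F F eqv).injective hx
      have hdetN : N.det = 1 := by
        have := congrArg Matrix.det hxN
        rw [Matrix.det_reindexAlgEquiv] at this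
        exact this.trans x.1.2
      have hmem : dag I (Ci * N * C) * Φ * (Ci * N * C) = Φ := by
        rw [hCi, dag_mul, dag_mul, dag_mul, dag_dag, dag_Φ]
        calc dag I C * (dag I N * (C * Φ)) * Φ * (Φ * dag I C * N * C)
            = dag I C * dag I N * (C * (Φ * (Φ * Φ) * dag I C)) * N * C := by simp only [Matrix.mul_assoc]
          _ = dag I C * dag I N * N * C := by rw [Φ_mul_Φ, Matrix.mul_one, h2, Matrix.mul_one]
          _ = dag I C * (dag I N * N) * C := by simp only [Matrix.mul_assoc]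
          _ = Φ := by rw [hN1, Matrix.mul_one, hC]
      refine ⟨mk (Ci * N * C) (by
        rw [Matrix.det_mul, Matrix.det_mul, hdetN, mul_one, mul_comm, hcd]) hmem, Subtype.ext (Subtype.ext ?_)⟩
      show Matrix.reindexAlgEquiv F F eqv (C * mat (mk (Ci * N * C) _ hmem) * Ci) = x.1.1
      rw [mat_mk, ← hxN]
      congr 1
      calc C * (Ci * N * C) * Ci = (C * Ci) * N * (C * Ci) := by simp only [Matrix.mul_assoc]
        _ = N := by rw [h2, Matrix.one_mul, Matrix.mul_one]
  exact ⟨MulEquiv.ofBijective f hbij, fun g => rfl⟩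

/-- The embedded rank one group lands on the first two coordinates. -/
theorem exists_rho :
    ∃ ρ : ↥(SUh (invOfCard hF) (1 + 1) 0) ≃* ↥(Cfsg.SU 4 F q),
      (SUPres.emb (k := 1)).range.map ρ.toMonoidHom = (H78.Phan.GI (H78.Phan.Iv 0 2) : Subgroup ↥(Cfsg.SU 4 F q)) := by
  classical
  set I := invOfCard hF
  obtain ⟨C1, hC1⟩ := exists_basisMat (r := 1) (e := 0) hF
  let e1 : Ix 1 0 ≃ Fin 2 := Fintype.equivFinOfCardEq (by simp)
  let eqv : Ix (1 + 1) 0 ≃ Fin 4 := (SUPres.spl 1 0).symm.trans ((e1.sumCongr e1).trans finSumFinEquiv)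
  have hC : dag I (SUPres.splM (Matrix.fromBlocks C1 0 0 C1)) * SUPres.splM (Matrix.fromBlocks C1 0 0 C1) =
      (Φ : Matrix (Ix (1 + 1) 0) (Ix (1 + 1) 0) F) := by
    rw [SUPres.dag_splM, SUPres.dag_fromBlocks, SUPres.splM_mul, Matrix.fromBlocks_multiply, SUPres.Φ_split]
    simp [hC1, I]
  obtain ⟨ρ, hρ⟩ := suh_equiv_of hF eqv _ hC
  refine ⟨ρ, ?_⟩
  have h1 : C1 * (Φ * dag I C1) = 1 :=
    mul_eq_one_comm.1 (by rw [Matrix.mul_assoc, hC1, Φ_mul_Φ])
  have hle : (SUPres.emb (k := 1)).range.map ρ.toMonoidHom ≤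
      (H78.Phan.GI (H78.Phan.Iv 0 2) : Subgroup ↥(Cfsg.SU 4 F q)) := by
    rintro _ ⟨_, ⟨y, rfl⟩, rfl⟩ k hk
    funext l
    have hk2 : 2 ≤ (k : ℕ) := by
      by_contra h
      exact hk ⟨Nat.zero_le _, by omega⟩
    obtain ⟨b, rfl⟩ := eqv.surjective k
    obtain ⟨b, rfl⟩ := (SUPres.spl 1 0).surjective b
    obtain ⟨a, rfl⟩ := eqv.surjective l
    obtain ⟨a, rfl⟩ := (SUPres.spl 1 0).surjective a
    rcases b with b | b
    · exfalso
      have : ((eqv (SUPres.spl 1 0 (.inl b)) : Fin 4) : ℕ) = (e1 b : ℕ) := by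
        show ((finSumFinEquiv ((e1.sumCongr e1) ((SUPres.spl 1 0).symm (SUPres.spl 1 0 (.inl b))))) : ℕ) = _
        rw [Equiv.symm_apply_apply]; rfl
      omega
    · have hM : H58.PSUFusion.mat (SUPres.emb (k := 1) y) =
          SUPres.splM (Matrix.fromBlocks (H58.PSUFusion.mat y) 0 0 1) := SUPres.mat_emb y
      have key : SUPres.splM (Matrix.fromBlocks C1 0 0 C1) * H58.PSUFusion.mat (SUPres.emb (k := 1) y) *
          (Φ * dag I (SUPres.splM (Matrix.fromBlocks C1 0 0 C1))) =
          SUPres.splM (Matrix.fromBlocks (C1 * H58.PSUFusion.mat y * (Φ * dag I C1)) 0 0 1) := by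
        rw [hM, SUPres.Φ_split, SUPres.dag_splM, SUPres.dag_fromBlocks, SUPres.splM_mul, SUPres.splM_mul,
          SUPres.splM_mul, Matrix.fromBlocks_multiply, Matrix.fromBlocks_multiply, Matrix.fromBlocks_multiply]
        simp [h1]
      show ((((ρ (SUPres.emb (k := 1) y)).1 : Matrix.SpecialLinearGroup (Fin 4) F) : Matrix (Fin 4) (Fin 4) F) *ᵥ
        Pi.single _ 1) _ = _
      rw [hρ, key, Matrix.mulVec_single_one, Matrix.col_apply, Matrix.reindexAlgEquiv_apply, Matrix.reindex_apply,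
        Matrix.submatrix_apply, Equiv.symm_apply_apply, Equiv.symm_apply_apply, SUPres.splM_apply]
      rcases a with a | a <;> simp [H78.Phan.ev, Pi.single_apply, Matrix.one_apply]
  refine Subgroup.eq_of_le_of_card_ge hle ?_
  obtain ⟨i⟩ := SUPres.suh_equiv hF e1
  have hr : (H78.Phan.GI (H78.Phan.Iv 0 2) : Subgroup ↥(Cfsg.SU 4 F q)) =
      H78.Phan.GI (Set.range (H78.Phan.e2 (N := 4) 0 (by omega))) := by
    rw [H78.Phan.range_e2]; rfl
  rw [hr, ← H78.Phan.range_emb _ hF, Nat.card_congr (MonoidHom.ofInjective (H78.Phan.emb_injective _)).symm.toEquiv,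
    ← Nat.card_congr i.toEquiv]
  refine Nat.card_le_card_of_injective (fun y => ⟨ρ (SUPres.emb (k := 1) y), ⟨_, ⟨y, rfl⟩, rfl⟩⟩) fun y z h => ?_
  have h2 := congrArg H58.PSUFusion.mat (ρ.injective (congrArg Subtype.val h))
  rw [SUPres.mat_emb, SUPres.mat_emb] at h2
  refine H58.PSUFusion.ext_mat (Matrix.ext fun a b => ?_)
  have h3 := congrArg (fun M => M (SUPres.spl 1 0 (.inl a)) (SUPres.spl 1 0 (.inl b))) h2
  simpa [SUPres.splM_apply] using h3

end Cfsg.Agent.H81.SUSix
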