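import Cfsg.Agent.H81.SUPres.Assemble
import Cfsg.Agent.H81.SLnPres.TwoGen
import Cfsg.Agent.H81.SLnPres.PresTools

/-!
# A short presentation of the unitary group in dimension four
-/

set_option autoImplicit false
set_option linter.unusedSectionVars false
set_option maxHeartbeats 1000000

namespace Cfsg.Agent.H81.SUSix

open Equiv Matrix Cfsg.Agent.H81.SUPres Cfsg.Agent.H58.PSUFusion Cfsg.Agent.H64.SLCover
open Cfsg.Agent.H81.SpPres (ap ap_mul ap_one ap_add ap_smul pm pm_single pm_inv pm_mul dg dg_single xg xg_single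
  det_dg det_xg gl_ext slPart toGL_slPart cjS toGL_cjS blockHom blk_blockHom)
open scoped MatrixGroups

variable {F : Type*} [Field F] {I : Cfsg.Agent.H58.PSUFusion.Inv F} [Finite F]

/-- The presentation of the unitary group. -/
theorem su4_pres {κ κ' : Type} [Fintype κ] [Fintype κ']
    (R : Finset (FreeGroup κ)) (eS : PresentedGroup (↑R : Set (FreeGroup κ)) ≃* SL(0 + 2, F))
    (R2 : Finset (FreeGroup κ')) (eL : PresentedGroup (↑R2 : Set (FreeGroup κ')) ≃* ↥(SUh I 1 0))
    (y : Fin 2 → ↥(SUh I 1 0)) (hy : Subgroup.closure (Set.range y) = ⊤) :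
    ∃ (R' : Finset (FreeGroup (κ ⊕ κ')))
      (e' : PresentedGroup (↑R' : Set (FreeGroup (κ ⊕ κ'))) ≃* ↥(SUh I (0 + 2) 0)),
      R'.card ≤ R.card + R2.card + 12 ∧
      ∀ j, e' (PresentedGroup.of (Sum.inr j)) = SUPres.emb (eL (PresentedGroup.of j)) := by
  classical
  haveI : Fintype F := Fintype.ofFinite F
  obtain ⟨g, hg⟩ := IsCyclic.exists_generator (α := Dl I 0)
  obtain ⟨z, hz⟩ := IsCyclic.exists_generator (α := Fˣ)
  obtain ⟨s1, s2, hS⟩ := SLnPres.exists_two_gen (F := F) 0
  have he : (0 : ℕ) ≤ 1 := Nat.zero_le 1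
  let xS : Fin 2 → SL(0 + 2, F) := ![s1, s2]
  have hxS : Subgroup.closure (Set.range xS) = ⊤ := by rwa [Matrix.range_cons_cons_empty]
  -- words
  have hπS : Function.Surjective fun w : FreeGroup κ => eS (PresentedGroup.mk _ w) :=
    eS.surjective.comp (PresentedGroup.mk_surjective _)
  have hπL : Function.Surjective fun w : FreeGroup κ' => eL (PresentedGroup.mk _ w) :=
    eL.surjective.comp (PresentedGroup.mk_surjective _)
  let W := FreeGroup (κ ⊕ κ')
  let wS : SL(0 + 2, F) → W := fun s => FreeGroup.map Sum.inl (Function.surjInv hπS s)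
  let wL : ↥(SUh I 1 0) → W := fun s => FreeGroup.map Sum.inr (Function.surjInv hπL s)
  let wxi : Lev I (0 + 2) 0 → W := fun A => wS (slPart (A : GL (Fin (0 + 2)) F)) * wL (t1 he ⟨dt A, A.2⟩)
  let com : W → W → W := fun a b => a * b * (b * a)⁻¹
  let cj : W → W → W := fun a b => a * b * a⁻¹
  let wπ : W := wxi SuBase.π01
  let cs : Fin 2 → F := ![1, (z : F)]
  let p0 : UP I 0 := UP.lo I.ξ I.ξ_trace
  have hR0 := tgt_rels (I := I) (M := 0) he
  have hM0 := tgt_mix (I := I) (M := 0) he
  let mx : Fin 2 → F := fun i => (hM0 (cs i) p0).choose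
  let woh : F → W := fun x => cj (wL wq) (wS (rx 1 0 (-x / I.ξ)))
  let rA : Finset W := Finset.univ.image fun i => cj (wL (t1 he g)) (wS (xS i)) * (wS (cjS (g : Fˣ) (xS i)))⁻¹
  let rC : Finset W := Finset.univ.image fun j : Fin 2 => cj (wS (tS 0 z)) (wL (y j)) * (wL (sig I z 1 (y j)))⁻¹
  let rD : Finset W := Finset.univ.image fun i : Fin 2 =>
    com (wS (rx 0 1 (cs i))) (wL (uu p0))
  let rE : Finset W := Finset.univ.image fun j : Fin 2 => com (wL (uu p0)) (cj wπ (wL (y j)))
  let rF : Finset W := Finset.univ.image fun j : Fin 2 => com (wL wq) (cj wπ (wL (y j)))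
  let rM : Finset W := Finset.univ.image fun i : Fin 2 =>
    cj (wS (rx 1 0 (cs i))) (wL (uu p0)) * (wL (uu p0) * cj wπ (wL (uu (p0.sc (cs i)))) * woh (mx i))⁻¹
  let rG : Finset W := R.image (FreeGroup.map Sum.inl) ∪ R2.image (FreeGroup.map Sum.inr)
  let R' : Finset W := rG ∪ (rA ∪ (rC ∪ (rD ∪ (rE ∪ (rF ∪ rM)))))
  have hcard : R'.card ≤ R.card + R2.card + 12 := by
    have hA : rA.card ≤ 2 := Finset.card_image_le.trans (by simp)
    have hC : rC.card ≤ 2 := Finset.card_image_le.trans (by simp)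
    have hD : rD.card ≤ 2 := Finset.card_image_le.trans (by simp)
    have hE : rE.card ≤ 2 := Finset.card_image_le.trans (by simp)
    have hF : rF.card ≤ 2 := Finset.card_image_le.trans (by simp)
    have hM : rM.card ≤ 2 := Finset.card_image_le.trans (by simp)
    have hG : rG.card ≤ R.card + R2.card :=
      (Finset.card_union_le _ _).trans (Nat.add_le_add Finset.card_image_le Finset.card_image_le)
    have h6 := Finset.card_union_le rF rM
    have h5 := Finset.card_union_le rE (rF ∪ rM)
    have h4 := Finset.card_union_le rD (rE ∪ (rF ∪ rM))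
    have h3 := Finset.card_union_le rC (rD ∪ (rE ∪ (rF ∪ rM)))
    have h2 := Finset.card_union_le rA (rC ∪ (rD ∪ (rE ∪ (rF ∪ rM))))
    have h1 : R'.card ≤ rG.card + _ := Finset.card_union_le _ _
    omega
  -- inside the target
  let fg : κ ⊕ κ' → ↥(SUh I (0 + 2) 0) :=
    Sum.elim (fun i => levS (eS (PresentedGroup.of i))) (fun j => emb (eL (PresentedGroup.of j)))
  have hfl : ∀ w : FreeGroup κ, FreeGroup.lift fg (FreeGroup.map Sum.inl w) = levS (eS (PresentedGroup.mk _ w)) :=
    fun w => DFunLike.congr_fun (FreeGroup.ext_hom ((FreeGroup.lift fg).comp (FreeGroup.map Sum.inl))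
      ((levS.comp eS.toMonoidHom).comp (PresentedGroup.mk _)) fun i => by simp [fg]; rfl) w
  have hfr : ∀ w : FreeGroup κ', FreeGroup.lift fg (FreeGroup.map Sum.inr w) = emb (eL (PresentedGroup.mk _ w)) :=
    fun w => DFunLike.congr_fun (FreeGroup.ext_hom ((FreeGroup.lift fg).comp (FreeGroup.map Sum.inr))
      ((emb.comp eL.toMonoidHom).comp (PresentedGroup.mk _)) fun i => by simp [fg]; rfl) w
  have tS' : ∀ s, FreeGroup.lift fg (wS s) = (tgt (M := 0) I he).Φ s := fun s => by
    simp only [wS, hfl]; exact congrArg levS (Function.surjInv_eq hπS s)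
  have tL : ∀ s, FreeGroup.lift fg (wL s) = (tgt (M := 0) I he).κ s := fun s => by
    simp only [wL, hfr]; exact congrArg emb (Function.surjInv_eq hπL s)
  have txi : ∀ A, FreeGroup.lift fg (wxi A) = (tgt (M := 0) I he).xi A := fun A => by
    simp only [wxi, map_mul, tS', tL]; rfl
  have toh : ∀ x, FreeGroup.lift fg (woh x) = SuBase.oh hR0 1 0 x := fun x => by
    simp only [woh, cj, map_mul, map_inv, tS', tL, SuBase.oh, SuBase.wk_zero, SuBase.Xi_xq]
  have tT0 : ∀ p, (tgt (M := 0) I he).T (Pi.single 0 1) p = (tgt (M := 0) I he).κ (uu p) := fun p => by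
    rw [SuBase.T_single hR0, SuBase.Lk_zero]
  have tT1 : ∀ p, (tgt (M := 0) I he).T (Pi.single 1 1) p =
      (tgt (M := 0) I he).xi SuBase.π01 * (tgt (M := 0) I he).κ (uu p) * ((tgt (M := 0) I he).xi SuBase.π01)⁻¹ :=
    fun p => by rw [SuBase.T_single hR0, SuBase.Lk_apply]; rfl
  have tTc : ∀ (c : F) p, (tgt (M := 0) I he).T (Pi.single 0 1 + c • Pi.single 1 1) p =
      (tgt (M := 0) I he).Φ (rx 1 0 c) * (tgt (M := 0) I he).κ (uu p) * ((tgt (M := 0) I he).Φ (rx 1 0 c))⁻¹ :=
    fun c p => by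
      have := SuBase.T_eq hR0 (xq I 1 0 c) p
      rw [coe_xq, xg_single (by simp), if_pos rfl, dt_xq, UP.tw_one, SuBase.Xi_xq] at this
      exact this.symm
  have tcom : ∀ a b, Commute (FreeGroup.lift fg a) (FreeGroup.lift fg b) → FreeGroup.lift fg (com a b) = 1 :=
    fun a b h => by simp only [com, map_mul, map_inv]; rw [h.eq, mul_inv_cancel]
  have hA : ∀ r ∈ (↑R' : Set W), FreeGroup.lift fg r = 1 := by
    intro r hr
    simp only [R', rG, rA, rC, rD, rE, rF, rM, Finset.coe_union, Finset.coe_image,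
      Set.mem_union, Set.mem_image, Finset.mem_coe, Finset.mem_univ, Finset.mem_product, and_self, true_and] at hr
    rcases hr with (⟨x, hx, rfl⟩ | ⟨x, hx, rfl⟩) | ⟨i, rfl⟩ | ⟨j, rfl⟩ | ⟨i, rfl⟩ | ⟨j, rfl⟩ |
      ⟨j, rfl⟩ | ⟨i, rfl⟩
    · rw [hfl, PresentedGroup.one_of_mem (Finset.mem_coe.2 hx), map_one, map_one]
    · rw [hfr, PresentedGroup.one_of_mem (Finset.mem_coe.2 hx), map_one, map_one]
    · simp only [cj, map_mul, map_inv, tS', tL]
      rw [mul_inv_eq_one]
      exact hR0.hd g _ _ (toGL_cjS _ _)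
    · simp only [cj, map_mul, map_inv, tS', tL]
      rw [mul_inv_eq_one]
      have hb : BlkL ((SuBase.sl (tS 0 z) : Lev I (0 + 2) 0) : GL (Fin (0 + 2)) F) z := by
        have hd' := dia_blk (M := 0) (I := I) (e := 0) z z⁻¹ (one_mem_Dl' z)
        show BlkL (Matrix.SpecialLinearGroup.toGL (tS 0 z)) z
        rw [toGL_tS]; exact hd'
      have := SuBase.blk hR0 (SuBase.sl (tS 0 z)) hb (y j)
      rwa [SuBase.Xi_sl, SuBase.dt_sl] at this
    · refine tcom _ _ ?_
      rw [tS', tL]
      exact hR0.hx _ _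
    · refine tcom _ _ ?_
      simp only [cj, map_mul, map_inv, wπ, txi, tL]
      exact hR0.h01u _ rfl _
    · refine tcom _ _ ?_
      simp only [cj, map_mul, map_inv, wπ, txi, tL]
      exact hR0.h01w _
    · simp only [cj, map_mul, map_inv, wπ, txi, tS', tL, toh]
      rw [mul_inv_eq_one, ← tTc, ← tT0, ← tT1]
      exact (hM0 _ _).choose_spec
  let f : PresentedGroup (↑R' : Set W) →* ↥(SUh I (0 + 2) 0) := PresentedGroup.toGroup hA
  -- inside the presented group
  let mk := PresentedGroup.mk (↑R' : Set W)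
  have hrel : ∀ r ∈ R', mk r = 1 := fun r hr => PresentedGroup.one_of_mem (Finset.mem_coe.2 hr)
  have hBS : ∀ r ∈ (↑R : Set (FreeGroup κ)),
      FreeGroup.lift (fun i => mk (FreeGroup.of (Sum.inl i))) r = 1 := by
    intro r hr
    rw [show FreeGroup.lift (fun i => mk (FreeGroup.of (Sum.inl i))) r = mk (FreeGroup.map Sum.inl r) from
      DFunLike.congr_fun (FreeGroup.ext_hom (FreeGroup.lift fun i => mk (FreeGroup.of (Sum.inl i)))
        (mk.comp (FreeGroup.map Sum.inl)) fun i => by simp) r]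
    exact hrel _ (Finset.mem_union_left _ (Finset.mem_union_left _
      (Finset.mem_image_of_mem _ (Finset.mem_coe.1 hr))))
  have hBL : ∀ r ∈ (↑R2 : Set (FreeGroup κ')),
      FreeGroup.lift (fun i => mk (FreeGroup.of (Sum.inr i))) r = 1 := by
    intro r hr
    rw [show FreeGroup.lift (fun i => mk (FreeGroup.of (Sum.inr i))) r = mk (FreeGroup.map Sum.inr r) from
      DFunLike.congr_fun (FreeGroup.ext_hom (FreeGroup.lift fun i => mk (FreeGroup.of (Sum.inr i)))
        (mk.comp (FreeGroup.map Sum.inr)) fun i => by simp) r]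
    exact hrel _ (Finset.mem_union_left _ (Finset.mem_union_right _
      (Finset.mem_image_of_mem _ (Finset.mem_coe.1 hr))))
  let ΦB : SL(0 + 2, F) →* PresentedGroup (↑R' : Set W) := (PresentedGroup.toGroup hBS).comp eS.symm.toMonoidHom
  let κB : ↥(SUh I 1 0) →* PresentedGroup (↑R' : Set W) := (PresentedGroup.toGroup hBL).comp eL.symm.toMonoidHom
  have gS : ∀ w, ΦB (eS (PresentedGroup.mk _ w)) = mk (FreeGroup.map Sum.inl w) := fun w => by
    show PresentedGroup.toGroup hBS (eS.symm (eS _)) = _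
    rw [MulEquiv.symm_apply_apply]
    exact DFunLike.congr_fun (FreeGroup.ext_hom (FreeGroup.lift fun i => mk (FreeGroup.of (Sum.inl i)))
        (mk.comp (FreeGroup.map Sum.inl)) fun i => by simp) w
  have gL : ∀ w, κB (eL (PresentedGroup.mk _ w)) = mk (FreeGroup.map Sum.inr w) := fun w => by
    show PresentedGroup.toGroup hBL (eL.symm (eL _)) = _
    rw [MulEquiv.symm_apply_apply]
    exact DFunLike.congr_fun (FreeGroup.ext_hom (FreeGroup.lift fun i => mk (FreeGroup.of (Sum.inr i)))
        (mk.comp (FreeGroup.map Sum.inr)) fun i => by simp) w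
  have mS : ∀ s, mk (wS s) = ΦB s := fun s => by
    conv_rhs => rw [← Function.surjInv_eq hπS s]
    exact (gS _).symm
  have mL : ∀ s, mk (wL s) = κB s := fun s => by
    conv_rhs => rw [← Function.surjInv_eq hπL s]
    exact (gL _).symm
  let B : SuBase (PresentedGroup (↑R' : Set W)) I 0 0 :=
    ⟨he, ΦB, κB, f, fun S => by rw [← mS]; exact tS' S, fun s => by rw [← mL]; exact tL s⟩
  have mxi : ∀ A, mk (wxi A) = B.xi A := fun A => by
    simp only [wxi, map_mul, mS, mL]; rfl
  have mcom : ∀ a b, mk (com a b) = 1 → Commute (mk a) (mk b) := fun a b h => by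
    simp only [com, map_mul, map_inv] at h
    exact mul_inv_eq_one.1 h
  have memA : rA ⊆ R' := fun r h => by simp only [R', Finset.mem_union]; tauto
  have memC : rC ⊆ R' := fun r h => by simp only [R', Finset.mem_union]; tauto
  have memD : rD ⊆ R' := fun r h => by simp only [R', Finset.mem_union]; tauto
  have memE : rE ⊆ R' := fun r h => by simp only [R', Finset.mem_union]; tauto
  have memF : rF ⊆ R' := fun r h => by simp only [R', Finset.mem_union]; tauto
  have memM : rM ⊆ R' := fun r h => by simp only [R', Finset.mem_union]; tauto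
  have hcs : ∀ c : F, (c = 1 ∨ c = (z : F)) → ∃ i, cs i = c := by
    rintro c (rfl | rfl)
    · exact ⟨0, rfl⟩
    · exact ⟨1, rfl⟩
  have hxD : ∀ (c : F), (c = 1 ∨ c = (z : F)) → Commute (B.Φ (rx 0 1 c)) (B.κ (uu p0)) := by
    intro c hc
    obtain ⟨i, rfl⟩ := hcs c hc
    have := mcom _ _ (hrel _ (memD (Finset.mem_image_of_mem _ (Finset.mem_univ i))))
    rwa [mS, mL] at this
  have hz0 : uu (UP.zero : UP I 0) = 1 := uz_zero
  have hone : ∀ S : SL(1, F), S = 1 := fun S => by
    apply Subtype.ext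
    ext i j
    rw [Fin.fin_one_eq_zero i, Fin.fin_one_eq_zero j]
    simpa [Matrix.det_fin_one] using S.2
  have hRels : B.Rels := by
    refine SuBase.rels_of_gens y hy g hg z hz xS hxS (fun _ => (1 : SL(1, F))) (by
      rw [eq_top_iff]; intro S _; rw [hone S]; exact one_mem _) UP.zero (fun a => ⟨0, funext fun i => i.elim0⟩)
      (fun i => ?_) (fun i j => by rw [map_one, map_one]; exact Commute.one_left _) (fun j => ?_)
      (fun c _ => by rw [hz0, map_one]; exact Commute.one_right _) hxD (fun j => ?_) (fun j => ?_)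
    · have := hrel _ (memA (Finset.mem_image_of_mem _ (Finset.mem_univ i)))
      simp only [cj, map_mul, map_inv, mS, mL] at this
      exact mul_inv_eq_one.1 this
    · have := hrel _ (memC (Finset.mem_image_of_mem _ (Finset.mem_univ j)))
      simp only [cj, map_mul, map_inv, mS, mL] at this
      exact mul_inv_eq_one.1 this
    · have := mcom _ _ (hrel _ (memE (Finset.mem_image_of_mem _ (Finset.mem_univ j))))
      simp only [cj, map_mul, map_inv, wπ, mxi, mL] at this
      exact this
    · have := mcom _ _ (hrel _ (memF (Finset.mem_image_of_mem _ (Finset.mem_univ j))))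
      simp only [cj, map_mul, map_inv, wπ, mxi, mL] at this
      exact this
  have moh : ∀ x, mk (woh x) = SuBase.oh hRels 1 0 x := fun x => by
    simp only [woh, cj, map_mul, map_inv, mS, mL, SuBase.oh, SuBase.wk_zero, SuBase.Xi_xq]
    rfl
  have hMix : SuBase.Mix hRels := by
    refine SuBase.mix_of_seeds hRels z hz UP.zero (fun a => ⟨0, funext fun i => i.elim0⟩) (fun c hc p hp => ?_)
      (fun c hc => ?_)
    · rcases hp with rfl | rfl
      · refine ⟨0, ?_⟩
        rw [show (UP.zero : UP I 0).sc c = UP.zero from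
          Subtype.ext (Prod.ext (by simp [UP.sc, UP.zero]) (by simp [UP.sc, UP.zero])), hz0, map_one,
          ← moh 0]
        simp only [woh, cj, map_mul, map_inv, neg_zero, zero_div, rx_zero, mS, mL, map_one]
        group
      · obtain ⟨i, rfl⟩ := hcs c hc
        refine ⟨mx i, ?_⟩
        have := hrel _ (memM (Finset.mem_image_of_mem _ (Finset.mem_univ i)))
        simp only [cj, map_mul, map_inv, wπ, mxi, mS, mL, moh] at this
        exact mul_inv_eq_one.1 this
    · refine ⟨0, ?_⟩
      rw [show (UP.zero : UP I 0).sc c = UP.zero from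
        Subtype.ext (Prod.ext (by simp [UP.sc, UP.zero]) (by simp [UP.sc, UP.zero])), hz0, map_one, ← moh 0]
      simp only [woh, cj, map_mul, map_inv, neg_zero, zero_div, rx_zero, mS, mL, map_one]
      group
  have hgen : Subgroup.closure (Set.range B.Φ ∪ Set.range B.κ) = ⊤ := by
    rw [eq_top_iff, ← PresentedGroup.closure_range_of, Subgroup.closure_le]
    rintro _ ⟨i | j, rfl⟩
    · exact Subgroup.subset_closure (Or.inl ⟨_, (gS (FreeGroup.of i)).trans (by simp [mk]; rfl)⟩)
    · exact Subgroup.subset_closure (Or.inr ⟨_, (gL (FreeGroup.of j)).trans (by simp [mk]; rfl)⟩)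
  exact ⟨R', MulEquiv.ofBijective f (SuBase.bijective hRels hMix hgen (closure_K he)), hcard, fun j => by
    show FreeGroup.lift fg (FreeGroup.of (Sum.inr j)) = _
    rw [FreeGroup.lift_apply_of]
    rfl⟩

end Cfsg.Agent.H81.SUSix
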