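import Cfsg.Agent.H81.SUPres.Ext
import Cfsg.Agent.H81.SLnPres.PresTools

/-!
# Changing the generators of a presentation
-/

set_option autoImplicit false

namespace Cfsg.Agent.H81.SUSix

/-- Change of generators: a new generator costs a relation only if it is not an old one. -/
theorem pres_select {κ κ' : Type} [Fintype κ'] {S : Type*} [Group S] (R : Finset (FreeGroup κ))
    (e : PresentedGroup (↑R : Set (FreeGroup κ)) ≃* S) (x : κ' → S)
    (hx : Subgroup.closure (Set.range x) = ⊤) (old : κ' → Option κ)
    (hold : ∀ i j, old i = some j → e (PresentedGroup.of j) = x i)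
    (hinj : ∀ i i' j, old i = some j → old i' = some j → i = i') :
    ∃ rels : Finset (FreeGroup κ'),
      rels.card ≤ R.card + (Finset.univ.filter fun i => old i = none).card ∧
      Nonempty (PresentedGroup (↑rels : Set (FreeGroup κ')) ≃* S) := by
  classical
  have hsurj : Function.Surjective (FreeGroup.lift x) := by
    rw [← MonoidHom.range_eq_top, FreeGroup.range_lift_eq_closure, hx]
  let wd : κ → FreeGroup κ' := fun j =>
    if h : ∃ i, old i = some j then FreeGroup.of h.choose else Function.surjInv hsurj (e (PresentedGroup.of j))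
  have hwd : ∀ i j, old i = some j → wd j = FreeGroup.of i := fun i j h => by
    simp only [wd]
    rw [dif_pos ⟨i, h⟩, hinj _ _ _ (⟨i, h⟩ : ∃ i, old i = some j).choose_spec h]
  have hval : ∀ j, FreeGroup.lift x (wd j) = e (PresentedGroup.of j) := fun j => by
    by_cases h : ∃ i, old i = some j
    · obtain ⟨i, hi⟩ := h
      rw [hwd i j hi, FreeGroup.lift_apply_of, hold i j hi]
    · simp only [wd]
      rw [dif_neg h]
      exact Function.surjInv_eq hsurj _
  let σ : FreeGroup κ →* FreeGroup κ' := FreeGroup.lift wd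
  have hvs := fun i => PresentedGroup.mk_surjective (↑R : Set (FreeGroup κ)) (e.symm (x i))
  choose v hv using hvs
  let rels : Finset (FreeGroup κ') :=
    R.image σ ∪ (Finset.univ.filter fun i => old i = none).image (fun i => σ (v i) * (FreeGroup.of i)⁻¹)
  refine ⟨rels, (Finset.card_union_le _ _).trans (Nat.add_le_add Finset.card_image_le Finset.card_image_le), ?_⟩
  have hσ : ∀ r, FreeGroup.lift x (σ r) = e (PresentedGroup.mk _ r) := fun r =>
    DFunLike.congr_fun (FreeGroup.ext_hom ((FreeGroup.lift x).comp σ)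
      (e.toMonoidHom.comp (PresentedGroup.mk _)) fun j => by
        show FreeGroup.lift x (FreeGroup.lift wd (FreeGroup.of j)) = _
        rw [FreeGroup.lift_apply_of]
        exact hval j) r
  have hA : ∀ r ∈ (↑rels : Set (FreeGroup κ')), FreeGroup.lift x r = 1 := by
    intro r hr
    rcases Finset.mem_union.1 (Finset.mem_coe.1 hr) with h | h
    · obtain ⟨s, hs, rfl⟩ := Finset.mem_image.1 h
      rw [hσ, PresentedGroup.one_of_mem (Finset.mem_coe.2 hs), map_one]
    · obtain ⟨i, -, rfl⟩ := Finset.mem_image.1 h
      rw [map_mul, map_inv, hσ, hv, e.apply_symm_apply, FreeGroup.lift_apply_of, mul_inv_cancel]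
  let g : κ → PresentedGroup (↑rels : Set (FreeGroup κ')) := fun j => PresentedGroup.mk _ (wd j)
  have hg : ∀ r, FreeGroup.lift g r = PresentedGroup.mk _ (σ r) := fun r =>
    DFunLike.congr_fun (FreeGroup.ext_hom (FreeGroup.lift g) ((PresentedGroup.mk _).comp σ)
      fun j => by simp [g, σ]) r
  have hB : ∀ r ∈ (↑R : Set (FreeGroup κ)), FreeGroup.lift g r = 1 := fun r hr => by
    rw [hg]
    exact PresentedGroup.one_of_mem (Finset.mem_coe.2 (Finset.mem_union_left _
      (Finset.mem_image_of_mem _ (Finset.mem_coe.1 hr))))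
  let ψ : S →* PresentedGroup (↑rels : Set (FreeGroup κ')) :=
    (PresentedGroup.toGroup hB).comp e.symm.toMonoidHom
  refine ⟨MonoidHom.toMulEquiv (PresentedGroup.toGroup hA) ψ ?_ ?_⟩
  · refine PresentedGroup.ext fun i => ?_
    rw [MonoidHom.comp_apply, PresentedGroup.toGroup.of, MonoidHom.id_apply]
    show PresentedGroup.toGroup hB (e.symm (x i)) = _
    rcases hi : old i with _ | j
    · rw [← hv i]
      show FreeGroup.lift g (v i) = _
      rw [hg]
      refine mul_inv_eq_one.1 ?_
      show PresentedGroup.mk _ (σ (v i)) * (PresentedGroup.mk _ (FreeGroup.of i))⁻¹ = 1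
      rw [← map_inv, ← map_mul]
      exact PresentedGroup.one_of_mem (Finset.mem_coe.2 (Finset.mem_union_right _
        (Finset.mem_image.2 ⟨i, Finset.mem_filter.2 ⟨Finset.mem_univ i, hi⟩, rfl⟩)))
    · rw [← hold i j hi, MulEquiv.symm_apply_apply, PresentedGroup.toGroup.of]
      show PresentedGroup.mk _ (wd j) = _
      rw [hwd i j hi]
      rfl
  · refine MonoidHom.ext fun s => ?_
    obtain ⟨y, rfl⟩ := e.surjective s
    obtain ⟨r, rfl⟩ := PresentedGroup.mk_surjective _ y
    show PresentedGroup.toGroup hA (PresentedGroup.toGroup hB (e.symm (e (PresentedGroup.mk _ r)))) = _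
    rw [MulEquiv.symm_apply_apply]
    show PresentedGroup.toGroup hA (FreeGroup.lift g r) = _
    rw [hg]
    exact hσ r

/-- Generators of a symmetric group of degree three. -/
abbrev SGens : Type := (Empty ⊕ Unit) ⊕ Unit

/-- A group generated by an element of order three and an involution inverting it. -/
theorem pres_six {G : Type*} [Group G] [Finite G] (a b : G) (ha : a ^ 3 = 1) (ha1 : a ≠ 1) (hb : b * b = 1)
    (hab : b * a * b⁻¹ = a⁻¹) (hba : b ∉ Subgroup.zpowers a)
    (hgen : Subgroup.closure ({a, b} : Set G) = ⊤) :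
    ∃ R : Finset (FreeGroup SGens), R.card ≤ 3 ∧
      Nonempty (PresentedGroup (↑R : Set (FreeGroup SGens)) ≃* G) := by
  classical
  have hsub : Subsingleton (PresentedGroup (↑(∅ : Finset (FreeGroup Empty)) : Set (FreeGroup Empty))) := by
    refine ⟨fun x y => ?_⟩
    have : ∀ z : PresentedGroup (↑(∅ : Finset (FreeGroup Empty)) : Set (FreeGroup Empty)), z = 1 := fun z => by
      have hz : z ∈ Subgroup.closure (Set.range PresentedGroup.of) := by
        rw [PresentedGroup.closure_range_of]; trivial
      rwa [Set.range_eq_empty, Subgroup.closure_empty, Subgroup.mem_bot] at hz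
    rw [this x, this y]
  let e0 : PresentedGroup (↑(∅ : Finset (FreeGroup Empty)) : Set (FreeGroup Empty)) ≃* ↥(⊥ : Subgroup G) :=
    { toFun := fun _ => 1
      invFun := fun _ => 1
      left_inv := fun x => Subsingleton.elim _ _
      right_inv := fun x => Subsingleton.elim _ _
      map_mul' := fun _ _ => (mul_one 1).symm }
  have hord : orderOf a = 3 := orderOf_eq_prime ha ha1
  obtain ⟨R1, h1, ⟨e1⟩⟩ := SUPres.Ext.cyclic_ext ∅ ⊥ (Subgroup.zpowers a) e0 bot_le a
    (Subgroup.mem_zpowers a) 3 (by omega) (by rw [Subgroup.mem_bot, ha])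
    (fun j hj hm => by
      rw [Subgroup.mem_bot] at hm
      exact Nat.eq_zero_of_dvd_of_lt (hord ▸ orderOf_dvd_of_pow_eq_one hm) hj)
    (fun n hn => by rw [Subgroup.mem_bot] at hn ⊢; subst hn; simp)
    (fun g hg => by
      obtain ⟨i, rfl⟩ := mem_powers_iff_mem_zpowers.2 hg
      exact ⟨i % 3, Nat.mod_lt _ (by omega), by
        rw [Subgroup.mem_bot, mul_inv_eq_one]
        show a ^ i = a ^ (i % 3)
        rw [← hord, pow_mod_orderOf]⟩)
  have hconj : ∀ n ∈ Subgroup.zpowers a, b * n * b⁻¹ ∈ Subgroup.zpowers a := by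
    rintro _ ⟨i, rfl⟩
    show b * a ^ i * b⁻¹ ∈ _
    rw [← conj_zpow, hab]
    exact zpow_mem (inv_mem (Subgroup.mem_zpowers a)) i
  obtain ⟨R2, h2, ⟨e2⟩⟩ := SUPres.Ext.cyclic_ext R1 (Subgroup.zpowers a) ⊤ e1 le_top b trivial 2 (by omega)
    (by rw [pow_two, hb]; exact one_mem _)
    (fun j hj hm => by
      interval_cases j
      · rfl
      · exact absurd (by simpa using hm) hba)
    hconj
    (fun g hgt => by
      clear hgt
      have hg : g ∈ Subgroup.closure ({a, b} : Set G) := by rw [hgen]; trivial
      have hbi : b⁻¹ = b := inv_eq_of_mul_eq_one_right hb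
      have : g ∈ Subgroup.zpowers a ∨ g * b⁻¹ ∈ Subgroup.zpowers a := by
        induction hg using Subgroup.closure_induction with
        | mem x hx =>
          rcases hx with rfl | rfl
          · exact Or.inl (Subgroup.mem_zpowers x)
          · exact Or.inr (by rw [mul_inv_cancel]; exact one_mem _)
        | one => exact Or.inl (one_mem _)
        | mul x y _ _ ihx ihy =>
          rcases ihx with hx | hx <;> rcases ihy with hy | hy
          · exact Or.inl (mul_mem hx hy)
          · exact Or.inr (by rw [mul_assoc]; exact mul_mem hx hy)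
          · refine Or.inr ?_
            rw [show x * y * b⁻¹ = x * b⁻¹ * (b * y * b⁻¹) by group]
            exact mul_mem hx (hconj y hy)
          · refine Or.inl ?_
            rw [show x * y = x * b⁻¹ * (b * (y * b⁻¹) * b⁻¹) * (b * b) by group, hb, mul_one]
            exact mul_mem hx (hconj _ hy)
        | inv x _ ih =>
          rcases ih with hx | hx
          · exact Or.inl (inv_mem hx)
          · refine Or.inr ?_
            have h := hconj _ (inv_mem hx)
            rw [mul_inv_rev, inv_inv] at h
            rw [show x⁻¹ * b⁻¹ = (b * b)⁻¹ * (b * (b * x⁻¹) * b⁻¹) by group, hb, inv_one, one_mul]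
            exact h
      rcases this with h | h
      · exact ⟨0, by omega, by simpa using h⟩
      · exact ⟨1, by omega, by simpa using h⟩)
  refine ⟨R2, h2.trans ?_, ⟨e2.trans Subgroup.topEquiv⟩⟩
  simp only [Fintype.card_sum, Fintype.card_empty, Fintype.card_unit, Finset.card_empty] at h1 ⊢
  omega

end Cfsg.Agent.H81.SUSix
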