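import Cfsg.Agent.H81.SUSix.Two
import Cfsg.Agent.H81.SUSix.Four
import Cfsg.Agent.H81.SUSix.Coord
import Cfsg.Agent.H81.SUSix.Tools
import Cfsg.Agent.H81.SLnPres.Cases
import Cfsg.Agent.H81.SLPresMain
import Cfsg.Agent.H81.SUPres.Main
import Cfsg.Agent.H78.Phan.TwoMain

/-!
# Presentations of the unitary groups with six generators
-/

set_option autoImplicit false
set_option linter.unusedSectionVars false
set_option maxHeartbeats 1000000

namespace Cfsg.Agent.H81.SUSix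

open Matrix Equiv Cfsg Cfsg.Agent.H78.Phan
open scoped MatrixGroups

universe u

/-- The group on two by two matrices of determinant one has a short presentation. -/
theorem sl2_short (K : Type*) [Field K] [Fintype K] :
    ∃ rels : Finset (FreeGroup (Fin 3)), rels.card ≤ 8 ∧
      Nonempty (PresentedGroup (↑rels : Set (FreeGroup (Fin 3))) ≃* SL(2, K)) := by
  classical
  obtain ⟨p, hp⟩ := CharP.exists K
  haveI : Fact p.Prime := ⟨CharP.char_is_prime K p⟩
  letI : Algebra (ZMod p) K := ZMod.algebra K p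
  by_cases h : p = 2
  · subst h
    obtain ⟨⟨R, hR, e⟩, -⟩ := SLPres.two_pres (F := K)
    exact ⟨R, hR.trans (by omega), e⟩
  · exact (SLPres.odd_pres (F := K) h).1

variable {F : Type u} [Field F] [Fintype F] {q : ℕ}

theorem sl2_two (hF : Fintype.card F = 2 ^ 2) :
    ∃ rels : Finset (FreeGroup (Fin 3)), rels.card ≤ 5 ∧
      Nonempty (PresentedGroup (↑rels : Set (FreeGroup (Fin 3))) ≃* SL(2, F)) := by
  haveI : CharP F 2 := (ringChar.eq_iff).1 (by
    have h2 : (2 : F) = 0 := char_two hF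
    exact CharP.ringChar_of_prime_eq_zero Nat.prime_two (by exact_mod_cast h2))
  exact (SLPres.two_pres (F := F)).1

/-- The group on two coordinates. -/
theorem su2_short (hF : Fintype.card F = q ^ 2) :
    ∃ rels : Finset (FreeGroup (Fin 3)), rels.card ≤ 8 ∧
      Nonempty (PresentedGroup (↑rels : Set (FreeGroup (Fin 3))) ≃* ↥(SU 2 F q)) := by
  classical
  haveI : Fact (Fintype.card F = q ^ 2) := ⟨hF⟩
  haveI : Fintype (SU3Pres.Fix F q) := Fintype.ofFinite _
  obtain ⟨j⟩ := Cfsg.Agent.S0281.result (F := F) (K := SU3Pres.Fix F q) hF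
    (by rw [← Nat.card_eq_fintype_card, SU3Pres.card_fix])
  obtain ⟨R, hR, ⟨e⟩⟩ := sl2_short (SU3Pres.Fix F q)
  exact ⟨R, hR, ⟨e.trans j.symm⟩⟩

/-- The group on two coordinates over four elements. -/
theorem su2_two (hF : Fintype.card F = 2 ^ 2) :
    ∃ rels : Finset (FreeGroup SGens), rels.card ≤ 3 ∧
      Nonempty (PresentedGroup (↑rels : Set (FreeGroup SGens)) ≃* ↥(SU 2 F 2)) := by
  have hA3 : tA hF ^ 3 = 1 := by rw [pow_succ, pow_two]; exact tA_cube hF
  have hinv : tB hF * tA hF * (tB hF)⁻¹ = (tA hF)⁻¹ := by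
    refine eq_inv_of_mul_eq_one_right ?_
    have h := tAB_sq hF
    rw [inv_eq_of_mul_eq_one_right (tB_sq hF)]
    simpa only [mul_assoc] using h
  refine pres_six (tA hF) (tB hF) hA3 (tA_ne hF) (tB_sq hF) hinv (fun hm => ?_) ?_
  · obtain ⟨i, hi⟩ := hm
    have hc : tB hF * tA hF * (tB hF)⁻¹ = tA hF := by
      rw [← hi]
      exact mul_inv_eq_iff_eq_mul.2 (Commute.zpow_self _ i).eq
    rw [hinv] at hc
    have h2 : tA hF * tA hF = 1 := by nth_rw 1 [← hc]; exact inv_mul_cancel _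
    exact tA_ne hF (by simpa [h2] using tA_cube hF)
  · exact eq_top_of_mem hF (Subgroup.subset_closure (Set.mem_insert _ _))
      (Subgroup.subset_closure (Set.mem_insert_of_mem _ rfl))

/-- A presentation of the group on four coordinates adapted to the first pair. -/
theorem four_data (hF : Fintype.card F = q ^ 2) {κ κ' : Type} [Fintype κ] [Fintype κ']
    (R : Finset (FreeGroup κ)) (eS : PresentedGroup (↑R : Set (FreeGroup κ)) ≃* SL(2, F))
    (R2 : Finset (FreeGroup κ')) (eK : PresentedGroup (↑R2 : Set (FreeGroup κ')) ≃* ↥(SU 2 F q)) :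
    ∃ (R4 : Finset (FreeGroup (κ ⊕ κ'))) (eF : PresentedGroup (↑R4 : Set (FreeGroup (κ ⊕ κ'))) ≃* ↥(SU 4 F q)),
      R4.card ≤ R.card + R2.card + 12 ∧
      Subgroup.closure (Set.range fun j => eF (PresentedGroup.of (Sum.inr j))) =
        (GI (Iv 0 2) : Subgroup ↥(SU 4 F q)) := by
  classical
  let eqv : H58.PSUFusion.Ix 1 0 ≃ Fin 2 := Fintype.equivFinOfCardEq (by simp)
  obtain ⟨i⟩ := SUPres.suh_equiv hF eqv
  obtain ⟨y, hy⟩ := exists_su2_two hF
  have hy' : Subgroup.closure (Set.range fun j => i.symm (y j)) = ⊤ := by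
    rw [show (Set.range fun j => i.symm (y j)) = i.symm.toMonoidHom '' Set.range y from Set.range_comp _ _,
      ← MonoidHom.map_closure, hy]
    exact Subgroup.map_top_of_surjective _ i.symm.surjective
  obtain ⟨R4, e4', hR4, hval⟩ := su4_pres (I := H58.PSUFusion.invOfCard hF) R eS R2 (eK.trans i.symm)
    (fun j => i.symm (y j)) hy'
  obtain ⟨ρ, hρ⟩ := exists_rho hF
  refine ⟨R4, e4'.trans ρ, hR4, ?_⟩
  rw [← hρ, show Set.range (fun j => (e4'.trans ρ) (PresentedGroup.of (Sum.inr j))) =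
      (ρ.toMonoidHom.comp (SUPres.emb.comp (eK.trans i.symm).toMonoidHom)) ''
        Set.range (PresentedGroup.of : κ' → PresentedGroup (↑R2 : Set (FreeGroup κ'))) by
    rw [← Set.range_comp]
    congr 1
    funext j
    show ρ (e4' _) = _
    rw [hval]
    rfl, ← MonoidHom.map_closure, PresentedGroup.closure_range_of, ← Subgroup.map_map, ← Subgroup.map_map,
    Subgroup.map_top_of_surjective _ (eK.trans i.symm).surjective, ← MonoidHom.range_eq_map]

/-- Selected old generators and few new ones. -/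
theorem pres_keep {κ κ0 : Type} [Fintype κ0] {S : Type*} [Group S] {m Nb : ℕ} (R : Finset (FreeGroup κ))
    (e : PresentedGroup (↑R : Set (FreeGroup κ)) ≃* S) (ι : κ0 ↪ κ) (xs : Fin m → S)
    (hgen : Subgroup.closure (Set.range (fun i => e (PresentedGroup.of (ι i))) ∪ Set.range xs) = ⊤)
    (h6 : Fintype.card κ0 + m = 6) (hN : R.card + m ≤ Nb) :
    ∃ rels : Finset (FreeGroup (Fin 6)), rels.card ≤ Nb ∧
      Nonempty (PresentedGroup (↑rels : Set (FreeGroup (Fin 6))) ≃* S) := by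
  classical
  obtain ⟨R', hR', ⟨e'⟩⟩ := pres_select R e (Sum.elim (fun i => e (PresentedGroup.of (ι i))) xs)
    (by rw [Set.Sum.elim_range]; exact hgen) (Sum.elim (fun i => some (ι i)) fun _ => none)
    (fun i j h => by
      rcases i with i | i
      · simp only [Sum.elim_inl, Option.some.injEq] at h; subst h; rfl
      · simp at h)
    (fun i i' j h h' => by
      rcases i with i | i <;> rcases i' with i' | i' <;> simp at h h'
      exact congrArg _ (ι.injective (h.trans h'.symm)))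
  have hm : (Finset.univ.filter fun i : κ0 ⊕ Fin m =>
      Sum.elim (fun i => some (ι i)) (fun _ => none) i = (none : Option κ)).card ≤ m := by
    refine (Finset.card_le_card (t := (Finset.univ : Finset (Fin m)).image Sum.inr) fun i hi => ?_).trans
      (Finset.card_image_le.trans (by simp))
    rcases i with i | i
    · simp at hi
    · simp
  exact SLnPres.pres_pad 6 Nb (by simp [h6]) R' (by simp [h6]; omega) e'

variable {N : ℕ}

/-- The permutations and the blocks of the first coordinates generate. -/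
theorem gen_su (hF : Fintype.card F = q ^ 2) (hN : 5 ≤ N) (S : Subgroup ↥(SU N F q))
    (hA : ∀ π, pA π ∈ S) (h2 : ∀ x, emb (e2 0 (by omega)) x ∈ S) (h3 : ∀ z, emb (e3 0 (by omega)) z ∈ S) :
    S = ⊤ := by
  obtain ⟨d, rfl⟩ : ∃ d, N = d + 5 := ⟨N - 5, by omega⟩
  refine eq_top_iff.2 ?_
  have h := Six.GI_le_range (R := S) hF (fun a ha g hg => ?_) (fun a ha g hg => ?_) (d + 2) 0 (by omega)
  · rw [show (Iv 0 (0 + (d + 2 + 3)) : Set (Fin (d + 5))) = Set.univ from
      Set.eq_univ_of_forall fun k => ⟨Nat.zero_le _, by omega⟩, GI_univ] at h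
    exact h
  · have hg' : g ∈ GI (Set.range (e2 a ha)) := by rw [range_e2]; exact hg
    obtain ⟨x, rfl⟩ := exists_emb _ hF hg'
    obtain ⟨t, ht⟩ := exists_alt (e2 a ha) (by omega)
    have e : pA t * emb (e2 0 (by omega)) x * (pA t)⁻¹ = emb (e2 a ha) x := by
      rw [pA_emb]
      congr 2
      exact Function.Embedding.ext fun i => by rw [pEmb_apply, ht i _ (by show 0 + (i : ℕ) = i; omega)]
    rw [← e]
    exact mul_mem (mul_mem (hA t) (h2 x)) (inv_mem (hA t))
  · have hg' : g ∈ GI (Set.range (e3 a ha)) := by rw [range_e3]; exact hg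
    obtain ⟨x, rfl⟩ := exists_emb _ hF hg'
    obtain ⟨t, ht⟩ := exists_alt (e3 a ha) (by omega)
    have e : pA t * emb (e3 0 (by omega)) x * (pA t)⁻¹ = emb (e3 a ha) x := by
      rw [pA_emb]
      congr 2
      exact Function.Embedding.ext fun i => by rw [pEmb_apply, ht i _ (by show 0 + (i : ℕ) = i; omega)]
    rw [← e]
    exact mul_mem (mul_mem (hA t) (h3 x)) (inv_mem (hA t))

theorem pair_mem (hN : 5 ≤ N) (S : Subgroup ↥(SU N F q))
    (hA : ∀ π, pA π ∈ S) (h2 : ∀ x, emb (e2 0 (by omega)) x ∈ S) (a : ℕ) (ha : a + 2 ≤ N) (x : ↥(SU 2 F q)) :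
    emb (e2 a ha) x ∈ S := by
  obtain ⟨t, ht⟩ := exists_alt (e2 a ha) (by omega)
  have e : pA t * emb (e2 0 (by omega)) x * (pA t)⁻¹ = emb (e2 a ha) x := by
    rw [pA_emb]
    congr 2
    exact Function.Embedding.ext fun i => by rw [pEmb_apply, ht i _ (by show 0 + (i : ℕ) = i; omega)]
  rw [← e]
  exact mul_mem (mul_mem (hA t) (h2 x)) (inv_mem (hA t))

theorem tri_blocks (hN : 5 ≤ N) (S : Subgroup ↥(SU N F q))
    (hA : ∀ π, pA π ∈ S) (h2 : ∀ x, emb (e2 0 (by omega)) x ∈ S) (x : ↥(SU 2 F q)) :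
    emb (e3 0 (by omega)) (lo x) ∈ S ∧ emb (e3 0 (by omega)) (hi x) ∈ S := by
  rw [emb_trans, emb_trans]
  constructor
  · rw [show (e2 (N := 3) 0 (by omega)).trans (e3 (N := N) 0 (by omega)) = e2 0 (by omega) from
      Function.Embedding.ext fun i => Fin.ext (by show 0 + (0 + (i : ℕ)) = 0 + i; omega)]
    exact h2 x
  · rw [show (e2 (N := 3) 1 (by omega)).trans (e3 (N := N) 0 (by omega)) = e2 1 (by omega) from
      Function.Embedding.ext fun i => Fin.ext (by show 0 + (1 + (i : ℕ)) = 1 + i; omega)]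
    exact pair_mem hN S hA h2 1 _ x

/-- Membership of the three kinds of generators. -/
theorem gen_mem (hN : 5 ≤ N) {κA κS κ' : Type} (S : Subgroup ↥(SU N F q)) (rA : Finset (FreeGroup κA))
    (eA : PresentedGroup (↑rA : Set (FreeGroup κA)) ≃* alternatingGroup (Fin N))
    (R4 : Finset (FreeGroup (κS ⊕ κ'))) (eF : PresentedGroup (↑R4 : Set (FreeGroup (κS ⊕ κ'))) ≃* ↥(SU 4 F q))
    (hclo : Subgroup.closure (Set.range fun j => eF (PresentedGroup.of (Sum.inr j))) =
      (GI (Iv 0 2) : Subgroup ↥(SU 4 F q)))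
    (hA : ∀ i, pA (eA (PresentedGroup.of i)) ∈ S)
    (h4 : ∀ j, emb (e4 0 (by omega)) (eF (PresentedGroup.of (Sum.inr j))) ∈ S) :
    (∀ π, pA π ∈ S) ∧ ∀ x, emb (e2 0 (by omega)) x ∈ S := by
  refine ⟨fun π => ?_, fun x => ?_⟩
  · obtain ⟨w, rfl⟩ := eA.surjective π
    have hw : w ∈ Subgroup.closure (Set.range (PresentedGroup.of : κA → _)) := by
      rw [PresentedGroup.closure_range_of]; trivial
    exact (Subgroup.closure_le (S.comap ((pA).comp eA.toMonoidHom))).2 (by rintro _ ⟨i, rfl⟩; exact hA i) hw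
  · rw [← emb_w4_pair hN]
    have hx : pair4 0 (by omega) x ∈ Subgroup.closure (Set.range fun j => eF (PresentedGroup.of (Sum.inr j))) := by
      rw [hclo]
      have := emb_mem (e2 (N := 4) 0 (by omega)) x
      rw [range_e2] at this
      exact this
    exact (Subgroup.closure_le (S.comap (emb (e4 0 (by omega))))).2 (by rintro _ ⟨j, rfl⟩; exact h4 j) hx

/-- Six generators, more than four elements. -/
theorem six_large (hF : Fintype.card F = q ^ 2) (hN : 5 ≤ N) (hq : 3 ≤ q) {κA κ0 : Type} [Fintype κA]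
    [Fintype κ0] (rA : Finset (FreeGroup κA))
    (eA : PresentedGroup (↑rA : Set (FreeGroup κA)) ≃* alternatingGroup (Fin N))
    (ι : κ0 ↪ κA ⊕ (Fin 3 ⊕ Fin 3)) (hι : ∀ i, ∃ k, ι k = Sum.inl i)
    (hι' : ∀ j, ∃ k, ι k = Sum.inr (Sum.inr j)) (h6 : Fintype.card κ0 = 6) {Nb : ℕ}
    (hNb : rA.card + 32 ≤ Nb) :
    ∃ rels : Finset (FreeGroup (Fin 6)), rels.card ≤ Nb ∧
      Nonempty (PresentedGroup (↑rels : Set (FreeGroup (Fin 6))) ≃* ↥(SU N F q)) := by
  classical
  obtain ⟨R1, h1, ⟨eS⟩⟩ := sl2_short F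
  obtain ⟨R2, h2, ⟨eK⟩⟩ := su2_short hF
  obtain ⟨R4, eF, h4, hclo⟩ := four_data hF R1 eS R2 eK
  obtain ⟨E, hE1, hE2, hgood⟩ := extra_large hF hN hq
  obtain ⟨R, e, hR, vA, v4⟩ := six_pres hF hN rA eA R4 eF E hE2 hgood
  refine pres_keep R e ι (m := 0) Fin.elim0 ?_ (by omega) (by omega)
  set S := Subgroup.closure (Set.range (fun i => e (PresentedGroup.of (ι i))) ∪ Set.range (Fin.elim0 : Fin 0 → ↥(SU N F q)))
  obtain ⟨hA, hp⟩ := gen_mem hN S rA eA R4 eF hclo
    (fun i => by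
      obtain ⟨k, hk⟩ := hι i
      rw [← vA i, ← hk]; exact Subgroup.subset_closure (Or.inl ⟨k, rfl⟩))
    (fun j => by
      obtain ⟨k, hk⟩ := hι' j
      rw [← v4, ← hk]; exact Subgroup.subset_closure (Or.inl ⟨k, rfl⟩))
  refine gen_su hF hN S hA hp fun z => ?_
  have hz : z ∈ (lo (F := F) (q := q)).range ⊔ hi.range := by rw [lo_sup_hi hF hq]; trivial
  exact (sup_le (by rintro _ ⟨x, rfl⟩; exact (tri_blocks hN S hA hp x).1)
    (by rintro _ ⟨x, rfl⟩; exact (tri_blocks hN S hA hp x).2) :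
      (lo (F := F) (q := q)).range ⊔ hi.range ≤ S.comap (emb (e3 0 (by omega)))) hz

/-- Six generators, four elements. -/
theorem six_two (hF : Fintype.card F = 2 ^ 2) (hN : 5 ≤ N) {κA κ0 : Type} [Fintype κA] [Fintype κ0]
    (rA : Finset (FreeGroup κA)) (eA : PresentedGroup (↑rA : Set (FreeGroup κA)) ≃* alternatingGroup (Fin N))
    (ι : κ0 ↪ κA ⊕ (Fin 3 ⊕ SGens)) (hι : ∀ i, ∃ k, ι k = Sum.inl i)
    (hι' : ∀ j, ∃ k, ι k = Sum.inr (Sum.inr j)) (h6 : Fintype.card κ0 = 5) {Nb : ℕ}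
    (hNb : rA.card + (if N = 5 then 29 else 31) ≤ Nb) :
    ∃ rels : Finset (FreeGroup (Fin 6)), rels.card ≤ Nb ∧
      Nonempty (PresentedGroup (↑rels : Set (FreeGroup (Fin 6))) ≃* ↥(SU N F 2)) := by
  classical
  obtain ⟨R1, h1, ⟨eS⟩⟩ := sl2_two hF
  obtain ⟨R2, h2, ⟨eK⟩⟩ := su2_two hF
  obtain ⟨R4, eF, h4, hclo⟩ := four_data hF R1 eS R2 eK
  obtain ⟨E, hE1, hE5, hE2, hgood⟩ := extra_two hF hN
  obtain ⟨R, e, hR, vA, v4⟩ := six_pres hF hN rA eA R4 eF E hE2 hgood
  refine pres_keep R e ι (m := 1) (fun _ => emb (e3 0 (by omega)) (four hF)) ?_ (by omega) (by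
    split_ifs at hNb with h
    · have := hE5 h; omega
    · omega)
  set S := Subgroup.closure (Set.range (fun i => e (PresentedGroup.of (ι i))) ∪
    Set.range (fun _ : Fin 1 => emb (e3 (N := N) 0 (by omega)) (four hF)))
  obtain ⟨hA, hp⟩ := gen_mem hN S rA eA R4 eF hclo
    (fun i => by
      obtain ⟨k, hk⟩ := hι i
      rw [← vA i, ← hk]; exact Subgroup.subset_closure (Or.inl ⟨k, rfl⟩))
    (fun j => by
      obtain ⟨k, hk⟩ := hι' j
      rw [← v4, ← hk]; exact Subgroup.subset_closure (Or.inl ⟨k, rfl⟩))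
  have hf : emb (e3 (N := N) 0 (by omega)) (four hF) ∈ S := Subgroup.subset_closure (Or.inr ⟨0, rfl⟩)
  refine gen_su hF hN S hA hp fun z => ?_
  have htop : S.comap (emb (e3 (N := N) 0 (by omega))) = ⊤ := by
    refine eq_top_two hF (H0_le hF (fun x => (tri_blocks hN S hA hp x).1) (fun x => (tri_blocks hN S hA hp x).2) hf) ?_
    show emb (e3 (N := N) 0 _) (tw hF (four hF)) ∈ S
    rw [← emb_w4_lo3 hN, lo3_tw hF, map_mul, map_mul, map_inv, emb_w4_lo3 hN]
    have hu : emb (e4 (N := N) 0 (by omega)) (pair4 2 (by omega) (tA hF)) ∈ S := by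
      rw [emb_trans, show (e2 (N := 4) 2 (by omega)).trans (e4 (N := N) 0 (by omega)) = e2 2 (by omega) from
        Function.Embedding.ext fun i => Fin.ext (by show 0 + (2 + (i : ℕ)) = 2 + i; omega)]
      exact pair_mem hN S hA hp 2 _ _
    exact mul_mem (mul_mem hu hf) (inv_mem hu)
  have : z ∈ S.comap (emb (e3 (N := N) 0 (by omega))) := by rw [htop]; trivial
  exact this

/-- Four coordinates. -/
theorem su_four (hF : Fintype.card F = q ^ 2) :
    ∃ rels : Finset (FreeGroup (Fin 6)), rels.card ≤ 28 ∧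
      Nonempty (PresentedGroup (↑rels : Set (FreeGroup (Fin 6))) ≃* ↥(SU 4 F q)) := by
  obtain ⟨R1, h1, ⟨eS⟩⟩ := sl2_short F
  obtain ⟨R2, h2, ⟨eK⟩⟩ := su2_short hF
  obtain ⟨R4, eF, h4, -⟩ := four_data hF R1 eS R2 eK
  exact SLnPres.pres_pad 6 28 (by simp) R4 (by simp; omega) eF

/-- Five coordinates. -/
theorem su_five (hF : Fintype.card F = q ^ 2) :
    ∃ rels : Finset (FreeGroup (Fin 6)), rels.card ≤ 35 ∧
      Nonempty (PresentedGroup (↑rels : Set (FreeGroup (Fin 6))) ≃* ↥(SU 5 F q)) := by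
  obtain ⟨rA, hA, ⟨eA⟩⟩ := SLnPres.alt_five_pres
  have hq2 := H3.two_le_q hF
  rcases eq_or_lt_of_le hq2 with h | h
  · subst h
    refine six_two hF le_rfl rA eA
      (κ0 := (Fin 2 ⊕ SGens) ⊕ Unit)
      ⟨Sum.elim (Sum.elim Sum.inl fun j => Sum.inr (Sum.inr j)) fun _ => Sum.inr (Sum.inl 0), ?_⟩
      (fun i => ⟨.inl (.inl i), rfl⟩) (fun j => ⟨.inl (.inr j), rfl⟩) (by simp) (by rw [if_pos rfl]; omega)
    rintro ((a | a) | a) ((b | b) | b) hab <;> simp_all
  · refine six_large hF le_rfl h rA eA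
      (κ0 := (Fin 2 ⊕ Fin 3) ⊕ Unit)
      ⟨Sum.elim (Sum.elim Sum.inl fun j => Sum.inr (Sum.inr j)) fun _ => Sum.inr (Sum.inl 0), ?_⟩
      (fun i => ⟨.inl (.inl i), rfl⟩) (fun j => ⟨.inl (.inr j), rfl⟩) (by simp) (by omega)
    rintro ((a | a) | a) ((b | b) | b) hab <;> simp_all

/-- Six generators and at most 39 relations. -/
theorem su_any (hF : Fintype.card F = q ^ 2) {n : ℕ} (hn : 4 ≤ n) :
    ∃ rels : Finset (FreeGroup (Fin 6)), rels.card ≤ 39 ∧
      Nonempty (PresentedGroup (↑rels : Set (FreeGroup (Fin 6))) ≃* ↥(SU n F q)) := by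
  obtain rfl | rfl | h6 : n = 4 ∨ n = 5 ∨ 6 ≤ n := by omega
  · obtain ⟨R, hR, e⟩ := su_four hF; exact ⟨R, hR.trans (by omega), e⟩
  · obtain ⟨R, hR, e⟩ := su_five hF; exact ⟨R, hR.trans (by omega), e⟩
  obtain ⟨V⟩ := Cfsg.Agent.H62.alt_window_model (n := n) (by omega)
  obtain ⟨rA, hA, ⟨eA⟩⟩ := V.three_gen
  have hq2 := H3.two_le_q hF
  rcases eq_or_lt_of_le hq2 with h | h
  · subst h
    refine six_two hF (by omega) rA eA (κ0 := Fin 3 ⊕ SGens)
      ⟨Sum.elim Sum.inl fun j => Sum.inr (Sum.inr j), ?_⟩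
      (fun i => ⟨.inl i, rfl⟩) (fun j => ⟨.inr j, rfl⟩) (by simp) (by rw [if_neg (by omega)]; omega)
    rintro (a | a) (b | b) hab <;> simp_all
  · refine six_large hF (by omega) h rA eA (κ0 := Fin 3 ⊕ Fin 3)
      ⟨Sum.elim Sum.inl fun j => Sum.inr (Sum.inr j), ?_⟩
      (fun i => ⟨.inl i, rfl⟩) (fun j => ⟨.inr j, rfl⟩) (by simp) (by omega)
    rintro (a | a) (b | b) hab <;> simp_all

/-- The central quotient needs one more relation. -/
theorem psu_of_su (hF : Fintype.card F = q ^ 2) {n Nb : ℕ} (hn : 2 ≤ n)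
    (h : ∃ rels : Finset (FreeGroup (Fin 6)), rels.card ≤ Nb ∧
      Nonempty (PresentedGroup (↑rels : Set (FreeGroup (Fin 6))) ≃* ↥(SU n F q))) :
    ∃ rels : Finset (FreeGroup (Fin 6)), rels.card ≤ Nb + 1 ∧
      Nonempty (PresentedGroup (↑rels : Set (FreeGroup (Fin 6))) ≃* Cfsg.PSU n F q) := by
  classical
  obtain ⟨R, hR, ⟨e⟩⟩ := h
  obtain ⟨R', hR', e'⟩ := SLnPres.pres_quotient R e _ (SUPres.center_su_cyclic hF hn)
  exact ⟨R', hR'.trans (by omega), e'⟩

end Cfsg.Agent.H81.SUSix
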