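import Cfsg.Agent.H78.Phan.Glue
import Mathlib

/-!
# Even permutations of the coordinates
-/

set_option autoImplicit false
set_option linter.unusedSectionVars false

namespace Cfsg.Agent.H81.SUSix

open Matrix Equiv Cfsg Cfsg.Agent.H78.Phan

variable {F : Type*} [Field F] [Fintype F] {q N k : ℕ}

section PermMatrix

theorem herm_comp (σ : Perm (Fin N)) (u v : Fin N → F) :
    hermForm N F q (u ∘ σ) (v ∘ σ) = hermForm N F q u v := by
  rw [hermForm, hermForm]
  exact Equiv.sum_comp σ (fun i => u i * v i ^ q)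

/-- The permutation matrices of even permutations. -/
noncomputable def pA : alternatingGroup (Fin N) →* ↥(SU N F q) where
  toFun σ := ⟨⟨(σ : Perm (Fin N))⁻¹.permMatrix F, by
      rw [Matrix.det_permutation, map_inv, Perm.mem_alternatingGroup.1 σ.2]; simp⟩, fun u v => by
    show hermForm N F q ((σ : Perm (Fin N))⁻¹.permMatrix F *ᵥ u) ((σ : Perm (Fin N))⁻¹.permMatrix F *ᵥ v) =
      hermForm N F q u v
    rw [Matrix.permMatrix_mulVec, Matrix.permMatrix_mulVec]
    exact herm_comp _ u v⟩
  map_one' := by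
    refine ext_act fun v => ?_
    show (((1 : alternatingGroup (Fin N)) : Perm (Fin N))⁻¹.permMatrix F) *ᵥ v = _
    rw [Matrix.permMatrix_mulVec, act_one]
    rfl
  map_mul' σ τ := by
    refine ext_act fun v => ?_
    rw [act_mul]
    show (((σ * τ : alternatingGroup (Fin N)) : Perm (Fin N))⁻¹.permMatrix F) *ᵥ v =
      ((σ : Perm (Fin N))⁻¹.permMatrix F) *ᵥ (((τ : Perm (Fin N))⁻¹.permMatrix F) *ᵥ v)
    rw [Matrix.permMatrix_mulVec, Matrix.permMatrix_mulVec, Matrix.permMatrix_mulVec, Subgroup.coe_mul,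
      _root_.mul_inv_rev]
    rfl

theorem act_pA (σ : alternatingGroup (Fin N)) (v : Fin N → F) :
    act (pA (q := q) σ) v = v ∘ ((σ : Perm (Fin N))⁻¹ : Perm (Fin N)) := by
  show ((σ : Perm (Fin N))⁻¹.permMatrix F) *ᵥ v = _
  rw [Matrix.permMatrix_mulVec]

/-- An embedding followed by a permutation. -/
def pEmb (σ : alternatingGroup (Fin N)) (f : Fin k ↪ Fin N) : Fin k ↪ Fin N :=
  f.trans (σ : Perm (Fin N)).toEmbedding

@[simp] theorem pEmb_apply (σ : alternatingGroup (Fin N)) (f : Fin k ↪ Fin N) (i : Fin k) :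
    pEmb σ f i = (σ : Perm (Fin N)) (f i) := rfl

theorem pA_emb (σ : alternatingGroup (Fin N)) (f : Fin k ↪ Fin N) (x : ↥(SU k F q)) :
    pA σ * emb f x * (pA σ)⁻¹ = emb (pEmb σ f) x := by
  rw [mul_inv_eq_iff_eq_mul]
  refine ext_act fun v => funext fun p => ?_
  rw [act_mul, act_mul, act_pA, act_pA, Function.comp_apply]
  by_cases hp : p ∈ Set.range (pEmb σ f)
  · obtain ⟨i, rfl⟩ := hp
    rw [act_emb_in, show ((σ : Perm (Fin N))⁻¹) (pEmb σ f i) = f i by simp, act_emb_in]
    congr 1
    funext j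
    simp
  · rw [act_emb_out _ _ _ hp, act_emb_out]
    · rfl
    · rintro ⟨i, hi⟩
      exact hp ⟨i, by simp [hi]⟩

/-- Even permutations of an embedded set of coordinates. -/
noncomputable def extA (f : Fin k ↪ Fin N) : alternatingGroup (Fin k) →* alternatingGroup (Fin N) :=
  ((Perm.viaEmbeddingHom f).comp (alternatingGroup (Fin k)).subtype).codRestrict _ fun π => by
    rw [Perm.mem_alternatingGroup]
    have h := (Perm.sign_extendDomain (π : Perm (Fin k)) (Equiv.ofInjective f f.injective)).trans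
      (Perm.mem_alternatingGroup.1 π.2)
    show Perm.sign (Perm.viaEmbedding (π : Perm (Fin k)) f) = 1
    rw [Perm.viaEmbedding]
    convert h using 3 <;> rfl

theorem extA_apply (f : Fin k ↪ Fin N) (π : alternatingGroup (Fin k)) (i : Fin k) :
    (extA f π : Perm (Fin N)) (f i) = f ((π : Perm (Fin k)) i) :=
  Perm.viaEmbedding_apply _ f i

theorem extA_apply_not (f : Fin k ↪ Fin N) (π : alternatingGroup (Fin k)) {p : Fin N} (hp : p ∉ Set.range f) :
    (extA f π : Perm (Fin N)) p = p :=
  Perm.viaEmbedding_apply_of_notMem _ f p hp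

theorem emb_pA (f : Fin k ↪ Fin N) (π : alternatingGroup (Fin k)) :
    emb f (pA (F := F) (q := q) π) = pA (extA f π) := by
  refine ext_act fun v => funext fun p => ?_
  rw [act_pA, Function.comp_apply]
  by_cases hp : p ∈ Set.range f
  · obtain ⟨i, rfl⟩ := hp
    rw [act_emb_in, act_pA, Function.comp_apply, Function.comp_apply]
    congr 1
    rw [Perm.eq_inv_iff_eq, extA_apply, Perm.inv_def, Equiv.apply_symm_apply]
  · rw [act_emb_out _ _ _ hp]
    congr 1
    rw [Perm.eq_inv_iff_eq, extA_apply_not f π hp]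

end PermMatrix

theorem exists_perm (f : Fin k ↪ Fin N) (hk : k ≤ N) :
    ∃ g : Perm (Fin N), ∀ i, g (Fin.castLE hk i) = f i := by
  classical
  let e : {x // x ∈ Set.range (Fin.castLE hk)} ≃ {x // x ∈ Set.range f} :=
    (Equiv.ofInjective _ (Fin.castLE_injective hk)).symm.trans (Equiv.ofInjective f f.injective)
  refine ⟨e.extendSubtype, fun i => ?_⟩
  rw [e.extendSubtype_apply_of_mem _ ⟨i, rfl⟩]
  show (Equiv.ofInjective f f.injective ((Equiv.ofInjective _ (Fin.castLE_injective hk)).symm ⟨_, i, rfl⟩) : Fin N) = _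
  rw [Equiv.ofInjective_symm_apply (Fin.castLE_injective hk)]
  rfl

/-- An even permutation with prescribed values on few points. -/
theorem exists_alt (f : Fin k ↪ Fin N) (hk : k + 2 ≤ N) :
    ∃ g : alternatingGroup (Fin N), ∀ (i : Fin k) (p : Fin N), (p : ℕ) = i → (g : Perm (Fin N)) p = f i := by
  obtain ⟨g, hg⟩ := exists_perm f (by omega : k ≤ N)
  have hgp : ∀ (i : Fin k) (p : Fin N), (p : ℕ) = i → g p = f i := fun i p h => by
    rw [show p = Fin.castLE (by omega) i from Fin.ext h, hg]
  rcases Int.units_eq_one_or (Perm.sign g) with h | h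
  · exact ⟨⟨g, Perm.mem_alternatingGroup.2 h⟩, hgp⟩
  · let a : Fin N := ⟨k, by omega⟩
    let b : Fin N := ⟨k + 1, by omega⟩
    refine ⟨⟨g * swap a b, Perm.mem_alternatingGroup.2 ?_⟩, fun i p hp => ?_⟩
    · rw [map_mul, h, Perm.sign_swap (by simp [a, b, Fin.ext_iff])]
      simp
    · show g (swap a b p) = f i
      rw [swap_apply_of_ne_of_ne, hgp i p hp]
      · simp only [a, ne_eq, Fin.ext_iff]; omega
      · simp only [b, ne_eq, Fin.ext_iff]; omega

/-- An even permutation with prescribed values up to a change of the first two. -/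
theorem exists_alt_swap (f : Fin (k + 2) ↪ Fin N) (hk : k + 2 ≤ N) :
    ∃ (g : alternatingGroup (Fin N)) (τ : Perm (Fin (k + 2))), (τ = 1 ∨ τ = swap 0 1) ∧
      ∀ (i : Fin (k + 2)) (p : Fin N), (p : ℕ) = i → (g : Perm (Fin N)) p = f (τ i) := by
  obtain ⟨g, hg⟩ := exists_perm f hk
  rcases Int.units_eq_one_or (Perm.sign g) with h | h
  · exact ⟨⟨g, Perm.mem_alternatingGroup.2 h⟩, 1, Or.inl rfl, fun i p hp => by
      show g p = f i
      rw [show p = Fin.castLE hk i from Fin.ext hp, hg]⟩
  · refine ⟨⟨g * swap (Fin.castLE hk 0) (Fin.castLE hk 1), Perm.mem_alternatingGroup.2 ?_⟩, swap 0 1,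
      Or.inr rfl, fun i p hp => ?_⟩
    · rw [map_mul, h, Perm.sign_swap (by simp [Fin.ext_iff])]
      simp
    · show g (swap (Fin.castLE hk 0) (Fin.castLE hk 1) p) = f (swap 0 1 i)
      rw [show p = Fin.castLE hk i from Fin.ext hp, ← Function.Injective.map_swap (Fin.castLE_injective hk),
        hg]

/-- The image of the first `k` points. -/
def st (k : ℕ) (g : alternatingGroup (Fin N)) : Set (Fin N) :=
  {p | (((g : Perm (Fin N))⁻¹ p : Fin N) : ℕ) < k}

/-- The permutation preserves the set of the first `k` points. -/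
def Stab (k : ℕ) (h : alternatingGroup (Fin N)) : Prop :=
  ∀ p : Fin N, (((h : Perm (Fin N)) p : Fin N) : ℕ) < k ↔ (p : ℕ) < k

theorem stab_of_st {g g' : alternatingGroup (Fin N)} (h : st k g = st k g') : Stab k (g'⁻¹ * g) := by
  intro p
  have h1 := Set.ext_iff.1 h ((g : Perm (Fin N)) p)
  simp only [st, Set.mem_setOf_eq, Perm.inv_def, Equiv.symm_apply_apply] at h1
  rw [Subgroup.coe_mul, InvMemClass.coe_inv, Perm.mul_apply, Perm.inv_def]
  exact h1.symm

theorem mem_st_apply {g : alternatingGroup (Fin N)} {p : Fin N} :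
    (g : Perm (Fin N)) p ∈ st k g ↔ (p : ℕ) < k := by
  simp [st]

theorem mem_st {g : alternatingGroup (Fin N)} {x : Fin N} :
    x ∈ st k g ↔ ∃ p : Fin N, (p : ℕ) < k ∧ (g : Perm (Fin N)) p = x :=
  ⟨fun h => ⟨(g : Perm (Fin N))⁻¹ x, h, by simp⟩, fun ⟨_, hp, e⟩ => e ▸ mem_st_apply.2 hp⟩

theorem st_mul (g h : alternatingGroup (Fin N)) : st k (g * h) = (g : Perm (Fin N)) '' st k h := by
  ext x
  simp only [mem_st, Set.mem_image, Subgroup.coe_mul, Perm.mul_apply]
  exact ⟨fun ⟨p, hp, e⟩ => ⟨_, ⟨p, hp, rfl⟩, e⟩, fun ⟨_, ⟨p, hp, e⟩, e'⟩ => ⟨p, hp, e ▸ e'⟩⟩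

theorem st_eq_of {g g' : alternatingGroup (Fin N)} (h : ∀ p : Fin N, (p : ℕ) < k →
    (g : Perm (Fin N)) p ∈ st k g') : st k g = st k g' := by
  classical
  have hsub : st k g ⊆ st k g' := fun x hx => by
    obtain ⟨p, hp, rfl⟩ := mem_st.1 hx
    exact h p hp
  have hcard : ∀ u : alternatingGroup (Fin N), st k u = (u : Perm (Fin N)) '' {p | (p : ℕ) < k} := fun u => by
    ext x; exact mem_st
  refine Set.eq_of_subset_of_ncard_le hsub ?_ (Set.toFinite _)
  rw [hcard, hcard, Set.ncard_image_of_injective _ (Equiv.injective _),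
    Set.ncard_image_of_injective _ (Equiv.injective _)]

theorem st_one : st k (1 : alternatingGroup (Fin N)) = {p : Fin N | (p : ℕ) < k} := by
  ext p; simp [st]

/-! ### Stabilisers -/

section Tail

variable (hk : k ≤ N)

/-- The last coordinates. -/
def tailEmb : Fin (N - k) ↪ Fin N :=
  ⟨fun i => ⟨(i : ℕ) + k, by omega⟩, fun i j h => Fin.ext (by simpa using congrArg Fin.val h)⟩

theorem range_tailEmb (p : Fin N) : p ∈ Set.range (tailEmb hk) ↔ k ≤ (p : ℕ) :=
  ⟨fun ⟨i, hi⟩ => hi ▸ Nat.le_add_left _ _, fun h => ⟨⟨(p : ℕ) - k, by omega⟩, Fin.ext (by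
    show (p : ℕ) - k + k = p; omega)⟩⟩

variable {a b : Fin N}

/-- A transposition for each sign. -/
def sgnSwap (a b : Fin N) : ℤˣ →* Perm (Fin N) where
  toFun u := if u = 1 then 1 else swap a b
  map_one' := if_pos rfl
  map_mul' u v := by
    rcases Int.units_eq_one_or u with rfl | rfl <;> rcases Int.units_eq_one_or v with rfl | rfl <;>
      simp [Equiv.swap_mul_self]

theorem sign_sgnSwap (hab : a ≠ b) (u : ℤˣ) : Perm.sign (sgnSwap a b u) = u := by
  rcases Int.units_eq_one_or u with rfl | rfl <;> simp [sgnSwap, hab]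

theorem sgnSwap_fix {p : Fin N} (h1 : p ≠ a) (h2 : p ≠ b) (u : ℤˣ) : sgnSwap a b u p = p := by
  show (if u = 1 then 1 else swap a b : Perm (Fin N)) p = p
  split_ifs
  · rfl
  · exact swap_apply_of_ne_of_ne h1 h2

theorem sgnSwap_lt (ha : (a : ℕ) < k) (hb : (b : ℕ) < k) {p : Fin N} (hp : (p : ℕ) < k) (u : ℤˣ) :
    ((sgnSwap a b u p : Fin N) : ℕ) < k := by
  show (((if u = 1 then 1 else swap a b : Perm (Fin N)) p : Fin N) : ℕ) < k
  split_ifs
  · exact hp
  · rw [swap_apply_def]; split_ifs <;> assumption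

/-- Permutations of the last coordinates, corrected by a transposition of two of the first ones. -/
noncomputable def theta (ha : (a : ℕ) < k) (hb : (b : ℕ) < k) (hab : a ≠ b) :
    Perm (Fin (N - k)) →* alternatingGroup (Fin N) :=
  MonoidHom.codRestrict
    { toFun := fun π => Perm.viaEmbeddingHom (tailEmb hk) π * sgnSwap a b (Perm.sign π)
      map_one' := by simp
      map_mul' := fun π π' => by
        have hc : Commute (sgnSwap a b (Perm.sign π)) (Perm.viaEmbeddingHom (tailEmb hk) π') := by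
          refine Perm.Disjoint.commute fun p => ?_
          by_cases hp : k ≤ (p : ℕ)
          · exact Or.inl (sgnSwap_fix (fun e => by subst e; omega) (fun e => by subst e; omega) _)
          · exact Or.inr (Perm.viaEmbedding_apply_of_notMem _ _ _ fun h => hp ((range_tailEmb hk p).1 h))
        rw [map_mul, map_mul, map_mul]
        calc Perm.viaEmbeddingHom (tailEmb hk) π * Perm.viaEmbeddingHom (tailEmb hk) π' *
              (sgnSwap a b (Perm.sign π) * sgnSwap a b (Perm.sign π'))
            = Perm.viaEmbeddingHom (tailEmb hk) π * (Perm.viaEmbeddingHom (tailEmb hk) π' *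
              sgnSwap a b (Perm.sign π)) * sgnSwap a b (Perm.sign π') := by simp only [mul_assoc]
          _ = _ := by rw [← hc.eq]; simp only [mul_assoc] }
    _ fun π => by
      rw [Perm.mem_alternatingGroup]
      show Perm.sign (Perm.viaEmbeddingHom (tailEmb hk) π * sgnSwap a b (Perm.sign π)) = 1
      rw [map_mul, sign_sgnSwap hab]
      have h : Perm.sign (Perm.viaEmbedding π (tailEmb hk)) = Perm.sign π := by
        rw [Perm.viaEmbedding]
        convert Perm.sign_extendDomain π (Equiv.ofInjective _ (tailEmb hk).injective) using 3 <;> rfl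
      show Perm.sign (Perm.viaEmbedding π (tailEmb hk)) * _ = 1
      rw [h, Int.units_mul_self]

theorem theta_fix (ha : (a : ℕ) < k) (hb : (b : ℕ) < k) (hab : a ≠ b) (π : Perm (Fin (N - k))) {p : Fin N}
    (hp : (p : ℕ) < k) (h1 : p ≠ a) (h2 : p ≠ b) :
    (theta hk ha hb hab π : Perm (Fin N)) p = p := by
  show (Perm.viaEmbeddingHom (tailEmb hk) π * sgnSwap a b (Perm.sign π)) p = p
  rw [Perm.mul_apply, sgnSwap_fix h1 h2]
  exact Perm.viaEmbedding_apply_of_notMem _ _ _ fun h => by have := (range_tailEmb hk p).1 h; omega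

theorem theta_lt (ha : (a : ℕ) < k) (hb : (b : ℕ) < k) (hab : a ≠ b) (π : Perm (Fin (N - k))) {p : Fin N}
    (hp : (p : ℕ) < k) :
    (theta hk ha hb hab π : Perm (Fin N)) p = sgnSwap a b (Perm.sign π) p := by
  show (Perm.viaEmbeddingHom (tailEmb hk) π * sgnSwap a b (Perm.sign π)) p = _
  rw [Perm.mul_apply]
  refine Perm.viaEmbedding_apply_of_notMem _ _ _ fun h => ?_
  have := (range_tailEmb hk _).1 h
  have := sgnSwap_lt ha hb hp (Perm.sign π)
  omega

/-- Even permutations moving among the first points only two are corrected permutations of the last ones. -/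
theorem exists_theta (ha : (a : ℕ) < k) (hb : (b : ℕ) < k) (hab : a ≠ b) {h : alternatingGroup (Fin N)}
    (hst : Stab k h) (hfix : ∀ p : Fin N, (p : ℕ) < k → p ≠ a → p ≠ b → (h : Perm (Fin N)) p = p) :
    ∃ π, theta hk ha hb hab π = h := by
  set H := (h : Perm (Fin N))
  have hH : ∀ p : Fin N, k ≤ ((H p : Fin N) : ℕ) ↔ k ≤ (p : ℕ) := fun p => by
    rw [← not_lt, ← not_lt, hst p]
  let π : Perm (Fin (N - k)) :=
    { toFun := fun i => ⟨(H (tailEmb hk i) : ℕ) - k, by
        have := (hH (tailEmb hk i)).2 (Nat.le_add_left _ _); have := (H (tailEmb hk i)).isLt; omega⟩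
      invFun := fun i => ⟨(H.symm (tailEmb hk i) : ℕ) - k, by
        have := (hH (H.symm (tailEmb hk i))).1 (by rw [Equiv.apply_symm_apply]; exact Nat.le_add_left _ _)
        have := (H.symm (tailEmb hk i)).isLt; omega⟩
      left_inv := fun i => by
        have h1 := (hH (tailEmb hk i)).2 (Nat.le_add_left _ _)
        apply Fin.ext
        show (H.symm (tailEmb hk ⟨_, _⟩) : ℕ) - k = i
        rw [show tailEmb hk ⟨(H (tailEmb hk i) : ℕ) - k, _⟩ = H (tailEmb hk i) from Fin.ext (Nat.sub_add_cancel h1),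
          Equiv.symm_apply_apply]
        exact Nat.add_sub_cancel _ _
      right_inv := fun i => by
        have h1 := (hH (H.symm (tailEmb hk i))).1 (by rw [Equiv.apply_symm_apply]; exact Nat.le_add_left _ _)
        apply Fin.ext
        show (H (tailEmb hk ⟨_, _⟩) : ℕ) - k = i
        rw [show tailEmb hk ⟨(H.symm (tailEmb hk i) : ℕ) - k, _⟩ = H.symm (tailEmb hk i) from
          Fin.ext (Nat.sub_add_cancel h1), Equiv.apply_symm_apply]
        exact Nat.add_sub_cancel _ _ }
  refine ⟨π, ?_⟩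
  set g := theta hk ha hb hab π
  have htail : ∀ p : Fin N, k ≤ (p : ℕ) → (g : Perm (Fin N)) p = H p := fun p hp => by
    obtain ⟨i, rfl⟩ := (range_tailEmb hk p).2 hp
    show (Perm.viaEmbeddingHom (tailEmb hk) π * sgnSwap a b (Perm.sign π)) (tailEmb hk i) = _
    have hne : ∀ c : Fin N, (c : ℕ) < k → tailEmb hk i ≠ c := fun c hc e => by subst e; omega
    rw [Perm.mul_apply, sgnSwap_fix (hne a ha) (hne b hb)]
    exact (Perm.viaEmbedding_apply _ _ _).trans (Fin.ext (Nat.sub_add_cancel ((hH _).2 hp)))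
  -- the quotient only moves the two points
  have hQ : ∀ p : Fin N, p ≠ a → p ≠ b → (g⁻¹ * h : alternatingGroup (Fin N)).1 p = p := fun p h1 h2 => by
    show (g : Perm (Fin N))⁻¹ (H p) = p
    rw [Perm.inv_def, Equiv.symm_apply_eq]
    by_cases hp : k ≤ (p : ℕ)
    · exact (htail p hp).symm
    · rw [hfix p (by omega) h1 h2, theta_fix hk ha hb hab π (by omega) h1 h2]
  have key : (g⁻¹ * h : alternatingGroup (Fin N)) = 1 := by
    have hsup : (g⁻¹ * h : alternatingGroup (Fin N)).1.support ⊆ {a, b} := fun p hp => by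
      rw [Perm.mem_support] at hp
      by_contra hc
      simp only [Finset.mem_insert, Finset.mem_singleton, not_or] at hc
      exact hp (hQ p hc.1 hc.2)
    by_contra hne
    have h2 : (g⁻¹ * h : alternatingGroup (Fin N)).1.support.card = 2 := by
      have := Finset.card_le_card hsup
      rw [Finset.card_pair hab] at this
      exact le_antisymm this (Perm.two_le_card_support_of_ne_one fun e => hne (Subtype.ext e))
    have h3 := (Perm.card_support_eq_two.1 h2).sign_eq
    rw [Perm.mem_alternatingGroup.1 (g⁻¹ * h : alternatingGroup (Fin N)).2] at h3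
    exact absurd h3 (by decide)
  rw [← mul_one g, ← key, mul_inv_cancel_left]

/-- The two generators of the permutations of the last coordinates. -/
def tailGen (h2 : k + 2 ≤ N) : Fin 2 → Perm (Fin (N - k)) :=
  ![finRotate _, swap ⟨0, by omega⟩ (finRotate _ ⟨0, by omega⟩)]

theorem closure_tailGen (h2 : k + 2 ≤ N) : Subgroup.closure (Set.range (tailGen h2)) = ⊤ := by
  obtain ⟨d, hd⟩ : ∃ d, N - k = d + 2 := ⟨N - k - 2, by omega⟩
  rw [tailGen, Matrix.range_cons_cons_empty]
  refine Perm.closure_cycle_adjacent_swap (isCycle_finRotate_of_le (by omega)) ?_ _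
  rw [support_finRotate_of_le (by omega)]

end Tail

/-- The even permutations are generated by the adjacent three-cycles. -/
theorem alt_adjacent {d : ℕ} (H : Subgroup (Perm (Fin (d + 1 + 1))))
    (h : ∀ a : Fin d, swap (a.castSucc.castSucc) (a.castSucc.succ) * swap (a.succ.castSucc) (a.succ.succ) ∈ H)
    {π : Perm (Fin (d + 1 + 1))} (hπ : Perm.sign π = 1) : π ∈ H := by
  let s : Fin (d + 1) → Perm (Fin (d + 1 + 1)) := fun i => swap i.castSucc i.succ
  have hs : ∀ i, s i * s i = 1 := fun i => swap_mul_self _ _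
  have h' : ∀ a : Fin d, s a.castSucc * s a.succ ∈ H := h
  have h0 : ∀ i, s 0 * s i ∈ H := by
    intro i
    induction i using Fin.induction with
    | zero => rw [hs]; exact one_mem _
    | succ i ih =>
      rw [show s 0 * s i.succ = (s 0 * s i.castSucc) * (s i.castSucc * s i.succ) by
        rw [mul_assoc (s 0), ← mul_assoc (s i.castSucc) (s i.castSucc), hs, one_mul]]
      exact mul_mem ih (h' i)
  have h0' : ∀ i, s i * s 0 ∈ H := fun i => by
    have := inv_mem (h0 i)
    rwa [_root_.mul_inv_rev, inv_eq_of_mul_eq_one_right (hs i), inv_eq_of_mul_eq_one_right (hs 0)] at this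
  have hsgn : ∀ i, Perm.sign (s i) = -1 := fun i => Perm.sign_swap (Fin.castSucc_lt_succ).ne
  have key : ∀ π : Perm (Fin (d + 1 + 1)),
      (Perm.sign π = 1 → π ∈ H) ∧ (Perm.sign π = -1 → s 0 * π ∈ H) := by
    intro π
    have hπ : π ∈ Submonoid.closure (Set.range s) := by
      rw [Perm.mclosure_swap_castSucc_succ]; trivial
    induction hπ using Submonoid.closure_induction_left with
    | one => exact ⟨fun _ => one_mem _, fun e => by simp at e⟩
    | mul_left x hx y _ ih =>
      obtain ⟨i, rfl⟩ := hx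
      rw [map_mul, hsgn]
      rcases Int.units_eq_one_or (Perm.sign y) with e | e <;> rw [e]
      · refine ⟨fun h => absurd h (by decide), fun _ => ?_⟩
        rw [← mul_assoc]
        exact mul_mem (h0 i) (ih.1 e)
      · refine ⟨fun _ => ?_, fun h => absurd h (by decide)⟩
        rw [show s i * y = (s i * s 0) * (s 0 * y) by rw [mul_assoc, ← mul_assoc (s 0), hs, one_mul]]
        exact mul_mem (h0' i) (ih.2 e)
  exact (key π).1 hπ

end Cfsg.Agent.H81.SUSix
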