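import Cfsg.Agent.H81.SUSix.Perm

/-!
# A group with an alternating group and a window of four coordinates
-/

set_option autoImplicit false
set_option linter.unusedSectionVars false
set_option maxHeartbeats 1000000

namespace Cfsg.Agent.H81.SUSix

open Matrix Equiv Cfsg Cfsg.Agent.H78.Phan

universe w

/-- The first three of four coordinates. -/
abbrev tri0 : Fin 3 ↪ Fin 4 := e3 0 (by omega)

/-- The last three of four coordinates. -/
abbrev tri1 : Fin 3 ↪ Fin 4 := e3 1 (by omega)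

/-- A group with compatible maps from an alternating group and from the unitary group of four coordinates. -/
structure Six (X : Type w) [Group X] (F : Type*) [Field F] [Fintype F] (q N : ℕ) where
  hF : Fintype.card F = q ^ 2
  hN : 5 ≤ N
  σA : alternatingGroup (Fin N) →* X
  φ : ↥(SU 4 F q) →* X
  f : X →* ↥(SU N F q)
  fσ : ∀ g, f (σA g) = pA g
  fφ : ∀ z, f (φ z) = emb (e4 0 (by omega)) z
  link : ∀ π : alternatingGroup (Fin 4), φ (pA π) = σA (extA (e4 0 (by omega)) π)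
  gen : Subgroup.closure (Set.range σA ∪ Set.range φ) = ⊤

namespace Six

variable {X : Type w} [Group X] {F : Type*} [Field F] [Fintype F] {q N : ℕ} (D : Six X F q N)

/-- Conjugation by a permutation. -/
noncomputable def cv (g : alternatingGroup (Fin N)) : X →* X := (MulAut.conj (D.σA g)).toMonoidHom

theorem cv_apply (g : alternatingGroup (Fin N)) (x : X) : D.cv g x = D.σA g * x * (D.σA g)⁻¹ := rfl

theorem cv_cv (g h : alternatingGroup (Fin N)) (x : X) : D.cv g (D.cv h x) = D.cv (g * h) x := by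
  simp only [cv_apply, map_mul]; group

theorem cv_one (x : X) : D.cv 1 x = x := by simp [cv_apply]

theorem f_cv (g : alternatingGroup (Fin N)) (x : X) : D.f (D.cv g x) = pA g * D.f x * (pA g)⁻¹ := by
  rw [cv_apply, map_mul, map_mul, map_inv, D.fσ]

/-- The elements of the first pair of coordinates. -/
noncomputable def ψ : ↥(SU 2 F q) →* X := D.φ.comp (pair4 0 (by omega))

/-- The elements of the first three coordinates. -/
noncomputable def χ : ↥(SU 3 F q) →* X := D.φ.comp lo3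

/-- The image of the pair of coordinates. -/
noncomputable def P2 : Subgroup X := D.ψ.range

/-- The image of the three coordinates. -/
noncomputable def P3 : Subgroup X := D.χ.range

theorem fψ (x : ↥(SU 2 F q)) : D.f (D.ψ x) = emb (e2 0 (by have := D.hN; omega)) x := by
  rw [ψ, MonoidHom.comp_apply, D.fφ, emb_trans]
  congr 2
  exact Function.Embedding.ext fun i => Fin.ext (by show 0 + (0 + (i : ℕ)) = 0 + i; omega)

theorem fχ (x : ↥(SU 3 F q)) : D.f (D.χ x) = emb (e3 0 (by have := D.hN; omega)) x := by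
  rw [χ, MonoidHom.comp_apply, D.fφ, emb_trans]
  congr 2
  exact Function.Embedding.ext fun i => Fin.ext (by show 0 + (0 + (i : ℕ)) = 0 + i; omega)

theorem injP2 : ∀ x ∈ D.P2, ∀ y ∈ D.P2, D.f x = D.f y → x = y := by
  rintro _ ⟨a, rfl⟩ _ ⟨b, rfl⟩ h
  rw [D.fψ, D.fψ] at h
  rw [emb_injective _ h]

theorem injP3 : ∀ x ∈ D.P3, ∀ y ∈ D.P3, D.f x = D.f y → x = y := by
  rintro _ ⟨a, rfl⟩ _ ⟨b, rfl⟩ h
  rw [D.fχ, D.fχ] at h
  rw [emb_injective _ h]

/-- A subgroup is invariant under the stabiliser of the first `k` points. -/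
def Inv' (k : ℕ) (R : Subgroup X) : Prop :=
  ∀ h : alternatingGroup (Fin N), Stab k h → ∀ x ∈ R, D.cv h x ∈ R

theorem move {k : ℕ} {R : Subgroup X} (hR : D.Inv' k R) {g g' : alternatingGroup (Fin N)}
    (hst : st k g = st k g') {x : X} (hx : x ∈ R) : ∃ x' ∈ R, D.cv g x = D.cv g' x' :=
  ⟨_, hR _ (stab_of_st hst) x hx, by rw [cv_cv, mul_inv_cancel_left]⟩

theorem map_eq {k : ℕ} {R : Subgroup X} (hR : D.Inv' k R) {g g' : alternatingGroup (Fin N)}
    (hst : st k g = st k g') : R.map (D.cv g) = R.map (D.cv g') := by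
  refine le_antisymm ?_ ?_ <;> rintro _ ⟨x, hx, rfl⟩
  · obtain ⟨x', hx', e⟩ := D.move hR hst hx; exact ⟨x', hx', e.symm⟩
  · obtain ⟨x', hx', e⟩ := D.move hR hst.symm hx; exact ⟨x', hx', e.symm⟩

theorem eq_of_f {k : ℕ} {R : Subgroup X} (hR : D.Inv' k R) (hinj : ∀ x ∈ R, ∀ y ∈ R, D.f x = D.f y → x = y)
    {g g' : alternatingGroup (Fin N)} (hst : st k g = st k g') {x y : X} (hx : x ∈ R) (hy : y ∈ R)
    (h : D.f (D.cv g x) = D.f (D.cv g' y)) : D.cv g x = D.cv g' y := by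
  obtain ⟨x', hx', e⟩ := D.move hR hst hx
  rw [e] at h ⊢
  rw [f_cv, f_cv, mul_left_inj, mul_right_inj] at h
  rw [hinj x' hx' y hy h]

theorem st_one_of {k : ℕ} {p : Fin N} : p ∈ st k (1 : alternatingGroup (Fin N)) ↔ (p : ℕ) < k := by
  rw [st_one]; rfl

/-- The embedding of the first four coordinates. -/
def w4 (D : Six X F q N) : Fin 4 ↪ Fin N := e4 0 (by have := D.hN; omega)

theorem w4_val (i : Fin 4) : (D.w4 i : ℕ) = i := by show 0 + (i : ℕ) = i; omega

theorem exists_w4 {p : Fin N} (h : (p : ℕ) < 4) : ∃ i : Fin 4, D.w4 i = p :=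
  ⟨⟨p, h⟩, Fin.ext (D.w4_val _)⟩

theorem st_ext {k : ℕ} (hk : k ≤ 4) (π : alternatingGroup (Fin 4)) (s : Set (Fin N))
    (hs : ∀ i : Fin 4, (D.w4 ((π : Perm (Fin 4)) i) ∈ s ↔ (i : ℕ) < k)) (hs' : ∀ p ∈ s, (p : ℕ) < 4) :
    st k (extA D.w4 π) = s := by
  ext p
  by_cases hp : (p : ℕ) < 4
  · obtain ⟨j, rfl⟩ := D.exists_w4 hp
    obtain ⟨i, rfl⟩ := (π : Perm (Fin 4)).surjective j
    rw [← extA_apply, mem_st_apply, D.w4_val, extA_apply, hs]
  · have hfix : (extA D.w4 π : Perm (Fin N)) p = p :=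
      extA_apply_not _ _ fun ⟨i, hi⟩ => hp (by rw [← hi, D.w4_val]; exact i.2)
    refine ⟨fun h => absurd ?_ hp, fun h => absurd (hs' p h) hp⟩
    rw [← hfix, mem_st_apply] at h
    omega

theorem cv_ext (π : alternatingGroup (Fin 4)) (z : ↥(SU 4 F q)) :
    D.cv (extA D.w4 π) (D.φ z) = D.φ (pA π * z * (pA π)⁻¹) := by
  rw [cv_apply, map_mul, map_mul, map_inv, D.link π]
  rfl

theorem cv_ext_pair (π : alternatingGroup (Fin 4)) (j : ℕ) (hj : j + 2 ≤ 4)
    (h0 : ((π : Perm (Fin 4)) 0 : ℕ) = j) (h1 : ((π : Perm (Fin 4)) 1 : ℕ) = j + 1) (x : ↥(SU 2 F q)) :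
    D.cv (extA D.w4 π) (D.ψ x) = D.φ (pair4 j hj x) := by
  rw [ψ, MonoidHom.comp_apply, cv_ext, pA_emb]
  congr 3
  refine Function.Embedding.ext fun i => Fin.ext ?_
  fin_cases i
  · show ((π : Perm (Fin 4)) 0 : ℕ) = j + 0
    omega
  · show ((π : Perm (Fin 4)) 1 : ℕ) = j + 1
    omega

/-- The double transposition moving the first pair to the second. -/
def d4 : alternatingGroup (Fin 4) := ⟨swap 0 2 * swap 1 3, Perm.mem_alternatingGroup.2 (by decide)⟩

/-- The cycle of the first three coordinates. -/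
def c4 : alternatingGroup (Fin 4) := ⟨swap 0 1 * swap 1 2, Perm.mem_alternatingGroup.2 (by decide)⟩

/-- The cycle of three coordinates. -/
def c3 : alternatingGroup (Fin 3) := ⟨swap 0 1 * swap 1 2, Perm.mem_alternatingGroup.2 (by decide)⟩

/-- A double transposition moving the first triple to the last. -/
def p4 : alternatingGroup (Fin 4) := ⟨swap 0 3 * swap 1 2, Perm.mem_alternatingGroup.2 (by decide)⟩

theorem ext_e3 (π : alternatingGroup (Fin 3)) :
    pA (F := F) (q := q) (extA tri0 π) = lo3 (pA π) := (emb_pA _ π).symm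

theorem cv_three (π : alternatingGroup (Fin 3)) (z : ↥(SU 3 F q)) :
    D.cv (extA D.w4 (extA tri0 π)) (D.χ z) = D.χ (pA π * z * (pA π)⁻¹) := by
  rw [χ, MonoidHom.comp_apply, cv_ext, ext_e3, ← map_inv, ← map_mul, ← map_mul]
  rfl

theorem three_cases {g : alternatingGroup (Fin N)} (h : ∀ p ∈ st 2 g, (p : ℕ) < 3) :
    ∃ π : alternatingGroup (Fin 3),
      st 2 g = st 2 (extA D.w4 (extA tri0 π)) := by
  have hN := D.hN
  let a0 : Fin N := ⟨0, by omega⟩
  let a1 : Fin N := ⟨1, by omega⟩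
  have m0 := h _ (mem_st_apply.2 (show (a0 : ℕ) < 2 by simp [a0]))
  have m1 := h _ (mem_st_apply.2 (show (a1 : ℕ) < 2 by simp [a1]))
  have hne : (g : Perm (Fin N)) a0 ≠ (g : Perm (Fin N)) a1 :=
    (g : Perm (Fin N)).injective.ne (by simp [a0, a1, Fin.ext_iff])
  have key : ∀ (u v : Fin 3), u ≠ v → ∃ π : alternatingGroup (Fin 3),
      (((π : Perm (Fin 3)) 0 = u ∧ (π : Perm (Fin 3)) 1 = v) ∨ ((π : Perm (Fin 3)) 0 = v ∧ (π : Perm (Fin 3)) 1 = u)) := by
    decide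
  obtain ⟨π, hπ⟩ := key ⟨_, m0⟩ ⟨_, m1⟩ (fun e => hne (Fin.ext (Fin.mk.inj_iff.1 e)))
  refine ⟨π, st_eq_of fun p hp => ?_⟩
  have hval : ∀ i : Fin 3, (extA D.w4 (extA tri0 π) : Perm (Fin N))
      (D.w4 (tri0 i)) = D.w4 (tri0 ((π : Perm (Fin 3)) i)) := fun i => by
    rw [extA_apply, extA_apply]
  have hv : ∀ i : Fin 3, (D.w4 (tri0 i) : ℕ) = i := fun i => by
    rw [D.w4_val]; show 0 + (i : ℕ) = i; omega
  have hp' : p = a0 ∨ p = a1 := by
    simp only [a0, a1, Fin.ext_iff]; omega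
  have hmem : ∀ i : Fin 3, (i : ℕ) < 2 → D.w4 (tri0 ((π : Perm (Fin 3)) i)) ∈
      st 2 (extA D.w4 (extA tri0 π)) := fun i hi => by
    rw [← hval, mem_st_apply, hv]; exact hi
  have e : ∀ (x : Fin N) (hx : (x : ℕ) < 3) (i : Fin 3), (π : Perm (Fin 3)) i = ⟨x, hx⟩ →
      x = D.w4 (tri0 ((π : Perm (Fin 3)) i)) := fun x hx i hi =>
    Fin.ext (by rw [hv, hi])
  rcases hπ with ⟨h0, h1⟩ | ⟨h0, h1⟩ <;> rcases hp' with rfl | rfl
  · rw [e _ m0 0 h0]; exact hmem 0 (by simp)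
  · rw [e _ m1 1 h1]; exact hmem 1 (by simp)
  · rw [e _ m0 1 h1]; exact hmem 1 (by simp)
  · rw [e _ m1 0 h0]; exact hmem 0 (by simp)

variable (C2 : D.Inv' 2 D.P2)

include C2

/-- Pairs inside the triple. -/
theorem pair_in_three {g : alternatingGroup (Fin N)} (h : ∀ p ∈ st 2 g, (p : ℕ) < 3) {x : X} (hx : x ∈ D.P2) :
    D.cv g x ∈ D.P3 := by
  obtain ⟨π, hπ⟩ := D.three_cases h
  obtain ⟨_, ⟨y, rfl⟩, e⟩ := D.move C2 hπ hx
  have hy : D.ψ y = D.χ (lo y) := by
    rw [ψ, χ, MonoidHom.comp_apply, MonoidHom.comp_apply, lo3_lo]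
  rw [e, hy, cv_three]
  exact ⟨_, rfl⟩

/-- The disjoint pairs commute. -/
theorem comm22 {g g' : alternatingGroup (Fin N)} (hd : Disjoint (st 2 g) (st 2 g')) {x y : X} (hx : x ∈ D.P2)
    (hy : y ∈ D.P2) : Commute (D.cv g x) (D.cv g' y) := by
  have hN := D.hN
  let a0 : Fin N := ⟨0, by omega⟩
  let a1 : Fin N := ⟨1, by omega⟩
  let F4 : Fin (2 + 2) → Fin N := ![(g : Perm (Fin N)) a0, (g : Perm (Fin N)) a1, (g' : Perm (Fin N)) a0,
    (g' : Perm (Fin N)) a1]
  have m : ∀ (u : alternatingGroup (Fin N)) (a : Fin N), a = a0 ∨ a = a1 → (u : Perm (Fin N)) a ∈ st 2 u :=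
    fun u a ha => mem_st_apply.2 (by rcases ha with rfl | rfl <;> simp [a0, a1])
  have hne : ∀ u : alternatingGroup (Fin N), (u : Perm (Fin N)) a0 ≠ (u : Perm (Fin N)) a1 :=
    fun u => (u : Perm (Fin N)).injective.ne (by simp [a0, a1, Fin.ext_iff])
  have hx' : ∀ a b, (a = a0 ∨ a = a1) → (b = a0 ∨ b = a1) → (g : Perm (Fin N)) a ≠ (g' : Perm (Fin N)) b :=
    fun a b ha hb e => Set.disjoint_left.1 hd (m g a ha) (e ▸ m g' b hb)
  have hinj : Function.Injective F4 := by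
    intro i j hij
    fin_cases i <;> fin_cases j <;> simp [F4] at hij ⊢ <;>
      first
        | (simp [a0, a1, Fin.ext_iff] at hij; done)
        | exact absurd hij (hne _)
        | exact absurd hij.symm (hne _)
        | exact absurd hij (hx' _ _ (by first | exact Or.inl rfl | exact Or.inr rfl) (by first | exact Or.inl rfl | exact Or.inr rfl))
        | exact absurd hij.symm (hx' _ _ (by first | exact Or.inl rfl | exact Or.inr rfl) (by first | exact Or.inl rfl | exact Or.inr rfl))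
  obtain ⟨h, τ, hτ, hh⟩ := exists_alt_swap ⟨F4, hinj⟩ (show 2 + 2 ≤ N by omega)
  have hval : ∀ i : Fin 4, (h : Perm (Fin N)) (D.w4 i) = F4 (τ i) := fun i => hh i _ (D.w4_val i)
  have hd0 : ∀ i : Fin 4, (i : ℕ) < 2 → ((τ i : Fin 4) : ℕ) < 2 := by rcases hτ with rfl | rfl <;> decide
  have hd1 : ∀ i : Fin 4, 2 ≤ (i : ℕ) → τ i = i := by rcases hτ with rfl | rfl <;> decide
  have hs1 : st 2 h = st 2 g := st_eq_of fun p hp => by
    obtain ⟨i, rfl⟩ := D.exists_w4 (p := p) (by omega)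
    rw [D.w4_val] at hp
    rw [hval]
    have := hd0 i hp
    generalize τ i = j at this
    fin_cases j <;> simp at this <;> exact m g _ (by first | exact Or.inl rfl | exact Or.inr rfl)
  have hs2 : st 2 (h * extA D.w4 d4) = st 2 g' := st_eq_of fun p hp => by
    obtain ⟨i, rfl⟩ := D.exists_w4 (p := p) (by omega)
    rw [D.w4_val] at hp
    rw [Subgroup.coe_mul, Perm.mul_apply, extA_apply, hval,
      hd1 _ (by revert hp; revert i; decide)]
    fin_cases i <;> simp at hp <;> exact m g' _ (by first | exact Or.inl rfl | exact Or.inr rfl)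
  obtain ⟨_, ⟨a, rfl⟩, e⟩ := D.move C2 hs1.symm hx
  obtain ⟨_, ⟨b, rfl⟩, e'⟩ := D.move C2 hs2.symm hy
  rw [e, e', ← cv_cv, D.cv_ext_pair d4 2 (by omega) (by decide) (by decide), ψ, MonoidHom.comp_apply]
  refine Commute.map (Commute.map ?_ D.φ) (D.cv h)
  refine GI_commute D.hF (emb_mem _ a) (emb_mem _ b) ?_
  rw [range_e2, range_e2, Set.disjoint_left]
  intro k hk hk'
  have := hk.2; have := hk'.1
  omega

omit C2

/-- The triples inside are generated by the pairs. -/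
theorem P3_le {R : Subgroup X} (hgen : (lo (F := F) (q := q)).range ⊔ hi.range = ⊤)
    (h : ∀ g : alternatingGroup (Fin N), (∀ p ∈ st 2 g, (p : ℕ) < 3) → ∀ x ∈ D.P2, D.cv g x ∈ R) :
    D.P3 ≤ R := by
  have hN := D.hN
  rintro _ ⟨z, rfl⟩
  have hz : z ∈ (lo (F := F) (q := q)).range ⊔ hi.range := by rw [hgen]; trivial
  have hle : (lo (F := F) (q := q)).range ⊔ hi.range ≤ R.comap D.χ := by
    refine sup_le ?_ ?_
    · rintro _ ⟨y, rfl⟩
      show D.χ (lo y) ∈ R
      have e : D.χ (lo y) = D.cv 1 (D.ψ y) := by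
        rw [cv_one, ψ, χ, MonoidHom.comp_apply, MonoidHom.comp_apply, lo3_lo]
      rw [e]
      exact h 1 (fun p hp => by have := st_one_of.1 hp; omega) _ ⟨y, rfl⟩
    · rintro _ ⟨y, rfl⟩
      show D.χ (hi y) ∈ R
      have e : D.χ (hi y) = D.cv (extA D.w4 c4) (D.ψ y) := by
        rw [D.cv_ext_pair c4 1 (by omega) (by decide) (by decide), χ, MonoidHom.comp_apply, lo3_hi]
      rw [e]
      refine h _ (fun p hp => ?_) _ ⟨y, rfl⟩
      obtain ⟨a, ha, rfl⟩ := mem_st.1 hp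
      obtain ⟨i, rfl⟩ := D.exists_w4 (p := a) (by omega)
      rw [D.w4_val] at ha
      rw [extA_apply, D.w4_val]
      have key : ∀ i : Fin 4, (i : ℕ) < 2 → (((c4 : Perm (Fin 4)) i : Fin 4) : ℕ) < 3 := by decide
      exact key i ha
  exact hle hz

/-- Consequences of generation by pairs. -/
theorem good_of_gen (C2 : D.Inv' 2 D.P2) (hgen : (lo (F := F) (q := q)).range ⊔ hi.range = ⊤) :
    D.Inv' 3 D.P3 ∧
    (∀ g, Disjoint (st 2 g) (st 3 1) → ∀ x ∈ D.P2, ∀ y ∈ D.P3, Commute (D.cv g x) y) ∧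
    ∀ g, Disjoint (st 3 g) (st 3 1) → ∀ x ∈ D.P3, ∀ y ∈ D.P3, Commute (D.cv g x) y := by
  have hAV : ∀ g, Disjoint (st 2 g) (st 3 1) → ∀ x ∈ D.P2, ∀ y ∈ D.P3, Commute (D.cv g x) y := by
    intro g hd x hx y hy
    refine (Subgroup.mem_centralizer_singleton_iff.1
      (D.P3_le (R := Subgroup.centralizer {D.cv g x}) hgen (fun g' hg' x' hx' => ?_) hy)).symm
    refine Subgroup.mem_centralizer_singleton_iff.2 (D.comm22 C2 ?_ hx hx').eq.symm
    exact hd.mono_right fun p hp => st_one_of.2 (hg' p hp)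
  refine ⟨fun h hh y hy => ?_, hAV, fun g hd x hx y hy => ?_⟩
  · refine (D.P3_le (R := D.P3.comap (D.cv h)) hgen (fun g hg x hx => ?_)) hy
    show D.cv h (D.cv g x) ∈ D.P3
    rw [cv_cv]
    refine D.pair_in_three C2 (fun p hp => ?_) hx
    rw [st_mul] at hp
    obtain ⟨r, hr, rfl⟩ := hp
    exact (hh r).2 (hg r hr)
  · refine Subgroup.mem_centralizer_singleton_iff.1
      (D.P3_le (R := (Subgroup.centralizer {y}).comap (D.cv g)) hgen (fun g' hg' x' hx' => ?_) hx)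
    show D.cv g (D.cv g' x') ∈ Subgroup.centralizer {y}
    rw [cv_cv, Subgroup.mem_centralizer_singleton_iff]
    refine hAV _ (Set.disjoint_left.2 fun p hp hp' => ?_) x' hx' y hy
    rw [st_mul] at hp
    obtain ⟨r, hr, rfl⟩ := hp
    exact Set.disjoint_left.1 hd (mem_st_apply.2 (hg' r hr)) hp'

include D in
theorem exists_shift {a : ℕ} (ha : a + 4 ≤ N) :
    ∃ t : alternatingGroup (Fin N), ∀ (i : Fin 4) (p : Fin N), (p : ℕ) = i →
      (t : Perm (Fin N)) p = e4 a ha i := by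
  have hN := D.hN
  rcases lt_or_ge 5 N with h | h
  · exact exists_alt (e4 a ha) (by omega)
  · obtain rfl : N = 5 := by omega
    obtain rfl | rfl : a = 0 ∨ a = 1 := by omega
    · exact ⟨1, fun i p hp => Fin.ext (by simp [hp, e4])⟩
    · refine ⟨⟨finRotate 5, Perm.mem_alternatingGroup.2 (by decide)⟩, fun i p hp => Fin.ext ?_⟩
      show ((finRotate 5 p : Fin 5) : ℕ) = 1 + i
      rw [coe_finRotate_of_ne_last]
      · omega
      · rw [ne_eq, Fin.ext_iff, Fin.val_last]; omega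

theorem GI_le_range {n : ℕ} {R : Subgroup ↥(SU n F q)} (hF : Fintype.card F = q ^ 2)
    (h2 : ∀ a, a + 2 ≤ n → GI (Iv a (a + 2)) ≤ R) (h3 : ∀ a, a + 3 ≤ n → GI (Iv a (a + 3)) ≤ R) :
    ∀ d a, a + (d + 3) ≤ n → GI (Iv a (a + (d + 3))) ≤ R := by
  intro d
  induction d with
  | zero => intro a ha; exact h3 a ha
  | succ d ih =>
    intro a ha
    rw [GI_split hF (by omega) ha]
    refine sup_le (h2 a (by omega)) ?_
    rw [show a + (d + 1 + 3) = a + 1 + (d + 3) by omega]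
    exact ih (a + 1) (by omega)

/-- The recognition. -/
theorem bijective (C2 : D.Inv' 2 D.P2) (E3 : D.Inv' 3 D.P3)
    (AV : ∀ g, Disjoint (st 2 g) (st 3 1) → ∀ x ∈ D.P2, ∀ y ∈ D.P3, Commute (D.cv g x) y)
    (VV : ∀ g, Disjoint (st 3 g) (st 3 1) → ∀ x ∈ D.P3, ∀ y ∈ D.P3, Commute (D.cv g x) y) :
    Function.Bijective D.f := by
  classical
  obtain ⟨n, rfl⟩ : ∃ n, N = n + 1 := ⟨N - 1, by have := D.hN; omega⟩
  have hN := D.hN
  -- representatives
  have hp2 : ∀ a, ∃ g : alternatingGroup (Fin (n + 1)), ∀ h : a + 2 ≤ n + 1,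
      ∀ (i : Fin 2) (p : Fin (n + 1)), (p : ℕ) = i → (g : Perm (Fin (n + 1))) p = e2 a h i := fun a => by
    by_cases h : a + 2 ≤ n + 1
    · obtain ⟨g, hg⟩ := exists_alt (e2 a h) (by omega); exact ⟨g, fun _ => hg⟩
    · exact ⟨1, fun h' => absurd h' h⟩
  have hp3 : ∀ a, ∃ g : alternatingGroup (Fin (n + 1)), ∀ h : a + 3 ≤ n + 1,
      ∀ (i : Fin 3) (p : Fin (n + 1)), (p : ℕ) = i → (g : Perm (Fin (n + 1))) p = e3 a h i := fun a => by
    by_cases h : a + 3 ≤ n + 1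
    · obtain ⟨g, hg⟩ := exists_alt (e3 a h) (by omega); exact ⟨g, fun _ => hg⟩
    · exact ⟨1, fun h' => absurd h' h⟩
  have hp4 : ∀ a, ∃ g : alternatingGroup (Fin (n + 1)), ∀ h : a + 4 ≤ n + 1,
      ∀ (i : Fin 4) (p : Fin (n + 1)), (p : ℕ) = i → (g : Perm (Fin (n + 1))) p = e4 a h i := fun a => by
    by_cases h : a + 4 ≤ n + 1
    · obtain ⟨g, hg⟩ := D.exists_shift h; exact ⟨g, fun _ => hg⟩
    · exact ⟨1, fun h' => absurd h' h⟩
  choose p2 hp2 using hp2
  choose p3 hp3 using hp3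
  choose t ht using hp4
  have stv : ∀ (k a : ℕ) (g : alternatingGroup (Fin (n + 1))),
      (∀ p : Fin (n + 1), (p : ℕ) < k → ((g : Perm (Fin (n + 1))) p : ℕ) = a + p) →
      a + k ≤ n + 1 → st k g = Iv a (a + k) := by
    intro k a g hg hak
    ext x
    constructor
    · intro hx
      obtain ⟨p, hp, rfl⟩ := mem_st.1 hx
      rw [mem_Iv, hg p hp]; omega
    · intro hx
      rw [mem_Iv] at hx
      refine mem_st.2 ⟨⟨(x : ℕ) - a, by omega⟩, by show (x : ℕ) - a < k; omega, Fin.ext ?_⟩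
      rw [hg _ (by show (x : ℕ) - a < k; omega)]
      show a + ((x : ℕ) - a) = x
      omega
  have s2 : ∀ a, a + 2 ≤ n + 1 → st 2 (p2 a) = Iv a (a + 2) := fun a ha =>
    stv 2 a _ (fun p hp => by rw [hp2 a ha ⟨p, hp⟩ p rfl]; rfl) ha
  have s3 : ∀ a, a + 3 ≤ n + 1 → st 3 (p3 a) = Iv a (a + 3) := fun a ha =>
    stv 3 a _ (fun p hp => by rw [hp3 a ha ⟨p, hp⟩ p rfl]; rfl) ha
  let U : ℕ → Subgroup X := fun a => D.P2.map (D.cv (p2 a))
  let V : ℕ → Subgroup X := fun a => D.P3.map (D.cv (p3 a))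
  let f4 : ℕ → (↥(SU 4 F q) →* X) := fun a => (D.cv (t a)).comp D.φ
  have ff4 : ∀ a, (h : a + 4 ≤ n + 1) → ∀ z, D.f (f4 a z) = emb (e4 a h) z := fun a h z => by
    show D.f (D.cv (t a) (D.φ z)) = _
    rw [f_cv, D.fφ, pA_emb]
    congr 2
    refine Function.Embedding.ext fun i => ?_
    rw [pEmb_apply, ht a h i _ (by show 0 + (i : ℕ) = i; omega)]
  have tw : ∀ a, (h : a + 4 ≤ n + 1) → ∀ i : Fin 4, ((t a : Perm (Fin (n + 1))) (D.w4 i) : ℕ) = a + i :=
    fun a h i => by rw [ht a h i _ (D.w4_val i)]; rfl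
  have stt : ∀ a, (h : a + 4 ≤ n + 1) → ∀ (k j : ℕ) (π : alternatingGroup (Fin 4)), k ≤ 4 → j + k ≤ 4 →
      (∀ i : Fin 4, (j ≤ ((π : Perm (Fin 4)) i : ℕ) ∧ ((π : Perm (Fin 4)) i : ℕ) < j + k) ↔ (i : ℕ) < k) →
      st k (t a * extA D.w4 π) = Iv (a + j) (a + j + k) := by
    intro a h k j π hk hjk hπ
    rw [st_mul, D.st_ext hk π (Iv j (j + k)) (fun i => by rw [mem_Iv, D.w4_val]; exact hπ i)
      (fun p hp => by rw [mem_Iv] at hp; omega)]
    ext x
    constructor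
    · rintro ⟨p, hp, rfl⟩
      rw [mem_Iv] at hp ⊢
      obtain ⟨i, rfl⟩ := D.exists_w4 (p := p) (by omega)
      rw [tw a h]; rw [D.w4_val] at hp; omega
    · intro hx
      rw [mem_Iv] at hx
      refine ⟨D.w4 ⟨(x : ℕ) - a, by omega⟩, ?_, Fin.ext ?_⟩
      · rw [mem_Iv, D.w4_val]; show j ≤ (x : ℕ) - a ∧ (x : ℕ) - a < j + k; omega
      · rw [tw a h]; show a + ((x : ℕ) - a) = x; omega
  have pairπ : ∀ j, j + 2 ≤ 4 → ∃ π : alternatingGroup (Fin 4), ((π : Perm (Fin 4)) 0 : ℕ) = j ∧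
      ((π : Perm (Fin 4)) 1 : ℕ) = j + 1 ∧
      ∀ i : Fin 4, (j ≤ ((π : Perm (Fin 4)) i : ℕ) ∧ ((π : Perm (Fin 4)) i : ℕ) < j + 2) ↔ (i : ℕ) < 2 := by
    intro j hj
    obtain rfl | rfl | rfl : j = 0 ∨ j = 1 ∨ j = 2 := by omega
    · exact ⟨1, by decide, by decide, by decide⟩
    · exact ⟨c4, by decide, by decide, by decide⟩
    · exact ⟨d4, by decide, by decide, by decide⟩
  have hU : ∀ a j, (h : j + 2 ≤ 4) → a + 3 ≤ n → ((f4 a).comp (pair4 j h)).range = U (a + j) := by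
    intro a j hj ha
    obtain ⟨π, h0, h1, hπ⟩ := pairπ j hj
    have he : (f4 a).comp (pair4 j hj) = (D.cv (t a * extA D.w4 π)).comp D.ψ := MonoidHom.ext fun x => by
      show D.cv (t a) (D.φ (pair4 j hj x)) = D.cv _ (D.ψ x)
      rw [← cv_cv, D.cv_ext_pair π j hj h0 h1]
    rw [he, MonoidHom.range_comp]
    exact D.map_eq C2 ((stt a (by omega) 2 j π (by omega) hj hπ).trans (s2 _ (by omega)).symm)
  have hhi : ∀ z : ↥(SU 3 F q), ∃ z', D.φ (hi3 z) = D.cv (extA D.w4 p4) (D.χ z') := by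
    intro z
    have hmem : (pA p4)⁻¹ * hi3 z * pA p4 ∈ GI (Set.range tri0) := by
      have := pA_emb (F := F) (q := q) p4⁻¹ tri1 z
      rw [map_inv, inv_inv] at this
      rw [this]
      have hr : Set.range (pEmb p4⁻¹ tri1) = Set.range tri0 := by
        ext i
        simp only [Set.mem_range]
        revert i; decide
      rw [← hr]
      exact emb_mem _ _
    obtain ⟨z', hz'⟩ := exists_emb _ D.hF hmem
    refine ⟨z', ?_⟩
    rw [χ, MonoidHom.comp_apply, cv_ext]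
    show D.φ (hi3 z) = D.φ (pA p4 * emb _ z' * (pA p4)⁻¹)
    rw [hz']; group
  have hlo3 : ∀ a, a + 4 ≤ n + 1 → ∀ z, f4 a (lo3 z) = D.cv (t a) (D.χ z) := fun a _ z => rfl
  have hV0 : ∀ a, a + 3 ≤ n → ((f4 a).comp lo3).range = V a := by
    intro a ha
    rw [show (f4 a).comp lo3 = (D.cv (t a)).comp D.χ from rfl, MonoidHom.range_comp]
    refine D.map_eq E3 (Eq.trans ?_ (s3 a (by omega)).symm)
    have := stt a (by omega) 3 0 1 (by omega) (by omega) (by decide)
    simpa using this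
  have st_p4 : ∀ a, a + 4 ≤ n + 1 → st 3 (t a * extA D.w4 p4) = Iv (a + 1) (a + 1 + 3) := fun a h =>
    stt a h 3 1 p4 (by omega) (by omega) (by decide)
  have hV1 : ∀ a, a + 3 ≤ n → ((f4 a).comp hi3).range = V (a + 1) := by
    intro a ha
    show _ = D.P3.map _
    rw [← D.map_eq E3 ((st_p4 a (by omega)).trans (s3 (a + 1) (by omega)).symm)]
    refine le_antisymm ?_ ?_
    · rintro _ ⟨z, rfl⟩
      obtain ⟨z', e⟩ := hhi z
      exact ⟨_, ⟨z', rfl⟩, by rw [← cv_cv, ← e]; rfl⟩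
    · rintro _ ⟨_, ⟨z, rfl⟩, rfl⟩
      have hmem : pA p4 * lo3 z * (pA p4)⁻¹ ∈ GI (Set.range tri1) := by
        rw [pA_emb]
        have hr : Set.range (pEmb p4 tri0) = Set.range tri1 := by
          ext i
          simp only [Set.mem_range]
          revert i; decide
        rw [← hr]
        exact emb_mem _ _
      obtain ⟨w, hw⟩ := exists_emb _ D.hF hmem
      refine ⟨w, ?_⟩
      show D.cv (t a) (D.φ (emb _ w)) = D.cv (t a * extA D.w4 p4) (D.χ z)
      rw [hw, ← cv_cv, χ, MonoidHom.comp_apply, cv_ext]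
  have hcomp : ∀ a, a + 4 ≤ n → (f4 (a + 1)).comp lo3 = (f4 a).comp hi3 := by
    intro a ha
    refine MonoidHom.ext fun z => ?_
    obtain ⟨z', e⟩ := hhi z
    have e' : f4 a (hi3 z) = D.cv (t a * extA D.w4 p4) (D.χ z') := by rw [← cv_cv, ← e]; rfl
    have hf : D.f (f4 (a + 1) (lo3 z)) = D.f (f4 a (hi3 z)) := by
      rw [ff4 (a + 1) (by omega), ff4 a (by omega), emb_trans, emb_trans]
      congr 2
      exact Function.Embedding.ext fun i => Fin.ext (by show a + 1 + (0 + (i : ℕ)) = a + (1 + i); omega)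
    show f4 (a + 1) (lo3 z) = f4 a (hi3 z)
    rw [e'] at hf ⊢
    refine D.eq_of_f E3 D.injP3 ?_ ⟨z, rfl⟩ ⟨z', rfl⟩ hf
    have := stt (a + 1) (by omega) 3 0 1 (by omega) (by omega) (by decide)
    rw [st_p4 a (by omega)]
    simpa using this
  -- commutation
  have AV' : ∀ g g', Disjoint (st 2 g) (st 3 g') → ∀ x ∈ D.P2, ∀ y ∈ D.P3, Commute (D.cv g x) (D.cv g' y) := by
    intro g g' hd x hx y hy
    have h1 := (AV (g'⁻¹ * g) (Set.disjoint_left.2 fun p hp hp' => ?_) x hx y hy).map (D.cv g')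
    · rwa [cv_cv, mul_inv_cancel_left] at h1
    · rw [st_mul] at hp
      obtain ⟨r, hr, rfl⟩ := hp
      refine Set.disjoint_left.1 hd hr ?_
      rw [← mul_one g', st_mul]
      exact ⟨_, hp', by simp⟩
  have VV' : ∀ g g', Disjoint (st 3 g) (st 3 g') → ∀ x ∈ D.P3, ∀ y ∈ D.P3, Commute (D.cv g x) (D.cv g' y) := by
    intro g g' hd x hx y hy
    have h1 := (VV (g'⁻¹ * g) (Set.disjoint_left.2 fun p hp hp' => ?_) x hx y hy).map (D.cv g')
    · rwa [cv_cv, mul_inv_cancel_left] at h1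
    · rw [st_mul] at hp
      obtain ⟨r, hr, rfl⟩ := hp
      refine Set.disjoint_left.1 hd hr ?_
      rw [← mul_one g', st_mul]
      exact ⟨_, hp', by simp⟩
  have dis : ∀ {a b c d : ℕ}, b ≤ c → Disjoint (Iv a b : Set (Fin (n + 1))) (Iv c d) := fun hbc =>
    Set.disjoint_left.2 fun k hk hk' => by have := hk.2; have := hk'.1; omega
  obtain ⟨Φ, hΦU, hΦV⟩ := exists_hom4 D.hF (show 3 ≤ n by omega) f4 U V hU hV0 hV1 hcomp
    (fun a b h1 h2 => by
      rintro _ ⟨x, hx, rfl⟩ _ ⟨y, hy, rfl⟩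
      exact (D.comm22 C2 (by rw [s2 a (by omega), s2 b (by omega)]; exact dis h1) hx hy).eq)
    (fun a b h1 h2 => by
      rintro _ ⟨x, hx, rfl⟩ _ ⟨y, hy, rfl⟩
      exact (AV' _ _ (by rw [s2 a (by omega), s3 b (by omega)]; exact dis h1) x hx y hy).eq)
    (fun a b h1 h2 => by
      rintro _ ⟨x, hx, rfl⟩ _ ⟨y, hy, rfl⟩
      exact (AV' _ _ (by rw [s3 a (by omega), s2 b (by omega)]; exact (dis h1).symm) y hy x hx).eq.symm)
    (fun a b h1 h2 => by
      rintro _ ⟨x, hx, rfl⟩ _ ⟨y, hy, rfl⟩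
      exact (VV' _ _ (by rw [s3 a (by omega), s3 b (by omega)]; exact dis h1) x hx y hy).eq)
  -- surjectivity
  have hφ : D.φ.range ≤ Φ.range := by
    have htop : (⊤ : Subgroup ↥(SU 4 F q)) = GI (Iv 0 (0 + 2)) ⊔ GI (Iv (0 + 1) 4) := by
      rw [← GI_split D.hF (le_refl (0 + 4)) le_rfl, show (Iv 0 (0 + 4) : Set (Fin 4)) = Set.univ from
        Set.eq_univ_of_forall fun k => ⟨Nat.zero_le _, k.2⟩, GI_univ]
    have h2 : (GI (Iv 0 (0 + 2)) : Subgroup ↥(SU 4 F q)) ≤ Φ.range.comap D.φ := by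
      intro z hz
      have : z ∈ GI (Set.range (e2 (N := 4) 0 (by omega))) := by rw [range_e2]; exact hz
      obtain ⟨x, rfl⟩ := exists_emb _ D.hF this
      refine hΦU 0 (by omega) ?_
      have hst : st 2 (1 : alternatingGroup (Fin (n + 1))) = st 2 (p2 0) := by
        rw [s2 0 (by omega), st_one]; ext p; simp [mem_Iv]
      obtain ⟨x', hx', e⟩ := D.move C2 hst (x := D.ψ x) ⟨x, rfl⟩
      exact ⟨x', hx', by rw [← e, cv_one]; rfl⟩
    have h3 : (GI (Iv (0 + 1) 4) : Subgroup ↥(SU 4 F q)) ≤ Φ.range.comap D.φ := by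
      intro z hz
      have : z ∈ GI (Set.range tri1) := by rw [range_e3]; exact hz
      obtain ⟨x, rfl⟩ := exists_emb _ D.hF this
      obtain ⟨z', e⟩ := hhi x
      refine hΦV 1 (by omega) ?_
      have hst : st 3 (extA D.w4 p4) = st 3 (p3 1) := by
        rw [s3 1 (by omega)]
        refine D.st_ext (by omega) p4 _ (fun i => ?_) (fun p hp => by rw [mem_Iv] at hp; omega)
        rw [mem_Iv, D.w4_val]; revert i; decide
      obtain ⟨x', hx', e'⟩ := D.move E3 hst (x := D.χ z') ⟨z', rfl⟩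
      refine ⟨x', hx', ?_⟩
      show D.cv (p3 1) x' = D.φ (hi3 x)
      rw [← e', ← e]
    rintro _ ⟨z, rfl⟩
    exact (htop ▸ sup_le h2 h3 : (⊤ : Subgroup ↥(SU 4 F q)) ≤ Φ.range.comap D.φ) (Subgroup.mem_top z)
  obtain ⟨d, rfl⟩ : ∃ d, n = d + 1 := ⟨n - 1, by omega⟩
  have hσ : D.σA.range ≤ Φ.range := by
    rintro _ ⟨g, rfl⟩
    have hg : (g : Perm (Fin (d + 1 + 1))) ∈ (Φ.range.comap D.σA).map (alternatingGroup (Fin (d + 1 + 1))).subtype := by
      refine alt_adjacent _ (fun a => ?_) (Perm.mem_alternatingGroup.1 g.2)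
      let g3 := p3 (a : ℕ)
      refine ⟨g3 * extA D.w4 c4 * g3⁻¹, ?_, ?_⟩
      · show D.σA (g3 * extA D.w4 c4 * g3⁻¹) ∈ Φ.range
        refine hΦV a (by omega) ⟨D.σA (extA D.w4 c4), ?_, by rw [cv_apply, map_mul, map_mul, map_inv]⟩
        refine ⟨pA c3, ?_⟩
        rw [χ, MonoidHom.comp_apply, show lo3 (pA (F := F) (q := q) c3) = pA (extA tri0 c3)
          from emb_pA _ _, D.link]
        congr 1
        refine congrArg _ (Subtype.ext (Equiv.ext fun i => ?_))
        by_cases hi : i ∈ Set.range tri0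
        · obtain ⟨j, rfl⟩ := hi
          rw [extA_apply]; revert j; decide
        · rw [extA_apply_not _ _ hi]
          revert hi
          simp only [Set.mem_range]
          revert i; decide
      · show (g3 : Perm (Fin (d + 1 + 1))) * (extA D.w4 c4 : Perm (Fin (d + 1 + 1))) * (g3 : Perm (Fin (d + 1 + 1)))⁻¹ = _
        have hval : ∀ i : Fin 3, (g3 : Perm (Fin (d + 1 + 1))) (D.w4 (Fin.castLE (by omega) i)) = e3 (a : ℕ) (by omega) i :=
          fun i => hp3 _ (by omega) i _ (by rw [D.w4_val]; rfl)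
        have hc : (extA D.w4 c4 : Perm (Fin (d + 1 + 1))) = swap (D.w4 0) (D.w4 1) * swap (D.w4 1) (D.w4 2) := by
          refine Equiv.ext fun p => ?_
          by_cases hp : p ∈ Set.range D.w4
          · obtain ⟨i, rfl⟩ := hp
            rw [extA_apply, Perm.mul_apply, ← Function.Injective.map_swap D.w4.injective,
              ← Function.Injective.map_swap D.w4.injective]
            rfl
          · rw [extA_apply_not _ _ hp, Perm.mul_apply, swap_apply_of_ne_of_ne, swap_apply_of_ne_of_ne] <;>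
              first
                | exact fun e => hp ⟨_, e.symm⟩
                | (rw [swap_apply_of_ne_of_ne] <;> exact fun e => hp ⟨_, e.symm⟩)
        have hconj : ∀ u v : Fin (d + 1 + 1), (g3 : Perm (Fin (d + 1 + 1))) * swap u v * (g3 : Perm (Fin (d + 1 + 1)))⁻¹ =
            swap ((g3 : Perm (Fin (d + 1 + 1))) u) ((g3 : Perm (Fin (d + 1 + 1))) v) := fun u v => by
          rw [Equiv.swap_apply_apply]
        rw [hc, show ∀ G x y : Perm (Fin (d + 1 + 1)), G * (x * y) * G⁻¹ = (G * x * G⁻¹) * (G * y * G⁻¹) from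
          fun G x y => by group, hconj, hconj]
        have v0 := hval 0
        have v1 := hval 1
        have v2 := hval 2
        simp only [show Fin.castLE (show 3 ≤ 4 by omega) 0 = 0 from rfl,
          show Fin.castLE (show 3 ≤ 4 by omega) 1 = 1 from rfl, show Fin.castLE (show 3 ≤ 4 by omega) 2 = 2 from rfl] at v0 v1 v2
        rw [v0, v1, v2]
        congr 2 <;> exact Fin.ext (by simp [e3])
    obtain ⟨g', hg', e⟩ := hg
    rwa [show g' = g from Subtype.ext e] at hg'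
  have hΦ : Function.Surjective Φ := by
    rw [← MonoidHom.range_eq_top, eq_top_iff, ← D.gen, Subgroup.closure_le]
    rintro x (hx | hx)
    · exact hσ hx
    · exact hφ hx
  have hf : Function.Surjective D.f := by
    rw [← MonoidHom.range_eq_top, eq_top_iff]
    have h2 : ∀ a, a + 2 ≤ d + 1 + 1 → GI (Iv a (a + 2)) ≤ D.f.range := by
      intro a ha g hg
      have : g ∈ GI (Set.range (e2 a ha)) := by rw [range_e2]; exact hg
      obtain ⟨x, rfl⟩ := exists_emb _ D.hF this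
      refine ⟨D.cv (p2 a) (D.ψ x), ?_⟩
      rw [f_cv, D.fψ, pA_emb]
      congr 2
      exact Function.Embedding.ext fun i => by rw [pEmb_apply, hp2 a ha i _ (by show 0 + (i : ℕ) = i; omega)]
    have h3 : ∀ a, a + 3 ≤ d + 1 + 1 → GI (Iv a (a + 3)) ≤ D.f.range := by
      intro a ha g hg
      have : g ∈ GI (Set.range (e3 a ha)) := by rw [range_e3]; exact hg
      obtain ⟨x, rfl⟩ := exists_emb _ D.hF this
      refine ⟨D.cv (p3 a) (D.χ x), ?_⟩
      rw [f_cv, D.fχ, pA_emb]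
      congr 2
      exact Function.Embedding.ext fun i => by rw [pEmb_apply, hp3 a ha i _ (by show 0 + (i : ℕ) = i; omega)]
    have h := GI_le_range D.hF h2 h3 (d + 2 - 3) 0 (by omega)
    rw [show (Iv 0 (0 + (d + 2 - 3 + 3)) : Set (Fin (d + 1 + 1))) = Set.univ from
      Set.eq_univ_of_forall fun k => ⟨Nat.zero_le _, by omega⟩, GI_univ] at h
    exact h
  have hb : Function.Bijective (D.f ∘ Φ) := Finite.surjective_iff_bijective.1 (hf.comp hΦ)
  refine ⟨fun x y h => ?_, hf⟩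
  obtain ⟨a, rfl⟩ := hΦ x
  obtain ⟨b, rfl⟩ := hΦ y
  rw [hb.1 h]

end Six

end Cfsg.Agent.H81.SUSix
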