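import Cfsg.Agent.H81.SUSix.TwoAux

/-!
# The further relations over four elements
-/

set_option autoImplicit false
set_option linter.unusedSectionVars false
set_option maxHeartbeats 1000000

namespace Cfsg.Agent.H81.SUSix

open Matrix Equiv Cfsg Cfsg.Agent.H78.Phan

universe w

variable {F : Type*} [Field F] [Fintype F] {N : ℕ}

/-- An even permutation exchanging two triples. -/
def h6 : alternatingGroup (Fin 6) :=
  ⟨swap 2 3 * (swap 0 5 * swap 0 1 * swap 0 4), Perm.mem_alternatingGroup.2 (by decide)⟩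

/-- The same among more points. -/
noncomputable def h0 (h : 6 ≤ N) : alternatingGroup (Fin N) := extA (Fin.castLEEmb h) h6

theorem h0_val (h : 6 ≤ N) {p : Fin N} (hp : (p : ℕ) < 6) :
    ((h0 h : Perm (Fin N)) p : ℕ) = ((h6 : Perm (Fin 6)) ⟨p, hp⟩ : ℕ) := by
  conv_lhs => rw [show p = Fin.castLEEmb h ⟨p, hp⟩ from Fin.ext rfl, h0, extA_apply]
  rfl

theorem h0_inv_val (h : 6 ≤ N) {p : Fin N} (hp : (p : ℕ) < 6) :
    ((((h0 h)⁻¹ : alternatingGroup (Fin N)) : Perm (Fin N)) p : ℕ) =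
      (((h6⁻¹ : alternatingGroup (Fin 6)) : Perm (Fin 6)) ⟨p, hp⟩ : ℕ) := by
  conv_lhs => rw [show p = Fin.castLEEmb h ⟨p, hp⟩ from Fin.ext rfl, h0, ← map_inv, extA_apply]
  rfl

/-- The transform conjugated by a corrected permutation. -/
theorem exists_four_image (hF : Fintype.card F = 2 ^ 2) (hN : 3 ≤ N) (π : Perm (Fin (N - 3))) :
    ∃ z ∈ H0 hF, pA (th (N := N) 3 (by omega) hN π) * emb (e3 0 (by omega)) (four hF) *
      (pA (th (N := N) 3 (by omega) hN π))⁻¹ = emb (e3 0 (by omega)) z := by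
  rw [pA_emb]
  let a0 : Fin N := ⟨0, by omega⟩
  let a1 : Fin N := ⟨1, by omega⟩
  have hv : ∀ i : Fin 3, ((th (N := N) 3 (by omega) hN π : Perm (Fin N)) (e3 0 (by omega) i)) =
      sgnSwap a0 a1 (Perm.sign π) (e3 0 (by omega) i) := fun i => by
    rw [th, theta_lt]
    show 0 + (i : ℕ) < 3
    omega
  rcases Int.units_eq_one_or (Perm.sign π) with hs | hs
  · refine ⟨four hF, four_mem_H0 hF, ?_⟩
    congr 2
    refine Function.Embedding.ext fun i => ?_
    rw [pEmb_apply, hv, hs, map_one]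
    rfl
  · refine ⟨emb swap01 (four hF), ?_, ?_⟩
    · rw [emb_swap01 hF]
      exact mul_mem (mul_mem (lo_mem_H0 hF _) (four_mem_H0 hF)) (inv_mem (lo_mem_H0 hF _))
    · rw [emb_trans]
      congr 2
      refine Function.Embedding.ext fun i => ?_
      rw [pEmb_apply, hv, hs, Function.Embedding.trans_apply]
      show (if (-1 : ℤˣ) = 1 then 1 else swap a0 a1 : Perm (Fin N)) _ = _
      rw [if_neg (by decide)]
      fin_cases i
      · exact (swap_apply_left _ _).trans (Fin.ext rfl)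
      · exact (swap_apply_right _ _).trans (Fin.ext rfl)
      · exact (swap_apply_of_ne_of_ne (by simp [a0, e3, Fin.ext_iff]) (by simp [a1, e3, Fin.ext_iff])).trans
          (Fin.ext rfl)

namespace Six

variable {X : Type w} [Group X] (D : Six X F 2 N) (C2 : D.Inv' 2 D.P2) (E3 : D.Inv' 3 D.P3)
  (AV : ∀ g, Disjoint (st 2 g) (st 3 1) → ∀ x ∈ D.P2, ∀ y ∈ D.P3, Commute (D.cv g x) y)

include C2 E3 AV

/-- Disjoint triples commute. -/
theorem comm_VV (h : 6 ≤ N)
    (vv : ∀ z, z = four D.hF ∨ z = tw D.hF (four D.hF) →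
      Commute (D.cv (h0 h) (D.χ z)) (D.χ (four D.hF))) :
    ∀ g, Disjoint (st 3 g) (st 3 1) → ∀ x ∈ D.P3, ∀ y ∈ D.P3, Commute (D.cv g x) y := by
  have hN := D.hN
  set H := h0 (N := N) h with hH
  have hout : ∀ p : Fin N, (p : ℕ) < 3 → 3 ≤ (((H⁻¹ : alternatingGroup (Fin N)) : Perm (Fin N)) p : ℕ) :=
    fun p hp => by
    rw [hH, h0_inv_val h (by omega)]
    have key : ∀ i : Fin 6, (i : ℕ) < 3 → 3 ≤ (((h6⁻¹ : alternatingGroup (Fin 6)) : Perm (Fin 6)) i : ℕ) := by
      decide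
    exact key _ hp
  have hin : ∀ p : Fin N, (p : ℕ) < 3 →
      3 ≤ ((H : Perm (Fin N)) p : ℕ) ∧ ((H : Perm (Fin N)) p : ℕ) < 6 := fun p hp => by
    rw [hH, h0_val h (by omega)]
    have key : ∀ i : Fin 6, (i : ℕ) < 3 → 3 ≤ ((h6 : Perm (Fin 6)) i : ℕ) := by decide
    exact ⟨key _ hp, Fin.is_lt _⟩
  have hpair : ∀ g : alternatingGroup (Fin N), (∀ p ∈ st 2 g, (p : ℕ) < 3) → ∀ y ∈ D.P3, ∀ x,
      Commute (D.cv g (D.ψ x)) (D.cv H y) := by
    intro g hg y hy x
    have h1 := (AV (H⁻¹ * g) (Set.disjoint_left.2 fun p hp hp' => ?_) (D.ψ x) ⟨x, rfl⟩ y hy).map (D.cv H)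
    · rwa [cv_cv, mul_inv_cancel_left] at h1
    · rw [st_mul] at hp
      obtain ⟨r, hr, rfl⟩ := hp
      have := hout r (hg r hr)
      have := st_one_of.1 hp'
      omega
  -- the transform commutes with the moved triple
  have hfour : ∀ y ∈ D.P3, Commute (D.cv H y) (D.χ (four D.hF)) := by
    rintro _ ⟨z, rfl⟩
    have hle : (⊤ : Subgroup ↥(SU 3 F 2)) ≤
        ((Subgroup.centralizer {D.χ (four D.hF)}).comap (D.cv H)).comap D.χ := by
      refine (eq_top_two D.hF (H0_le D.hF (fun y => ?_) (fun y => ?_) ?_) ?_).ge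
      all_goals rw [Subgroup.mem_comap, Subgroup.mem_comap, Subgroup.mem_centralizer_singleton_iff]
      · refine (show Commute _ _ from ?_).eq
        rw [chi_lo, cv_cv, mul_one]
        refine AV _ (Set.disjoint_left.2 fun p hp hp' => ?_) _ ⟨y, rfl⟩ _ ⟨_, rfl⟩
        obtain ⟨r, hr, rfl⟩ := mem_st.1 hp
        have := (hin r (by omega)).1
        have := st_one_of.1 hp'
        omega
      · refine (show Commute _ _ from ?_).eq
        rw [chi_hi, cv_cv]
        refine AV _ (Set.disjoint_left.2 fun p hp hp' => ?_) _ ⟨y, rfl⟩ _ ⟨_, rfl⟩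
        obtain ⟨r, hr, rfl⟩ := mem_st.1 hp
        have := (hin _ (show ((extA D.w4 c4 : Perm (Fin N)) r : ℕ) < 3 by rw [D.c4_lt hr]; omega)).1
        have := st_one_of.1 hp'
        rw [Subgroup.coe_mul, Perm.mul_apply] at this
        omega
      · exact (vv _ (Or.inl rfl)).eq
      · exact (vv _ (Or.inr rfl)).eq
    exact Subgroup.mem_centralizer_singleton_iff.1 (hle (Subgroup.mem_top z))
  -- the moving element normalises the moved triple
  have hw : D.cv H⁻¹ D.tu = D.tu⁻¹ := by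
    have e : D.tu⁻¹ = D.cv (extA D.w4 d4) (D.ψ (tA D.hF)⁻¹) := by rw [tu_eq, map_inv, map_inv]
    have hd : ∀ p : Fin N, (p : ℕ) < 2 →
        (((H⁻¹ * extA D.w4 d4 : alternatingGroup (Fin N)) : Perm (Fin N)) p : ℕ) = 3 - (p : ℕ) := fun p hp => by
      rw [Subgroup.coe_mul, Perm.mul_apply, hH, h0_inv_val h (by rw [D.d4_lt hp]; omega)]
      have key : ∀ i : Fin 6, (i : ℕ) = 2 ∨ (i : ℕ) = 3 →
          (((h6⁻¹ : alternatingGroup (Fin 6)) : Perm (Fin 6)) i : ℕ) = 5 - (i : ℕ) := by decide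
      rw [key _ (by show _ = 2 ∨ _ = 3; rw [D.d4_lt hp]; omega)]
      show 5 - _ = _
      rw [D.d4_lt hp]; omega
    rw [e, tu_eq, cv_cv]
    refine D.eq_of_f C2 D.injP2 ?_ ⟨_, rfl⟩ ⟨_, rfl⟩ ?_
    · refine st_eq_of fun p hp => mem_st.2 ⟨⟨1 - (p : ℕ), by omega⟩, by show 1 - (p : ℕ) < 2; omega, Fin.ext ?_⟩
      rw [hd p hp, D.d4_lt (by show 1 - (p : ℕ) < 2; omega)]
      show 1 - (p : ℕ) + 2 = _
      omega
    · rw [f_cv_ψ, f_cv_ψ, ← pair21_inv D.hF, emb_trans]
      congr 2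
      refine Function.Embedding.ext fun i => Fin.ext ?_
      rw [pEmb_apply, hd _ (by show 0 + (i : ℕ) < 2; omega), Function.Embedding.trans_apply, pEmb_apply,
        D.d4_lt (by show 0 + _ < 2; omega)]
      fin_cases i <;> rfl
  have htw : ∀ y ∈ D.P3, Commute (D.cv H y) (D.χ (tw D.hF (four D.hF))) := by
    intro y hy
    obtain ⟨z, rfl⟩ := hy
    have h1 : D.tu⁻¹ * D.cv H (D.χ z) * D.tu = D.cv H (D.χ (tw D.hF z)) := by
      rw [← tu_conj, map_mul, map_mul, map_inv]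
      have h2 : D.cv H D.tu = D.tu⁻¹ := by
        have := congrArg (D.cv H) hw
        rw [cv_cv, mul_inv_cancel, cv_one, map_inv] at this
        rw [← inv_inv (D.cv H D.tu), ← this]
      rw [h2, inv_inv]
    have h3 := (h1 ▸ hfour _ ⟨tw D.hF z, rfl⟩ : Commute (D.tu⁻¹ * D.cv H (D.χ z) * D.tu) (D.χ (four D.hF))).map
      (MulAut.conj D.tu).toMonoidHom
    simp only [MulEquiv.coe_toMonoidHom, MulAut.conj_apply] at h3
    rw [show D.tu * (D.tu⁻¹ * D.cv H (D.χ z) * D.tu) * D.tu⁻¹ = D.cv H (D.χ z) by group, tu_conj] at h3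
    exact h3
  have base : ∀ x ∈ D.P3, ∀ y ∈ D.P3, Commute (D.cv H x) y := by
    rintro x hx _ ⟨z, rfl⟩
    refine D.commute_of_le (x := D.cv H x) (le_of_eq (eq_top_two D.hF (H0_le D.hF (fun y => ?_) (fun y => ?_) ?_) ?_).symm)
      (Subgroup.mem_top z)
    all_goals rw [Subgroup.mem_comap, Subgroup.mem_centralizer_singleton_iff]
    · rw [chi_lo]
      exact (hpair 1 (fun p hp => by have := st_one_of.1 hp; omega) x hx y).eq
    · rw [chi_hi]
      refine (hpair _ (fun p hp => ?_) x hx y).eq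
      obtain ⟨r, hr, rfl⟩ := mem_st.1 hp
      rw [D.c4_lt hr]; omega
    · exact (hfour x hx).eq.symm
    · exact (htw x hx).eq.symm
  intro g hd x hx y hy
  have hg : ∀ p : Fin N, (p : ℕ) < 3 → 3 ≤ ((g : Perm (Fin N)) p : ℕ) := fun p hp => by
    by_contra hlt
    exact Set.disjoint_left.1 hd (mem_st_apply.2 hp) (st_one_of.2 (Nat.lt_of_not_le hlt))
  obtain ⟨π, hπ⟩ := exists_perm (⟨fun i : Fin 3 => (⟨((g : Perm (Fin N)) ⟨i, by omega⟩ : ℕ) - 3, by
      have := ((g : Perm (Fin N)) ⟨(i : ℕ), by omega⟩).isLt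
      omega⟩ : Fin (N - 3)), fun i j e => by
        have e1 := hg ⟨(i : ℕ), by omega⟩ i.isLt
        have e2 := hg ⟨(j : ℕ), by omega⟩ j.isLt
        have e3 := congrArg Fin.val e
        simp only at e3
        have e4 := congrArg Fin.val ((g : Perm (Fin N)).injective
          (Fin.ext (show ((g : Perm (Fin N)) ⟨(i : ℕ), by omega⟩ : ℕ) = ((g : Perm (Fin N)) ⟨(j : ℕ), by omega⟩ : ℕ) by
            omega)))
        exact Fin.ext e4⟩ : Fin 3 ↪ Fin (N - 3)) (show 3 ≤ N - 3 by omega)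
  set t := th 3 (by omega) D.hN3 π with ht
  have hst : st 3 g = st 3 (t * H) := by
    refine st_eq_of fun p hp => mem_st.2 ⟨((H⁻¹ : alternatingGroup (Fin N)) : Perm (Fin N))
      ⟨(p : ℕ) + 3, by omega⟩, ?_, ?_⟩
    · rw [hH, h0_inv_val h (show (p : ℕ) + 3 < 6 by omega)]
      have key : ∀ i : Fin 6, 3 ≤ (i : ℕ) → (((h6⁻¹ : alternatingGroup (Fin 6)) : Perm (Fin 6)) i : ℕ) < 3 := by
        decide
      exact key _ (Nat.le_add_left _ _)
    · rw [Subgroup.coe_mul, Perm.mul_apply, InvMemClass.coe_inv, Perm.inv_def, Equiv.apply_symm_apply,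
        show (⟨(p : ℕ) + 3, by omega⟩ : Fin N) =
          tailEmb D.hN3 (Fin.castLE (show 3 ≤ N - 3 by omega) ⟨p, hp⟩) from rfl, ht, th_tail, hπ]
      exact Fin.ext (Nat.sub_add_cancel (hg p hp))
  obtain ⟨x', hx', e⟩ := D.move E3 hst hx
  have hy' : D.cv t⁻¹ y ∈ D.P3 := by
    rw [ht, ← map_inv]
    exact E3 _ (th_stab _ _ _) y hy
  have h1 := (base x' hx' _ hy').map (D.cv t)
  rwa [cv_cv, cv_cv, ← e, mul_inv_cancel, cv_one] at h1

end Six

/-- The further relations over four elements. -/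
theorem extra_two (hF : Fintype.card F = 2 ^ 2) (hN : 5 ≤ N) :
    ∃ E : List (FreeGroup (alternatingGroup (Fin N) ⊕ ↥(SU 4 F 2))), E.length ≤ 8 ∧ (N = 5 → E.length ≤ 6) ∧
      (∀ r ∈ E, FreeGroup.lift (tgtVal hN) r = 1) ∧
      ∀ (X : Type) [Group X] (D : Six X F 2 N), (∀ r ∈ E, FreeGroup.lift D.val r = 1) →
        Function.Bijective D.f := by
  classical
  obtain ⟨E2, l2, t2, g2⟩ := pair_rels hF hN
  obtain ⟨y, hy⟩ := exists_su2_two hF
  obtain ⟨g0, hg0⟩ := exists_alt (e2 (N := N) 3 (by omega)) (by omega)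
  have hg0' : ∀ p : Fin N, (p : ℕ) < 2 → ((g0 : Perm (Fin N)) p : ℕ) = (p : ℕ) + 3 := fun p hp => by
    rw [hg0 ⟨p, hp⟩ p rfl]; show 3 + (p : ℕ) = _; omega
  let th3 : Fin 2 → alternatingGroup (Fin N) := fun i => th 3 (by omega) (by omega) (tailGen (k := 3) (by omega) i)
  have hz := fun i => exists_four_image hF (show 3 ≤ N by omega) (tailGen (k := 3) (by omega) i)
  choose z hzH hz using hz
  let E3 := List.ofFn fun i => cw (th3 i) (lo3 (four hF)) (lo3 (z i))
  let EA := List.ofFn fun j => mw g0 (pair4 0 (by omega) (y j)) (lo3 (four hF))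
  let EV := if h : 6 ≤ N then [mw (h0 h) (lo3 (four hF)) (lo3 (four hF)),
    mw (h0 h) (lo3 (tw hF (four hF))) (lo3 (four hF))] else []
  have lV : EV.length ≤ 2 ∧ (N = 5 → EV.length = 0) := by
    by_cases h : 6 ≤ N
    · simp only [EV, dif_pos h]; exact ⟨by simp, fun h5 => absurd h (by omega)⟩
    · simp only [EV, dif_neg h]; exact ⟨by simp, fun _ => rfl⟩
  refine ⟨E2 ++ E3 ++ EA ++ EV, ?_, fun h5 => ?_, fun r hr => ?_, fun X _ D hD => ?_⟩
  · have := lV.1; simp [E3, EA]; omega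
  · have := lV.2 h5; simp [E3, EA]; omega
  · simp only [List.mem_append] at hr
    rcases hr with ((hr | hr) | hr) | hr
    · exact t2 r hr
    · obtain ⟨i, rfl⟩ := List.mem_ofFn.1 hr
      refine cw_tgt hN ?_
      rw [emb_w4_lo3 hN, emb_w4_lo3 hN]
      exact hz i
    · obtain ⟨j, rfl⟩ := List.mem_ofFn.1 hr
      refine mw_tgt hN ?_
      rw [emb_w4_lo3 hN, emb_w4_pair hN, pA_emb]
      refine GI_commute hF (emb_mem _ _) (emb_mem _ _) (Set.disjoint_left.2 ?_)
      rintro _ ⟨i, rfl⟩ ⟨k, hk⟩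
      have := congrArg Fin.val hk
      rw [pEmb_apply, hg0' _ (by show 0 + (i : ℕ) < 2; omega)] at this
      change 0 + (k : ℕ) = 0 + (i : ℕ) + 3 at this
      omega
    · by_cases h : 6 ≤ N
      · have key : ∀ x : ↥(SU 3 F 2), FreeGroup.lift (tgtVal hN) (mw (h0 h) (lo3 x) (lo3 (four hF))) = 1 := by
          intro x
          refine mw_tgt hN ?_
          rw [emb_w4_lo3 hN, emb_w4_lo3 hN, pA_emb]
          refine GI_commute hF (emb_mem _ _) (emb_mem _ _) (Set.disjoint_left.2 ?_)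
          rintro _ ⟨i, rfl⟩ ⟨k, hk⟩
          have := congrArg Fin.val hk
          rw [pEmb_apply, h0_val h (by show 0 + (i : ℕ) < 6; omega)] at this
          change 0 + (k : ℕ) = _ at this
          have key : ∀ i : Fin 6, (i : ℕ) < 3 → 3 ≤ ((h6 : Perm (Fin 6)) i : ℕ) := by decide
          have := key ⟨0 + (i : ℕ), by omega⟩ (by show 0 + (i : ℕ) < 3; omega)
          have e : ((e3 (N := N) 0 (by omega) i : Fin N) : ℕ) = 0 + (i : ℕ) := rfl
          simp only [e] at *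
          omega
        simp only [EV, dif_pos h, List.mem_cons, List.not_mem_nil, or_false] at hr
        rcases hr with rfl | rfl <;> exact key _
      · simp [EV, dif_neg h] at hr
  · simp only [List.mem_append] at hD
    have C2 := g2 X D fun r hr => hD r (Or.inl (Or.inl (Or.inl hr)))
    have e3 : ∀ i, D.cv (th 3 (by omega) D.hN3 (tailGen (k := 3) (by omega) i)) (D.χ (four D.hF)) ∈ D.S0 :=
      fun i => ⟨z i, hzH i,
        (D.val_cw (hD _ (Or.inl (Or.inl (Or.inr (List.mem_ofFn.2 ⟨i, rfl⟩)))))).symm⟩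
    have hS := D.inv_S0 C2 e3
    have av : ∀ x ∈ D.P2, Commute (D.cv g0 x) (D.χ (four D.hF)) := by
      rintro _ ⟨u, rfl⟩
      have hle : Subgroup.closure (Set.range y) ≤
          ((Subgroup.centralizer {D.χ (four D.hF)}).comap (D.cv g0)).comap D.ψ := by
        rw [Subgroup.closure_le]
        rintro _ ⟨j, rfl⟩
        rw [SetLike.mem_coe, Subgroup.mem_comap, Subgroup.mem_comap, Subgroup.mem_centralizer_singleton_iff]
        exact (D.val_mw (hD _ (Or.inl (Or.inr (List.mem_ofFn.2 ⟨j, rfl⟩))))).eq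
      exact Subgroup.mem_centralizer_singleton_iff.1 (hle (hy ▸ Subgroup.mem_top u))
    have E3' := D.inv_three C2 hS hg0' av
    have AV := D.comm_AV C2 hS hg0' av
    refine D.bijective C2 E3' AV ?_
    by_cases h : 6 ≤ N
    · refine D.comm_VV C2 E3' AV h fun x hx => ?_
      refine D.val_mw (hD (mw (h0 h) (lo3 x) (lo3 (four hF))) (Or.inr ?_))
      simp only [EV, dif_pos h, List.mem_cons, List.not_mem_nil, or_false]
      rcases hx with rfl | rfl
      · exact Or.inl rfl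
      · exact Or.inr rfl
    · intro g hd
      exfalso
      have hg : ∀ p : Fin N, (p : ℕ) < 3 → 3 ≤ ((g : Perm (Fin N)) p : ℕ) := fun p hp => by
        by_contra hlt
        exact Set.disjoint_left.1 hd (mem_st_apply.2 hp) (Six.st_one_of.2 (Nat.lt_of_not_le hlt))
      have hle := Finset.card_le_card_of_injOn (s := (Finset.univ : Finset (Fin 3)))
        (t := (Finset.univ : Finset (Fin (N - 3))))
        (fun i => (⟨((g : Perm (Fin N)) ⟨i, by omega⟩ : ℕ) - 3, by
          have := ((g : Perm (Fin N)) ⟨(i : ℕ), by omega⟩).isLt; omega⟩ : Fin (N - 3)))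
        (by simp) (fun i _ j _ e => by
          have e1 := hg ⟨(i : ℕ), by omega⟩ i.isLt
          have e2 := hg ⟨(j : ℕ), by omega⟩ j.isLt
          have e3 := congrArg Fin.val e
          simp only at e3
          have e4 := congrArg Fin.val ((g : Perm (Fin N)).injective
            (Fin.ext (show ((g : Perm (Fin N)) ⟨(i : ℕ), by omega⟩ : ℕ) = ((g : Perm (Fin N)) ⟨(j : ℕ), by omega⟩ : ℕ) by
              omega)))
          exact Fin.ext e4)
      simp at hle
      omega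

end Cfsg.Agent.H81.SUSix
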