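import Cfsg.Agent.H81.SUSix.Perm
import Cfsg.Agent.H78.Phan.TwoGroup

/-!
# Identities on three and four coordinates over four elements
-/

set_option autoImplicit false
set_option linter.unusedSectionVars false
set_option maxHeartbeats 1000000

namespace Cfsg.Agent.H81.SUSix

open Matrix Equiv Cfsg Cfsg.Agent.H78.Phan

variable {F : Type*} [Field F] [Fintype F] (hF : Fintype.card F = 2 ^ 2)

/-- The subgroup generated by the pairs and the transform. -/
noncomputable def H0 : Subgroup ↥(SU 3 F 2) :=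
  (lo (F := F) (q := 2)).range ⊔ hi.range ⊔ Subgroup.zpowers (four hF)

/-- The twist by a cube root of one. -/
noncomputable def tw : ↥(SU 3 F 2) →* ↥(SU 3 F 2) := twist hF (omg hF) (omg_ne hF).1

theorem lo_mem_H0 (x : ↥(SU 2 F 2)) : lo x ∈ H0 hF :=
  Subgroup.mem_sup_left (Subgroup.mem_sup_left ⟨x, rfl⟩)

theorem hi_mem_H0 (x : ↥(SU 2 F 2)) : hi x ∈ H0 hF :=
  Subgroup.mem_sup_left (Subgroup.mem_sup_right ⟨x, rfl⟩)

theorem four_mem_H0 : four hF ∈ H0 hF := Subgroup.mem_sup_right (Subgroup.mem_zpowers _)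

theorem H0_le {P : Subgroup ↥(SU 3 F 2)} (hlo : ∀ x, lo x ∈ P) (hhi : ∀ x, hi x ∈ P) (h4 : four hF ∈ P) :
    H0 hF ≤ P :=
  sup_le (sup_le (by rintro _ ⟨x, rfl⟩; exact hlo x) (by rintro _ ⟨x, rfl⟩; exact hhi x))
    (Subgroup.zpowers_le.2 h4)

theorem tw_tw_four : twist hF (omg hF * omg hF) (mul_ne_zero (omg_ne hF).1 (omg_ne hF).1) (four hF) =
    tw hF (four hF) * lo (tA hF) * hi (tA hF) * four hF := by
  refine ext_act fun v => ?_
  rw [act_mul, act_mul, act_mul, tw, act_twist hF, act_twist hF, act_four, act_four, act_four, act_hiA, act_loA]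
  have h := omg_sq hF
  have h2 := char_two hF
  funext i
  fin_cases i <;> simp <;> grobner

theorem eq_top_two {P : Subgroup ↥(SU 3 F 2)} (hH : H0 hF ≤ P) (ht : tw hF (four hF) ∈ P) : P = ⊤ := by
  have hlo : (lo (F := F) (q := 2)).range ≤ P := fun _ ⟨x, hx⟩ => hH (hx ▸ lo_mem_H0 hF x)
  have hhi : (hi (F := F) (q := 2)).range ≤ P := fun _ ⟨x, hx⟩ => hH (hx ▸ hi_mem_H0 hF x)
  refine eq_top_three hF hlo hhi fun e he => ?_
  rcases cube_cases hF (cube_one hF he) with rfl | rfl | rfl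
  · rw [show twist hF 1 he (four hF) = four hF from ext_act fun v => by
      rw [act_twist hF, act_four, act_four]
      funext i
      fin_cases i <;> simp]
    exact hH (four_mem_H0 hF)
  · exact ht
  · rw [tw_tw_four hF]
    exact mul_mem (mul_mem (mul_mem ht (hlo ⟨_, rfl⟩)) (hhi ⟨_, rfl⟩)) (hH (four_mem_H0 hF))

/-- The cycle of three coordinates. -/
def cyc3 : alternatingGroup (Fin 3) := ⟨swap 0 1 * swap 1 2, Perm.mem_alternatingGroup.2 (by decide)⟩

theorem pA_cyc3 : pA (q := 2) cyc3 = cyc hF := by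
  refine ext_act fun v => funext fun i => ?_
  rw [act_pA, act_cyc, Function.comp_apply]
  have key : ((cyc3 : Perm (Fin 3))⁻¹ 0 = 2) ∧ ((cyc3 : Perm (Fin 3))⁻¹ 1 = 0) ∧ ((cyc3 : Perm (Fin 3))⁻¹ 2 = 1) := by
    simp only [Perm.inv_def, Equiv.symm_apply_eq]
    decide
  fin_cases i
  · exact congrArg v key.1
  · exact congrArg v key.2.1
  · exact congrArg v key.2.2

theorem pA_three_mem (π : alternatingGroup (Fin 3)) : pA (F := F) (q := 2) π ∈ H0 hF := by
  have key : ∀ π : alternatingGroup (Fin 3), π = 1 ∨ π = cyc3 ∨ π = cyc3 * cyc3 := by decide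
  have hc : pA (F := F) (q := 2) cyc3 ∈ H0 hF := by
    rw [pA_cyc3 hF]; exact mul_mem (lo_mem_H0 hF _) (hi_mem_H0 hF _)
  rcases key π with rfl | rfl | rfl
  · rw [map_one]; exact one_mem _
  · exact hc
  · rw [map_mul]; exact mul_mem hc hc

/-- The exchange of the first two of three coordinates. -/
def swap01 : Fin 3 ↪ Fin 3 := (swap (0 : Fin 3) 1).toEmbedding

theorem emb_swap01 (z : ↥(SU 3 F 2)) : emb swap01 z = lo (tB hF) * z * (lo (tB hF))⁻¹ := by
  rw [eq_mul_inv_iff_mul_eq]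
  refine ext_act fun v => funext fun p => ?_
  obtain ⟨i, rfl⟩ : ∃ i, swap01 i = p := ⟨swap01 p, by simp [swap01]⟩
  rw [act_mul, act_mul, act_emb_in, act_tB_lo, act_tB_lo]
  rw [show ![v 1, v 0, v 2] ∘ swap01 = v from funext fun j => by fin_cases j <;> rfl]
  fin_cases i <;> rfl

theorem pairEmb_zero {N : ℕ} (i k : Fin N) (h : i ≠ k) : pairEmb i k h 0 = i := rfl

theorem pairEmb_one {N : ℕ} (i k : Fin N) (h : i ≠ k) : pairEmb i k h 1 = k := rfl

theorem emb_pair02 : emb (pairEmb (0 : Fin 3) 2 (by decide)) (tA hF) = lo (tA hF) * hi (tA hF) := by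
  refine ext_act fun v => funext fun p => ?_
  rw [act_mul, act_hiA, act_loA, tA]
  have h := omg_cube hF
  by_cases hp : p ∈ Set.range (pairEmb (0 : Fin 3) 2 (by decide))
  · obtain ⟨i, rfl⟩ := hp
    rw [act_emb_in, act_su2]
    fin_cases i <;> simp [pairEmb_zero, pairEmb_one] <;> grobner
  · rw [act_emb_out _ _ _ hp]
    obtain rfl : p = 1 := by
      rw [range_pairEmb] at hp
      revert hp
      fin_cases p <;> simp
    simp
    grobner

theorem pair21_inv : emb (pairEmb (1 : Fin 2) 0 (by decide)) (tA hF) = (tA hF)⁻¹ := by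
  rw [eq_inv_iff_mul_eq_one]
  refine ext_act fun v => funext fun p => ?_
  obtain ⟨i, rfl⟩ : ∃ i, pairEmb (1 : Fin 2) 0 (by decide) i = p := by
    fin_cases p
    · exact ⟨1, rfl⟩
    · exact ⟨0, rfl⟩
  rw [act_mul, act_emb_in, act_one, tA, act_su2]
  have h := omg_cube hF
  fin_cases i <;> simp [pairEmb_zero, pairEmb_one, act_su2] <;> grobner

theorem lo_normal (y : ↥(SU 2 F 2)) : ∃ y', (lo (tA hF))⁻¹ * hi y * lo (tA hF) = hi y' := by
  have h : (lo (tA hF))⁻¹ * hi y * lo (tA hF) ∈ (hi (F := F) (q := 2)).range := by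
    rw [range_hi hF, suBlock_eq hF, GI_eq_Fix0, mem_Fix, act_mul, act_mul]
    refine act_inv_eq ?_
    have hy : act (hi y) (ev (0 : Fin 3)) = ev 0 := emb_mem _ y 0 (by
      rw [range_e2]; simp)
    have hsm : (![omg hF * (ev 0 : Fin 3 → F) 0, omg hF * omg hF * (ev 0 : Fin 3 → F) 1, (ev 0 : Fin 3 → F) 2] :
        Fin 3 → F) = omg hF • ev 0 := by
      funext i
      fin_cases i <;> simp [ev]
    rw [act_loA, hsm, act_smul, hy]
  obtain ⟨y', e⟩ := h
  exact ⟨y', e.symm⟩

theorem lo3_tw (z : ↥(SU 3 F 2)) :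
    lo3 (tw hF z) = pair4 2 (by omega) (tA hF) * lo3 z * (pair4 2 (by omega) (tA hF))⁻¹ := by
  rw [eq_mul_inv_iff_mul_eq]
  have hd : ∀ v : Fin 4 → F, act (pair4 2 (by omega) (tA hF)) v = ![v 0, v 1, omg hF * v 2, omg hF * omg hF * v 3] := by
    intro v
    funext p
    by_cases hp : p ∈ Set.range (e2 (N := 4) 2 (by omega))
    · obtain ⟨i, rfl⟩ := hp
      rw [act_emb_in, tA, act_su2]
      have e20 : e2 (N := 4) 2 (by omega) 0 = 2 := rfl
      have e21 : e2 (N := 4) 2 (by omega) 1 = 3 := rfl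
      fin_cases i <;> simp [e20, e21, pow_two]
    · rw [act_emb_out _ _ _ hp]
      rw [range_e2] at hp
      revert hp
      fin_cases p <;> simp
  refine ext_act fun v => funext fun p => ?_
  rw [act_mul, act_mul, hd, hd]
  by_cases hp : p ∈ Set.range (e3 (N := 4) 0 (by omega))
  · obtain ⟨i, rfl⟩ := hp
    rw [act_emb_in, tw, act_twist hF]
    have h := omg_cube hF
    rw [show (![((![v 0, v 1, omg hF * v 2, omg hF * omg hF * v 3] : Fin 4 → F) ∘ e3 0 (by omega)) 0,
        ((![v 0, v 1, omg hF * v 2, omg hF * omg hF * v 3] : Fin 4 → F) ∘ e3 0 (by omega)) 1,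
        omg hF * omg hF * ((![v 0, v 1, omg hF * v 2, omg hF * omg hF * v 3] : Fin 4 → F) ∘ e3 0 (by omega)) 2] :
          Fin 3 → F) = v ∘ e3 0 (by omega) from funext fun j => by
      fin_cases j <;> simp [e3]
      grobner]
    have h0 := act_emb_in (e3 (N := 4) 0 (by omega)) z v 0
    have h1 := act_emb_in (e3 (N := 4) 0 (by omega)) z v 1
    have h2 := act_emb_in (e3 (N := 4) 0 (by omega)) z v 2
    rw [show e3 (N := 4) 0 (by omega) 0 = 0 from rfl] at h0
    rw [show e3 (N := 4) 0 (by omega) 1 = 1 from rfl] at h1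
    rw [show e3 (N := 4) 0 (by omega) 2 = 2 from rfl] at h2
    fin_cases i <;> simp [e3, h0, h1, h2]
  · obtain rfl : p = 3 := by
      rw [range_e3] at hp
      revert hp
      fin_cases p <;> simp
    rw [act_emb_out _ _ _ hp]
    show omg hF * omg hF * v 3 = omg hF * omg hF * act (lo3 z) v 3
    rw [act_emb_out _ _ _ hp]

end Cfsg.Agent.H81.SUSix
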