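import Cfsg.Agent.H81.SUSix.Case
import Cfsg.Agent.H81.SUSix.TwoBasic

/-!
# Window data over four elements
-/

set_option autoImplicit false
set_option linter.unusedSectionVars false
set_option maxHeartbeats 1000000

namespace Cfsg.Agent.H81.SUSix

open Matrix Equiv Cfsg Cfsg.Agent.H78.Phan

universe w

variable {F : Type*} [Field F] [Fintype F] {q N : ℕ}

theorem th_two {k : ℕ} (hk : 2 ≤ k) (hkN : k ≤ N) (π : Perm (Fin (N - k))) {p : Fin N} (hp : (p : ℕ) < k)
    (hp2 : 2 ≤ (p : ℕ)) : (th k hk hkN π : Perm (Fin N)) p = p := by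
  rw [th]
  refine theta_fix _ _ _ _ _ hp ?_ ?_ <;> simp only [ne_eq, Fin.ext_iff] <;> omega

theorem th_tail {k : ℕ} (hk : 2 ≤ k) (hkN : k ≤ N) (π : Perm (Fin (N - k))) (i : Fin (N - k)) :
    (th k hk hkN π : Perm (Fin N)) (tailEmb hkN i) = tailEmb hkN (π i) := by
  show ((Perm.viaEmbeddingHom (tailEmb hkN) π * sgnSwap _ _ (Perm.sign π) : Perm (Fin N))) _ = _
  rw [Perm.mul_apply, sgnSwap_fix]
  · exact Perm.viaEmbedding_apply _ _ _
  · exact fun e => absurd (congrArg Fin.val e) (show (i : ℕ) + k ≠ 0 by omega)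
  · exact fun e => absurd (congrArg Fin.val e) (show (i : ℕ) + k ≠ 1 by omega)

/-- An even permutation with three prescribed values. -/
theorem exists_tri (hN : 5 ≤ N) {a b c : Fin N} (hab : a ≠ b) (hac : a ≠ c) (hbc : b ≠ c) :
    ∃ t : alternatingGroup (Fin N), ∀ p : Fin N, ((p : ℕ) = 0 → (t : Perm (Fin N)) p = a) ∧
      ((p : ℕ) = 1 → (t : Perm (Fin N)) p = b) ∧ ((p : ℕ) = 2 → (t : Perm (Fin N)) p = c) := by
  obtain ⟨t, ht⟩ := exists_alt (⟨![a, b, c], by
    intro i j e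
    fin_cases i <;> fin_cases j <;> simp at e ⊢ <;>
      first
        | exact absurd e hab | exact absurd e.symm hab | exact absurd e hac | exact absurd e.symm hac
        | exact absurd e hbc | exact absurd e.symm hbc⟩ : Fin 3 ↪ Fin N) (show 3 + 2 ≤ N by omega)
  exact ⟨t, fun p => ⟨fun h => (ht 0 p h).trans rfl, fun h => (ht 1 p h).trans rfl, fun h => (ht 2 p h).trans rfl⟩⟩

namespace Six

variable {X : Type w} [Group X] (D : Six X F q N)

theorem hN3 (D : Six X F q N) : 3 ≤ N := le_trans (by omega) D.hN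

theorem chi_lo (y : ↥(SU 2 F q)) : D.χ (lo y) = D.cv 1 (D.ψ y) := by
  rw [cv_one, ψ, χ, MonoidHom.comp_apply, MonoidHom.comp_apply, lo3_lo]

theorem chi_hi (y : ↥(SU 2 F q)) : D.χ (hi y) = D.cv (extA D.w4 c4) (D.ψ y) := by
  rw [D.cv_ext_pair c4 1 (by omega) (by decide) (by decide), χ, MonoidHom.comp_apply, lo3_hi]

theorem f_cv_ψ (g : alternatingGroup (Fin N)) (x : ↥(SU 2 F q)) :
    D.f (D.cv g (D.ψ x)) = emb (pEmb g (e2 0 (by have := D.hN; omega))) x := by
  rw [f_cv, D.fψ, pA_emb]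

theorem f_cv_χ (g : alternatingGroup (Fin N)) (x : ↥(SU 3 F q)) :
    D.f (D.cv g (D.χ x)) = emb (pEmb g (e3 0 (by have := D.hN; omega))) x := by
  rw [f_cv, D.fχ, pA_emb]

theorem e2_eq {i : Fin 2} {h : 0 + 2 ≤ N} {p : Fin N} (hp : (p : ℕ) = i) : e2 0 h i = p :=
  Fin.ext (by show 0 + (i : ℕ) = p; omega)

theorem c4_lt {p : Fin N} (hp : (p : ℕ) < 2) :
    ((extA D.w4 c4 : Perm (Fin N)) p : ℕ) = (p : ℕ) + 1 := by
  obtain ⟨i, rfl⟩ := D.exists_w4 (p := p) (by omega)
  rw [D.w4_val] at hp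
  rw [extA_apply, D.w4_val, D.w4_val]
  have key : ∀ i : Fin 4, (i : ℕ) < 2 → (((c4 : Perm (Fin 4)) i : Fin 4) : ℕ) = (i : ℕ) + 1 := by decide
  exact key i hp

theorem d4_lt {p : Fin N} (hp : (p : ℕ) < 2) :
    ((extA D.w4 d4 : Perm (Fin N)) p : ℕ) = (p : ℕ) + 2 := by
  obtain ⟨i, rfl⟩ := D.exists_w4 (p := p) (by omega)
  rw [D.w4_val] at hp
  rw [extA_apply, D.w4_val, D.w4_val]
  have key : ∀ i : Fin 4, (i : ℕ) < 2 → (((d4 : Perm (Fin 4)) i : Fin 4) : ℕ) = (i : ℕ) + 2 := by decide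
  exact key i hp

/-- Commuting with a subgroup is preserved under the centraliser. -/
theorem commute_of_le {z : ↥(SU 3 F q)} {P : Subgroup ↥(SU 3 F q)} {x : X}
    (h : P ≤ (Subgroup.centralizer {x}).comap D.χ) (hz : z ∈ P) : Commute x (D.χ z) :=
  (Subgroup.mem_centralizer_singleton_iff.1 (h hz)).symm

end Six

namespace Six

variable {X : Type w} [Group X] (D : Six X F 2 N)

/-- The image of the pairs and the transform. -/
noncomputable def S0 : Subgroup X := (H0 D.hF).map D.χ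

theorem S0_le : D.S0 ≤ D.P3 := by
  rintro _ ⟨z, -, rfl⟩
  exact ⟨z, rfl⟩

/-- The diagonal element moving the twist. -/
noncomputable def tu : X := D.φ (pair4 2 (by omega) (tA D.hF))

theorem tu_eq : D.tu = D.cv (extA D.w4 d4) (D.ψ (tA D.hF)) := by
  rw [D.cv_ext_pair d4 2 (by omega) (by decide) (by decide)]; rfl

theorem tu_conj (z : ↥(SU 3 F 2)) : D.tu * D.χ z * D.tu⁻¹ = D.χ (tw D.hF z) := by
  simp only [tu, χ, MonoidHom.comp_apply, lo3_tw D.hF, map_mul, map_inv]

variable (C2 : D.Inv' 2 D.P2)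

include C2

/-- Pairs inside the triple lie in the smaller subgroup. -/
theorem pair_in_S0 {g : alternatingGroup (Fin N)} (h : ∀ p ∈ st 2 g, (p : ℕ) < 3) {x : X} (hx : x ∈ D.P2) :
    D.cv g x ∈ D.S0 := by
  obtain ⟨π, hπ⟩ := D.three_cases h
  obtain ⟨_, ⟨y, rfl⟩, e⟩ := D.move C2 hπ hx
  rw [e, ← D.cv_one (D.ψ y), ← D.chi_lo, cv_three]
  exact ⟨_, mul_mem (mul_mem (pA_three_mem D.hF π) (lo_mem_H0 D.hF y)) (inv_mem (pA_three_mem D.hF π)), rfl⟩

/-- Stabilisers of the triple map the pairs into the smaller subgroup. -/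
theorem blocks_in_S0 {h : alternatingGroup (Fin N)} (hh : Stab 3 h) (y : ↥(SU 2 F 2)) :
    D.cv h (D.χ (lo y)) ∈ D.S0 ∧ D.cv h (D.χ (hi y)) ∈ D.S0 := by
  constructor
  · rw [chi_lo, cv_cv]
    refine D.pair_in_S0 C2 (fun p hp => ?_) ⟨y, rfl⟩
    obtain ⟨r, hr, rfl⟩ := mem_st.1 hp
    rw [mul_one]
    exact (hh r).2 (by omega)
  · rw [chi_hi, cv_cv]
    refine D.pair_in_S0 C2 (fun p hp => ?_) ⟨y, rfl⟩
    obtain ⟨r, hr, rfl⟩ := mem_st.1 hp
    rw [Subgroup.coe_mul, Perm.mul_apply]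
    exact (hh _).2 (by rw [D.c4_lt hr]; omega)

/-- The stabiliser fixing the third point normalises the smaller subgroup. -/
theorem inv_S0
    (e3 : ∀ i, D.cv (th 3 (by omega) D.hN3 (tailGen (k := 3) (by have := D.hN; omega) i)) (D.χ (four D.hF)) ∈ D.S0)
    (π : Perm (Fin (N - 3))) : ∀ x ∈ D.S0, D.cv (th 3 (by omega) D.hN3 π) x ∈ D.S0 := by
  refine D.inv_of_theta (↑D.S0) (Subgroup.closure_eq _).symm _ (show 3 + 2 ≤ N by have := D.hN; omega) _ _ _
    (fun i x hx => ?_) π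
  obtain ⟨z, hz, rfl⟩ := hx
  have hle : H0 D.hF ≤ (D.S0.comap (D.cv (th 3 (by omega) D.hN3
      (tailGen (k := 3) (by have := D.hN; omega) i)))).comap D.χ :=
    H0_le D.hF (fun y => (D.blocks_in_S0 C2 (th_stab _ _ _) y).1)
      (fun y => (D.blocks_in_S0 C2 (th_stab _ _ _) y).2) (e3 i)
  exact hle hz

variable (hS : ∀ (π : Perm (Fin (N - 3))), ∀ x ∈ D.S0, D.cv (th 3 (by omega) D.hN3 π) x ∈ D.S0)

include hS

/-- Outside pairs commute with the smaller subgroup. -/
theorem out_S0 {g0 : alternatingGroup (Fin N)}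
    (hg0 : ∀ p : Fin N, (p : ℕ) < 2 → ((g0 : Perm (Fin N)) p : ℕ) = (p : ℕ) + 3)
    (av : ∀ x ∈ D.P2, Commute (D.cv g0 x) (D.χ (four D.hF)))
    {g : alternatingGroup (Fin N)} (hg : ∀ p ∈ st 2 g, 3 ≤ (p : ℕ)) :
    ∀ x ∈ D.P2, ∀ s ∈ D.S0, Commute (D.cv g x) s := by
  have hN := D.hN
  have base : ∀ x ∈ D.P2, ∀ s ∈ D.S0, Commute (D.cv g0 x) s := by
    rintro x hx _ ⟨z, hz, rfl⟩
    have hcm : ∀ g' : alternatingGroup (Fin N), (∀ p ∈ st 2 g', (p : ℕ) < 3) → ∀ y,
        Commute (D.cv g' (D.ψ y)) (D.cv g0 x) := by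
      intro g' hg' y
      refine D.comm22 C2 (Set.disjoint_left.2 fun p hp hp' => ?_) ⟨y, rfl⟩ hx
      obtain ⟨r, hr, rfl⟩ := mem_st.1 hp'
      have := hg' _ hp
      rw [hg0 r hr] at this
      omega
    refine D.commute_of_le (x := D.cv g0 x) (H0_le D.hF (fun y => ?_) (fun y => ?_) ?_) hz
    · show D.χ (lo y) ∈ Subgroup.centralizer {D.cv g0 x}
      rw [chi_lo, Subgroup.mem_centralizer_singleton_iff]
      exact (hcm 1 (fun p hp => by have := st_one_of.1 hp; omega) y).eq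
    · show D.χ (hi y) ∈ Subgroup.centralizer {D.cv g0 x}
      rw [chi_hi, Subgroup.mem_centralizer_singleton_iff]
      refine (hcm _ (fun p hp => ?_) y).eq
      obtain ⟨r, hr, rfl⟩ := mem_st.1 hp
      rw [D.c4_lt hr]; omega
    · show D.χ (four D.hF) ∈ Subgroup.centralizer {D.cv g0 x}
      rw [Subgroup.mem_centralizer_singleton_iff]
      exact (av x hx).eq.symm
  intro x hx s hs
  let a0 : Fin N := ⟨0, by omega⟩
  let a1 : Fin N := ⟨1, by omega⟩
  have ha : ∀ a : Fin N, (a : ℕ) < 2 → 3 ≤ ((g : Perm (Fin N)) a : ℕ) := fun a ha => hg _ (mem_st_apply.2 ha)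
  have hne : (g : Perm (Fin N)) a0 ≠ (g : Perm (Fin N)) a1 :=
    (g : Perm (Fin N)).injective.ne (by simp [a0, a1, Fin.ext_iff])
  have h0 := ha a0 (show 0 < 2 by omega)
  have h1 := ha a1 (show 1 < 2 by omega)
  obtain ⟨π, hπ⟩ := exists_perm (pairEmb (N := N - 3) ⟨((g : Perm (Fin N)) a0 : ℕ) - 3, by omega⟩
    ⟨((g : Perm (Fin N)) a1 : ℕ) - 3, by omega⟩ (fun e => hne (Fin.ext (by
      have := congrArg Fin.val e; simp only at this; omega)))) (show 2 ≤ N - 3 by omega)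
  have hst : st 2 g = st 2 (th 3 (by omega) D.hN3 π * g0) := by
    refine (st_eq_of fun p hp => ?_).symm
    rw [Subgroup.coe_mul, Perm.mul_apply,
      show (g0 : Perm (Fin N)) p = tailEmb D.hN3 (Fin.castLE (show 2 ≤ N - 3 by omega) ⟨p, hp⟩) from
        Fin.ext (hg0 p hp), th_tail, hπ]
    obtain rfl | rfl : p = a0 ∨ p = a1 := by simp only [a0, a1, Fin.ext_iff]; omega
    · convert mem_st_apply.2 (show (a0 : ℕ) < 2 by simp [a0]) using 1
      exact Fin.ext (Nat.sub_add_cancel h0)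
    · convert mem_st_apply.2 (show (a1 : ℕ) < 2 by simp [a1]) using 1
      exact Fin.ext (Nat.sub_add_cancel h1)
  obtain ⟨x', hx', e⟩ := D.move C2 hst hx
  have hs' : D.cv (th 3 (by omega) D.hN3 π⁻¹) s ∈ D.S0 := hS _ s hs
  have := (base x' hx' _ hs').map (D.cv (th 3 (by omega) D.hN3 π))
  rwa [cv_cv, cv_cv, ← e, ← map_mul, mul_inv_cancel, map_one, cv_one] at this

variable {g0 : alternatingGroup (Fin N)}
  (hg0 : ∀ p : Fin N, (p : ℕ) < 2 → ((g0 : Perm (Fin N)) p : ℕ) = (p : ℕ) + 3)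
  (av : ∀ x ∈ D.P2, Commute (D.cv g0 x) (D.χ (four D.hF)))

include hg0 av

/-- The image of the moving element in a neighbouring triple. -/
theorem tu_triple {t : alternatingGroup (Fin N)}
    (ht : ∀ p : Fin N, (p : ℕ) < 2 → ((t : Perm (Fin N)) p : ℕ) = (p : ℕ) + 2) :
    D.tu = D.cv t (D.χ (lo (tA D.hF))) := by
  rw [chi_lo, cv_one, tu_eq]
  refine D.eq_of_f C2 D.injP2 ?_ ⟨_, rfl⟩ ⟨_, rfl⟩ ?_
  · exact st_eq_of fun p hp => by
      rw [show (extA D.w4 d4 : Perm (Fin N)) p = (t : Perm (Fin N)) p from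
        Fin.ext (by rw [D.d4_lt hp, ht p hp])]
      exact mem_st_apply.2 hp
  · rw [f_cv_ψ, f_cv_ψ]
    congr 2
    refine Function.Embedding.ext fun i => Fin.ext ?_
    have hi : ((e2 (N := N) 0 (by have := D.hN; omega) i : Fin N) : ℕ) < 2 := by show 0 + (i : ℕ) < 2; omega
    rw [pEmb_apply, pEmb_apply, D.d4_lt hi, ht _ hi]

/-- Invariance of the triple under the stabiliser fixing its third point. -/
theorem inv_fix (π : Perm (Fin (N - 3))) : ∀ x ∈ D.P3, D.cv (th 3 (by omega) D.hN3 π) x ∈ D.P3 := by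
  have hN := D.hN
  set h := th 3 (by omega) D.hN3 π
  rintro _ ⟨z, rfl⟩
  have hle : (⊤ : Subgroup ↥(SU 3 F 2)) ≤ (D.P3.comap (D.cv h)).comap D.χ := by
    refine (eq_top_two D.hF (fun z hz => D.S0_le (hS π _ ⟨z, hz, rfl⟩)) ?_).ge
    show D.cv h (D.χ (tw D.hF (four D.hF))) ∈ D.P3
    rw [← tu_conj, map_mul, map_mul, map_inv]
    set s := D.cv h (D.χ (four D.hF))
    have hs : s ∈ D.S0 := hS π _ ⟨_, four_mem_H0 D.hF, rfl⟩
    let b : Fin N := (h : Perm (Fin N)) ⟨3, by omega⟩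
    let c : Fin N := ⟨3, by omega⟩
    let two : Fin N := ⟨2, by omega⟩
    have h2 : (h : Perm (Fin N)) two = two := th_two _ _ _ (show (two : ℕ) < 3 by simp [two]) (le_refl 2)
    have hb : 3 ≤ (b : ℕ) := by
      by_contra hlt
      have := (th_stab (show 2 ≤ 3 by omega) D.hN3 π ⟨3, by omega⟩).1 (Nat.lt_of_not_le hlt)
      simp at this
    have hU : D.cv h D.tu = D.cv (h * extA D.w4 d4) (D.ψ (tA D.hF)) := by rw [tu_eq, cv_cv]
    have hd : ∀ p : Fin N, (p : ℕ) < 2 → ((h * extA D.w4 d4 : alternatingGroup (Fin N)) : Perm (Fin N)) p =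
        if (p : ℕ) = 0 then two else b := fun p hp => by
      rw [Subgroup.coe_mul, Perm.mul_apply]
      split_ifs with h0
      · rw [show (extA D.w4 d4 : Perm (Fin N)) p = two from Fin.ext (by rw [D.d4_lt hp, h0]), h2]
      · rw [show (extA D.w4 d4 : Perm (Fin N)) p = c from Fin.ext (by rw [D.d4_lt hp]; show _ = 3; omega)]
    by_cases hb3 : b = c
    · have e : D.cv h D.tu = D.tu := by
        rw [hU, tu_eq]
        refine D.eq_of_f C2 D.injP2 ?_ ⟨_, rfl⟩ ⟨_, rfl⟩ ?_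
        · refine st_eq_of fun p hp => ?_
          convert mem_st_apply.2 hp using 1
          rw [hd p hp]
          refine Fin.ext ?_
          rw [D.d4_lt hp]
          split_ifs with h0
          · show 2 = _; omega
          · rw [hb3]; show 3 = _; omega
        · rw [f_cv_ψ, f_cv_ψ]
          congr 2
          refine Function.Embedding.ext fun i => Fin.ext ?_
          have hi : ((e2 (N := N) 0 (by omega) i : Fin N) : ℕ) = i := by show 0 + (i : ℕ) = i; omega
          rw [pEmb_apply, pEmb_apply, hd _ (by rw [hi]; exact i.2), D.d4_lt (by rw [hi]; exact i.2), hi]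
          split_ifs with h0
          · show 2 = _; omega
          · rw [hb3]; show 3 = _; omega
      rw [e]
      obtain ⟨z', -, ez⟩ := hs
      rw [← ez, tu_conj]
      exact ⟨_, rfl⟩
    · have n2 : two ≠ b := fun e => by
        have := congrArg Fin.val e
        simp only [two] at this; omega
      obtain ⟨t, ht⟩ := exists_tri hN (show two ≠ c by simp [two, c, Fin.ext_iff]) n2 (Ne.symm hb3)
      have t01 : ∀ p : Fin N, (p : ℕ) < 2 → ((t : Perm (Fin N)) p : ℕ) = (p : ℕ) + 2 := fun p hp => by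
        obtain h0 | h0 : (p : ℕ) = 0 ∨ (p : ℕ) = 1 := by omega
        · rw [(ht p).1 h0, h0]
        · rw [(ht p).2.1 h0, h0]
      -- the moved element inside the triple
      have hin : D.cv (t⁻¹ * (h * extA D.w4 d4)) (D.ψ (tA D.hF)) ∈ D.P3 := by
        refine D.pair_in_three C2 (fun p hp => ?_) ⟨_, rfl⟩
        obtain ⟨r, hr, rfl⟩ := mem_st.1 hp
        rw [Subgroup.coe_mul, Perm.mul_apply, hd r hr, InvMemClass.coe_inv]
        split_ifs with h0
        · rw [show ((t : Perm (Fin N))⁻¹ two) = ⟨0, by omega⟩ by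
            rw [Perm.inv_def, Equiv.symm_apply_eq, (ht _).1 rfl]]
          show 0 < 3; omega
        · rw [show ((t : Perm (Fin N))⁻¹ b) = two by
            rw [Perm.inv_def, Equiv.symm_apply_eq, (ht _).2.2 rfl]]
          show 2 < 3; omega
      obtain ⟨z', ez⟩ := hin
      have ez' : D.cv h D.tu = D.cv t (D.χ z') := by rw [ez, cv_cv, mul_inv_cancel_left, hU]
      have hz' : z' = emb (pairEmb (0 : Fin 3) 2 (by decide)) (tA D.hF) := by
        refine emb_injective (pEmb t (e3 0 (by omega))) ?_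
        rw [← D.f_cv_χ, ← ez', hU, f_cv_ψ, emb_trans]
        congr 2
        refine Function.Embedding.ext fun i => ?_
        rw [pEmb_apply, hd _ (by show 0 + (i : ℕ) < 2; omega), Function.Embedding.trans_apply, pEmb_apply]
        obtain rfl | rfl : i = 0 ∨ i = 1 := by omega
        · rw [if_pos (show ((e2 (N := N) 0 (by omega) 0 : Fin N) : ℕ) = 0 from rfl)]; exact ((ht _).1 rfl).symm
        · rw [if_neg (by show ¬ (0 + 1 = 0); omega)]; exact ((ht _).2.2 rfl).symm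
      rw [ez', hz', emb_pair02, map_mul, map_mul, ← D.tu_triple C2 hS hg0 av t01]
      have hv : Commute (D.cv t (D.χ (hi (tA D.hF)))) s := by
        rw [chi_hi, cv_cv]
        refine D.out_S0 C2 hS hg0 av (fun p hp => ?_) _ ⟨_, rfl⟩ s hs
        obtain ⟨r, hr, rfl⟩ := mem_st.1 hp
        rw [Subgroup.coe_mul, Perm.mul_apply]
        obtain h0 | h0 : (r : ℕ) = 0 ∨ (r : ℕ) = 1 := by omega
        · rw [(ht _).2.1 (by rw [D.c4_lt hr, h0])]
        · rw [(ht _).2.2 (by rw [D.c4_lt hr, h0])]; exact hb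
      obtain ⟨z'', -, es⟩ := hs
      rw [show ∀ a v : X, a * v * s * (a * v)⁻¹ = a * (v * s * v⁻¹) * a⁻¹ from fun a v => by group,
        hv.eq, mul_inv_cancel_right, ← es, tu_conj]
      exact ⟨_, rfl⟩
  exact hle (Subgroup.mem_top z)

/-- Invariance of the triple under its stabiliser. -/
theorem inv_three : D.Inv' 3 D.P3 := by
  have hN := D.hN
  intro h hh x hx
  let two : Fin N := ⟨2, by omega⟩
  have hlt : ((h : Perm (Fin N)) two : ℕ) < 3 := (hh two).2 (show 2 < 3 by omega)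
  have key : ∀ u : Fin 3, ∃ π : alternatingGroup (Fin 3), (π : Perm (Fin 3)) 2 = u := by decide
  obtain ⟨π, hπ⟩ := key ⟨_, hlt⟩
  set c := extA D.w4 (extA tri0 π) with hc
  have hv : ∀ i : Fin 3, (D.w4 (tri0 i) : ℕ) = i := fun i => by rw [D.w4_val]; show 0 + (i : ℕ) = i; omega
  have hc3 : Stab 3 c := by
    intro p
    have h1 : ∀ (π : alternatingGroup (Fin 3)) (p : Fin N), (p : ℕ) < 3 →
        (((extA D.w4 (extA tri0 π)) : Perm (Fin N)) p : ℕ) < 3 := fun π p hp => by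
      obtain ⟨i, rfl⟩ : ∃ i, D.w4 (tri0 i) = p := ⟨⟨p, hp⟩, Fin.ext (hv _)⟩
      rw [extA_apply, extA_apply, hv]; exact Fin.is_lt _
    refine ⟨fun hp => ?_, h1 π p⟩
    have := h1 π⁻¹ _ hp
    rwa [map_inv, map_inv, InvMemClass.coe_inv, Perm.inv_def, Equiv.symm_apply_apply] at this
  have hc2 : (c : Perm (Fin N)) two = (h : Perm (Fin N)) two := by
    rw [show two = D.w4 (tri0 2) from Fin.ext (hv 2).symm, hc, extA_apply, extA_apply]
    refine Fin.ext ?_
    rw [hv, hπ, show D.w4 (tri0 2) = two from Fin.ext (hv 2)]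
  have hst : Stab 3 (c⁻¹ * h) := fun p => by
    have e := hc3 (((c⁻¹ * h : alternatingGroup (Fin N)) : Perm (Fin N)) p)
    rw [← e, ← hh p, Subgroup.coe_mul, InvMemClass.coe_inv, Perm.mul_apply, Perm.inv_def,
      Equiv.apply_symm_apply]
  obtain ⟨π', hπ'⟩ := exists_theta (a := (⟨0, by omega⟩ : Fin N)) (b := ⟨1, by omega⟩) D.hN3
    (show 0 < 3 by omega) (show 1 < 3 by omega) (by simp [Fin.ext_iff]) hst (fun p hp h0 h1 => by
      obtain rfl : p = two := by simp only [ne_eq, Fin.ext_iff, two] at h0 h1 ⊢; omega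
      rw [Subgroup.coe_mul, InvMemClass.coe_inv, Perm.mul_apply, Perm.inv_def, Equiv.symm_apply_eq, hc2])
  have h1 : D.cv (c⁻¹ * h) x ∈ D.P3 := by rw [← hπ']; exact D.inv_fix C2 hS hg0 av π' x hx
  obtain ⟨z, ez⟩ := h1
  rw [show h = c * (c⁻¹ * h) by group, ← cv_cv, ← ez, hc, cv_three]
  exact ⟨_, rfl⟩

/-- Outside pairs commute with the triple. -/
theorem comm_AV : ∀ g, Disjoint (st 2 g) (st 3 1) → ∀ x ∈ D.P2, ∀ y ∈ D.P3, Commute (D.cv g x) y := by
  have hN := D.hN
  intro g hd x hx y hy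
  have hg : ∀ p ∈ st 2 g, 3 ≤ (p : ℕ) := fun p hp => by
    by_contra hlt
    exact Set.disjoint_left.1 hd hp (st_one_of.2 (Nat.lt_of_not_le hlt))
  have hS0 : ∀ g, (∀ p ∈ st 2 g, 3 ≤ (p : ℕ)) → ∀ x ∈ D.P2, ∀ s ∈ D.S0, Commute (D.cv g x) s :=
    fun g hg => D.out_S0 C2 hS hg0 av hg
  obtain ⟨z, rfl⟩ := hy
  refine D.commute_of_le (x := D.cv g x) (le_of_eq (eq_top_two D.hF (fun z hz => ?_) ?_).symm) (Subgroup.mem_top z)
  · show D.χ z ∈ Subgroup.centralizer {D.cv g x}
    rw [Subgroup.mem_centralizer_singleton_iff]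
    exact (hS0 g hg x hx _ ⟨z, hz, rfl⟩).eq.symm
  · show D.χ (tw D.hF (four D.hF)) ∈ Subgroup.centralizer {D.cv g x}
    rw [Subgroup.mem_centralizer_singleton_iff]
    -- the conjugated pair
    have hX : ∃ g' x', x' ∈ D.P2 ∧ (∀ p ∈ st 2 g', 3 ≤ (p : ℕ)) ∧ D.tu⁻¹ * D.cv g x * D.tu = D.cv g' x' := by
      let c : Fin N := ⟨3, by omega⟩
      by_cases h3 : c ∈ st 2 g
      · obtain ⟨r, hr, hrc⟩ := mem_st.1 h3
        let r' : Fin N := ⟨1 - (r : ℕ), by omega⟩
        let b : Fin N := (g : Perm (Fin N)) r'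
        let two : Fin N := ⟨2, by omega⟩
        have hr' : (r' : ℕ) < 2 := by show 1 - (r : ℕ) < 2; omega
        have hb : 3 ≤ (b : ℕ) := hg _ (mem_st_apply.2 hr')
        have hbc : b ≠ c := fun e => by
          have := congrArg Fin.val ((g : Perm (Fin N)).injective (e.trans hrc.symm))
          simp only [r'] at this; omega
        have n2 : two ≠ b := fun e => by
          have := congrArg Fin.val e
          simp only [two] at this; omega
        obtain ⟨t, ht⟩ := exists_tri hN (show two ≠ c by simp [two, c, Fin.ext_iff]) n2 hbc.symm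
        have t01 : ∀ p : Fin N, (p : ℕ) < 2 → ((t : Perm (Fin N)) p : ℕ) = (p : ℕ) + 2 := fun p hp => by
          obtain h0 | h0 : (p : ℕ) = 0 ∨ (p : ℕ) = 1 := by omega
          · rw [(ht p).1 h0, h0]
          · rw [(ht p).2.1 h0, h0]
        have htc : ∀ u : Fin N, (u : ℕ) < 2 →
            ((t * extA D.w4 c4 : alternatingGroup (Fin N)) : Perm (Fin N)) u = if (u : ℕ) = 0 then c else b :=
          fun u hu => by
            rw [Subgroup.coe_mul, Perm.mul_apply]
            split_ifs with h0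
            · exact (ht _).2.1 (by rw [D.c4_lt hu, h0])
            · exact (ht _).2.2 (by rw [D.c4_lt hu]; omega)
        have hout : ∀ p ∈ st 2 (t * extA D.w4 c4), 3 ≤ (p : ℕ) := fun p hp => by
          obtain ⟨u, hu, rfl⟩ := mem_st.1 hp
          rw [htc u hu]
          split_ifs
          · exact le_refl 3
          · exact hb
        have hst : st 2 g = st 2 (t * extA D.w4 c4) := by
          refine (st_eq_of fun u hu => ?_).symm
          rw [htc u hu]
          split_ifs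
          · exact h3
          · exact mem_st_apply.2 hr'
        obtain ⟨_, ⟨w, rfl⟩, e⟩ := D.move C2 hst hx
        obtain ⟨w', hw⟩ := lo_normal D.hF w
        refine ⟨t * extA D.w4 c4, D.ψ w', ⟨_, rfl⟩, hout, ?_⟩
        rw [e, D.tu_triple C2 hS hg0 av t01, ← cv_cv, ← cv_cv, ← chi_hi, ← chi_hi, ← hw, map_mul, map_mul,
          map_mul, map_mul, map_inv, map_inv]
      · refine ⟨g, x, hx, hg, ?_⟩
        have hcm : Commute (D.cv g x) D.tu := by
          rw [tu_eq]
          refine D.comm22 C2 (Set.disjoint_left.2 fun p hp hp' => ?_) hx ⟨_, rfl⟩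
          obtain ⟨u, hu, rfl⟩ := mem_st.1 hp'
          have := hg _ hp
          obtain h0 | h0 : (u : ℕ) = 0 ∨ (u : ℕ) = 1 := by omega
          · rw [D.d4_lt hu] at this; omega
          · exact h3 (by
              convert hp using 1
              exact Fin.ext (by rw [D.d4_lt hu]; show 3 = _; omega))
        rw [mul_assoc, hcm.eq, inv_mul_cancel_left]
    obtain ⟨g', x', hx', hg', e⟩ := hX
    rw [← tu_conj]
    have h1 : Commute (D.tu⁻¹ * D.cv g x * D.tu) (D.χ (four D.hF)) := by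
      rw [e]; exact hS0 g' hg' x' hx' _ ⟨_, four_mem_H0 D.hF, rfl⟩
    have h2 := h1.map (MulAut.conj D.tu).toMonoidHom
    simp only [MulEquiv.coe_toMonoidHom, MulAut.conj_apply] at h2
    rw [show D.tu * (D.tu⁻¹ * D.cv g x * D.tu) * D.tu⁻¹ = D.cv g x by group] at h2
    exact h2.eq.symm

end Six

end Cfsg.Agent.H81.SUSix
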